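/-
Direct sums of cyclic modules `R/(h)` indexed by a list, the two block lemma (Smith form)
and the existence of invariant factor chains.
-/
import Mathlib

set_option autoImplicit false

namespace Cfsg.Agent.Lib.ClassNum

open Polynomial Module

universe u

section general

variable {R : Type u} [CommRing R]

/-- the direct sum of the cyclic modules `R/(h)`, `h ∈ H`. -/
def BM : List R → Type u
  | [] => PUnit.{u+1}
  | h :: H => (R ⧸ Ideal.span {h}) × BM H

noncomputable instance BM.instACG : (H : List R) → AddCommGroup (BM H)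
  | [] => (inferInstance : AddCommGroup PUnit.{u+1})
  | h :: H => letI := BM.instACG H; (inferInstance : AddCommGroup ((R ⧸ Ideal.span {h}) × BM H))

noncomputable instance BM.instMod : (H : List R) → Module R (BM H)
  | [] => (inferInstance : Module R PUnit.{u+1})
  | h :: H => letI := BM.instMod H; (inferInstance : Module R ((R ⧸ Ideal.span {h}) × BM H))

/-- unfolding `BM` on a cons. -/
noncomputable def BM.consEquiv (h : R) (H : List R) :
    BM (h :: H) ≃ₗ[R] (R ⧸ Ideal.span {h}) × BM H := LinearEquiv.refl R _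

/-- `BM []` is trivial. -/
instance BM.instSubsingleton : Subsingleton (BM ([] : List R)) :=
  inferInstanceAs (Subsingleton PUnit.{u+1})

/-- the map on quotients induced by multiplication by `c`. -/
noncomputable def mq (a b c : R) (h : b ∣ c * a) :
    (R ⧸ Ideal.span {a}) →ₗ[R] (R ⧸ Ideal.span {b}) :=
  Submodule.mapQ _ _ (LinearMap.mulLeft R c) (by
    refine Ideal.span_le.2 ?_
    rw [Set.singleton_subset_iff]
    simp only [Submodule.comap_coe, Set.mem_preimage, SetLike.mem_coe, LinearMap.coe_coe,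
      LinearMap.mulLeft_apply]
    exact Ideal.mem_span_singleton.2 h)

@[simp] theorem mq_mk (a b c : R) (h : b ∣ c * a) (r : R) :
    mq a b c h (Submodule.Quotient.mk r) = Submodule.Quotient.mk (c * r) := rfl

/-- the two block lemma. -/
noncomputable def twoBlock (D x y u v : R) (huv : u * x + v * y = 1) :
    ((R ⧸ Ideal.span {D * x}) × (R ⧸ Ideal.span {D * y}))
      ≃ₗ[R] ((R ⧸ Ideal.span {D * x * y}) × (R ⧸ Ideal.span {D})) :=
  LinearEquiv.ofLinearMap
    (LinearMap.prod
      ((mq (D * x) (D * x * y) (-y) ⟨-1, by ring⟩).comp (LinearMap.fst R _ _)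
        + (mq (D * y) (D * x * y) x ⟨1, by ring⟩).comp (LinearMap.snd R _ _))
      ((mq (D * x) D u ⟨u * x, by ring⟩).comp (LinearMap.fst R _ _)
        + (mq (D * y) D v ⟨v * y, by ring⟩).comp (LinearMap.snd R _ _)))
    (LinearMap.prod
      ((mq (D * x * y) (D * x) (-v) ⟨-v * y, by ring⟩).comp (LinearMap.fst R _ _)
        + (mq D (D * x) x ⟨1, by ring⟩).comp (LinearMap.snd R _ _))
      ((mq (D * x * y) (D * y) u ⟨u * x, by ring⟩).comp (LinearMap.fst R _ _)
        + (mq D (D * y) y ⟨1, by ring⟩).comp (LinearMap.snd R _ _)))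
    (by
      apply LinearMap.ext
      rintro ⟨a, b⟩
      induction a using Submodule.Quotient.induction_on with
      | H a =>
      induction b using Submodule.Quotient.induction_on with
      | H b =>
      apply Prod.ext
      · simp only [LinearMap.comp_apply, LinearMap.prod_apply, Function.prod, LinearMap.add_apply,
          LinearMap.fst_apply, LinearMap.snd_apply, mq_mk, LinearMap.id_apply,
          ← Submodule.Quotient.mk_add, map_add]
        congr 1
        linear_combination (a) * huv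
      · simp only [LinearMap.comp_apply, LinearMap.prod_apply, Function.prod, LinearMap.add_apply,
          LinearMap.fst_apply, LinearMap.snd_apply, mq_mk, LinearMap.id_apply,
          ← Submodule.Quotient.mk_add, map_add]
        congr 1
        linear_combination (b) * huv)
    (by
      apply LinearMap.ext
      rintro ⟨a, b⟩
      induction a using Submodule.Quotient.induction_on with
      | H a =>
      induction b using Submodule.Quotient.induction_on with
      | H b =>
      apply Prod.ext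
      · simp only [LinearMap.comp_apply, LinearMap.prod_apply, Function.prod, LinearMap.add_apply,
          LinearMap.fst_apply, LinearMap.snd_apply, mq_mk, LinearMap.id_apply,
          ← Submodule.Quotient.mk_add, map_add]
        congr 1
        linear_combination (a) * huv
      · simp only [LinearMap.comp_apply, LinearMap.prod_apply, Function.prod, LinearMap.add_apply,
          LinearMap.fst_apply, LinearMap.snd_apply, mq_mk, LinearMap.id_apply,
          ← Submodule.Quotient.mk_add, map_add]
        congr 1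
        linear_combination (b) * huv)

end general

section poly

variable {F : Type u} [Field F]

/-- gcd data for a monic polynomial and an arbitrary one. -/
theorem gcd_data (a b : F[X]) (ha : a.Monic) :
    ∃ D a' b' u v : F[X], D.Monic ∧ a = D * a' ∧ b = D * b' ∧ u * a' + v * b' = 1 ∧ a'.Monic := by
  classical
  set g := EuclideanDomain.gcd a b with hg
  have hg0 : g ≠ 0 := by
    intro h0
    have := EuclideanDomain.gcd_eq_zero_iff.1 h0
    exact ha.ne_zero this.1
  set lc := g.leadingCoeff with hlc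
  have hlc0 : lc ≠ 0 := leadingCoeff_ne_zero.2 hg0
  set D := g * C lc⁻¹ with hD
  have hDm : D.Monic := monic_mul_leadingCoeff_inv hg0
  obtain ⟨s, hs⟩ : g ∣ a := EuclideanDomain.gcd_dvd_left a b
  obtain ⟨t, ht⟩ : g ∣ b := EuclideanDomain.gcd_dvd_right a b
  have hgD : g = D * C lc := by
    rw [hD, mul_assoc, ← C_mul, inv_mul_cancel₀ hlc0, C_1, mul_one]
  have ha' : a = D * (C lc * s) := by
    conv_lhs => rw [hs, hgD]
    ring
  have hb' : b = D * (C lc * t) := by
    conv_lhs => rw [ht, hgD]
    ring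
  obtain ⟨A, B, hbez⟩ : ∃ A B : F[X], g = a * A + b * B :=
    ⟨_, _, EuclideanDomain.gcd_eq_gcd_ab a b⟩
  have hD0 : D ≠ 0 := hDm.ne_zero
  refine ⟨D, C lc * s, C lc * t, A * C lc⁻¹, B * C lc⁻¹, hDm, ha', hb', ?_, ?_⟩
  · apply mul_left_cancel₀ hD0
    calc D * (A * C lc⁻¹ * (C lc * s) + B * C lc⁻¹ * (C lc * t))
        = (D * (C lc * s) * A + D * (C lc * t) * B) * C lc⁻¹ := by ring
      _ = (a * A + b * B) * C lc⁻¹ := by rw [← ha', ← hb']
      _ = D * 1 := by rw [← hbez, mul_one]
  · apply Monic.of_mul_monic_left hDm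
    rwa [← ha']

variable {R : Type u}

/-- insertion into a chain, at level `d`. -/
theorem ins (d : ℕ) (a : F[X]) (H : List F[X]) (ha : a.Monic) (hH : ∀ h ∈ H, h.Monic)
    (hc : H.Pairwise (fun x y => y ∣ x)) :
    ∃ H' : List F[X], (∀ h ∈ H', h.Monic) ∧ H'.Pairwise (fun x y => y ∣ x) ∧
      Nonempty (((F[X] ⧸ Ideal.span {a ^ d}) × BM (H.map (· ^ d))) ≃ₗ[F[X]] BM (H'.map (· ^ d))) ∧
      ∀ m : F[X], a ∣ m → (∀ h ∈ H, h ∣ m) → ∀ h' ∈ H', h' ∣ m := by
  induction H generalizing a with
  | nil =>
    refine ⟨[a], by simpa using ha, by simp, ⟨?_⟩, ?_⟩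
    · exact LinearEquiv.refl _ _
    · intro m h1 _ h' hh'
      simp only [List.mem_singleton] at hh'
      rwa [hh']
  | cons h T ih =>
    obtain ⟨hh, hT⟩ : h.Monic ∧ ∀ t ∈ T, t.Monic := by
      simpa using hH
    obtain ⟨hchain, hcT⟩ := List.pairwise_cons.1 hc
    obtain ⟨D, x, y, u, v, hD, hax, hby, huv, hx⟩ := gcd_data a h ha
    have hy : y.Monic := by
      apply Monic.of_mul_monic_left hD
      rwa [← hby]
    obtain ⟨T', hT'm, hT'c, ⟨E⟩, hT'd⟩ := ih D hD hT hcT
    have hcop : IsCoprime (x ^ d) (y ^ d) := (show IsCoprime x y from ⟨u, v, huv⟩).pow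
    obtain ⟨u', v', huv'⟩ := hcop
    set l := D * x * y with hl
    refine ⟨l :: T', ?_, ?_, ⟨?_⟩, ?_⟩
    · intro k hk
      rcases List.mem_cons.1 hk with rfl | hk
      · exact (hD.mul hx).mul hy
      · exact hT'm k hk
    · refine List.pairwise_cons.2 ⟨?_, hT'c⟩
      intro k hk
      refine hT'd l ⟨x * y, by rw [hl]; ring⟩ ?_ k hk
      intro t ht
      exact dvd_trans (hchain t ht) ⟨x, by rw [hby, hl]; ring⟩
    · -- the equivalence
      have e1 : a ^ d = D ^ d * x ^ d := by rw [hax, mul_pow]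
      have e2 : h ^ d = D ^ d * y ^ d := by rw [hby, mul_pow]
      have e3 : l ^ d = D ^ d * x ^ d * y ^ d := by rw [hl, mul_pow, mul_pow]
      have tb := twoBlock (D ^ d) (x ^ d) (y ^ d) u' v' huv'
      rw [← e3, ← e1, ← e2] at tb
      exact ((LinearEquiv.prodCongr (LinearEquiv.refl _ _) (BM.consEquiv (h ^ d) (T.map (· ^ d)))).trans
        ((LinearEquiv.prodAssoc _ _ _ _).symm.trans
          ((LinearEquiv.prodCongr tb (LinearEquiv.refl _ _)).trans
            ((LinearEquiv.prodAssoc _ _ _ _).trans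
              (LinearEquiv.prodCongr (LinearEquiv.refl _ _) E)))))
    · intro m hm1 hm2 k hk
      rcases List.mem_cons.1 hk with rfl | hk
      · -- `l ∣ m`
        have hm3 : h ∣ m := hm2 h (by simp)
        obtain ⟨m1, hm1'⟩ := hm1
        obtain ⟨m2, hm2'⟩ := hm3
        rw [hax] at hm1'
        rw [hby] at hm2'
        have hD0 : D ≠ 0 := hD.ne_zero
        have h3 : x * m1 = y * m2 := by
          apply mul_left_cancel₀ hD0
          rw [← mul_assoc, ← mul_assoc, ← hm1', ← hm2']
        have h4 : y ∣ x * m1 := ⟨m2, h3⟩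
        have h5 : y ∣ m1 := (show IsCoprime y x from ⟨v, u, by rw [← huv]; ring⟩).dvd_of_dvd_mul_left h4
        obtain ⟨m3, hm3⟩ := h5
        exact ⟨m3, by rw [hm1', hm3, hl]; ring⟩
      · refine hT'd m ?_ ?_ k hk
        · exact dvd_trans ⟨x, hax⟩ hm1
        · intro t ht
          exact hm2 t (by simp [ht])

/-- the invariant factor chain of a direct sum of cyclic modules, at level `d`. -/
theorem family (d : ℕ) (ι : Type u) [Fintype ι] (a : ι → F[X]) (ha : ∀ i, (a i).Monic) :
    ∃ H : List F[X], (∀ h ∈ H, h.Monic) ∧ H.Pairwise (fun x y => y ∣ x) ∧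
      Nonempty ((∀ i, F[X] ⧸ Ideal.span {a i ^ d}) ≃ₗ[F[X]] BM (H.map (· ^ d))) := by
  revert a
  refine Fintype.induction_empty_option
    (P := fun ι _ => ∀ a : ι → F[X], (∀ i, (a i).Monic) →
      ∃ H : List F[X], (∀ h ∈ H, h.Monic) ∧ H.Pairwise (fun x y => y ∣ x) ∧
        Nonempty ((∀ i, F[X] ⧸ Ideal.span {a i ^ d}) ≃ₗ[F[X]] BM (H.map (· ^ d)))) ?_ ?_ ?_ ι
  · intro α β _ e h a ha
    obtain ⟨H, h1, h2, ⟨E⟩⟩ := h (fun i => a (e i)) (fun i => ha _)
    refine ⟨H, h1, h2, ⟨?_⟩⟩
    exact (LinearEquiv.piCongrLeft F[X] (fun j => F[X] ⧸ Ideal.span {a j ^ d}) e).symm.trans E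
  · intro a _
    refine ⟨[], by simp, by simp, ⟨?_⟩⟩
    haveI : Subsingleton (BM (([] : List F[X]).map (· ^ d))) := BM.instSubsingleton
    exact LinearEquiv.ofSubsingleton _ _
  · intro α _ h a ha
    obtain ⟨H, h1, h2, ⟨E⟩⟩ := h (fun i => a (some i)) (fun i => ha _)
    obtain ⟨H', h3, h4, ⟨E'⟩, -⟩ := ins d (a none) H (ha _) h1 h2
    refine ⟨H', h3, h4, ⟨?_⟩⟩
    exact (LinearEquiv.piOptionEquivProd F[X]).trans
      ((LinearEquiv.prodCongr (LinearEquiv.refl _ _) E).trans E')

end poly

end Cfsg.Agent.Lib.ClassNum
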