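/-
Counting functions for chain data and the generating function identity
`∏ (1 - X^m) / (1 - q X^m) = ∑ (q X)^ℓ ∏_{i > ℓ} (1 - X^i)`.
-/
import Mathlib

set_option autoImplicit false

namespace Cfsg.Agent.Lib.ClassNum

open Finset PowerSeries

/-- the number of monic polynomials of degree `d` with non-zero constant term. -/
def aa (q d : ℕ) : ℕ := if d = 0 then 1 else (q - 1) * q ^ (d - 1)

@[simp] theorem aa_zero (q : ℕ) : aa q 0 = 1 := rfl

theorem aa_succ (q d : ℕ) : aa q (d + 1) = (q - 1) * q ^ d := by simp [aa]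

/-- the number of lists `[g_k, …, g_{k+s-1}]` of such polynomials with
`∑ (k + i) deg g_{k+i} = n`. -/
def CC (q : ℕ) : ℕ → ℕ → ℕ → ℕ
  | _, 0, n => if n = 0 then 1 else 0
  | k, s + 1, n => ∑ d ∈ range (n / k + 1), aa q d * CC q (k + 1) s (n - k * d)

theorem CC_zero (q k n : ℕ) : CC q k 0 n = if n = 0 then 1 else 0 := by
  simp [CC]

theorem CC_succ (q k s n : ℕ) :
    CC q k (s + 1) n = ∑ d ∈ range (n / k + 1), aa q d * CC q (k + 1) s (n - k * d) := by
  simp [CC]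

/-- the coefficient recursion -/
theorem CC_rec (q k s n : ℕ) (hq : 1 ≤ q) (hk : 1 ≤ k) :
    (CC q k (s + 1) n : ℤ) - q * (if k ≤ n then (CC q k (s + 1) (n - k) : ℤ) else 0)
      = CC q (k + 1) s n - (if k ≤ n then (CC q (k + 1) s (n - k) : ℤ) else 0) := by
  by_cases hn : k ≤ n
  · rw [if_pos hn, if_pos hn, CC_succ, CC_succ]
    have hdiv : n / k = (n - k) / k + 1 := by
      rw [Nat.div_eq_sub_div (by omega) hn]
    rw [hdiv, sum_range_succ']
    push_cast
    rw [mul_sum]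
    have hqq : ((q - 1 : ℕ) : ℤ) = (q : ℤ) - 1 := by
      rw [Nat.cast_sub hq]; simp
    have key : ∀ d ∈ range ((n - k) / k + 1),
        (aa q (d + 1) : ℤ) * (CC q (k + 1) s (n - k * (d + 1)) : ℤ)
          = (q : ℤ) * ((aa q d : ℤ) * (CC q (k + 1) s (n - k - k * d) : ℤ))
            - (if d = 0 then (CC q (k + 1) s (n - k) : ℤ) else 0) := by
      intro d _
      have hidx : n - k * (d + 1) = n - k - k * d := by
        rw [Nat.mul_succ, Nat.sub_sub, add_comm]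
      rw [hidx]
      rcases d with _ | d
      · simp only [aa_succ, aa_zero, pow_zero, mul_one, mul_zero, Nat.sub_zero, if_true]
        push_cast
        rw [hqq]; ring
      · simp only [aa_succ, Nat.succ_ne_zero, if_false]
        push_cast
        rw [hqq]; ring
    rw [sum_congr rfl key, sum_sub_distrib]
    have hif : ∑ x ∈ range ((n - k) / k + 1), (if x = 0 then (CC q (k + 1) s (n - k) : ℤ) else 0)
        = (CC q (k + 1) s (n - k) : ℤ) := by
      rw [sum_ite_eq' (range ((n - k) / k + 1)) 0]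
      simp
    rw [hif]
    simp only [aa_zero, Nat.mul_zero, Nat.sub_zero, Nat.cast_one, one_mul]
    ring
  · rw [if_neg hn, if_neg hn, CC_succ]
    have : n / k = 0 := Nat.div_eq_of_lt (by omega)
    rw [this]
    simp

/-- generating series. -/
noncomputable def PS (q k s : ℕ) : PowerSeries ℤ := PowerSeries.mk fun n => (CC q k s n : ℤ)

@[simp] theorem coeff_PS (q k s n : ℕ) : coeff n (PS q k s) = (CC q k s n : ℤ) := by
  simp [PS]

theorem PS_zero (q k : ℕ) : PS q k 0 = 1 := by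
  ext n
  rw [coeff_PS, CC_zero, coeff_one]
  split_ifs <;> simp

theorem PS_rec (q k s : ℕ) (hq : 1 ≤ q) (hk : 1 ≤ k) :
    PS q k (s + 1) * (1 - C (q : ℤ) * X ^ k) = PS q (k + 1) s * (1 - X ^ k) := by
  ext n
  have h1 : ∀ f : PowerSeries ℤ, coeff n (f * (1 - C (q : ℤ) * X ^ k))
      = coeff n f - (q : ℤ) * (if k ≤ n then coeff (n - k) f else 0) := by
    intro f
    rw [mul_sub, mul_one, map_sub]
    congr 1
    rw [mul_comm (C (q : ℤ)), ← mul_assoc, mul_comm, ← mul_assoc]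
    rw [show (C (q : ℤ) * f) * X ^ k = f * C (q : ℤ) * X ^ k by ring]
    rw [coeff_mul_X_pow', mul_comm f, coeff_C_mul]
    split_ifs <;> simp
  have h2 : ∀ f : PowerSeries ℤ, coeff n (f * (1 - X ^ k))
      = coeff n f - (if k ≤ n then coeff (n - k) f else 0) := by
    intro f
    rw [mul_sub, mul_one, map_sub, coeff_mul_X_pow']
  rw [h1, h2]
  simp only [coeff_PS]
  exact CC_rec q k s n hq hk

/-- truncated product over `i ∈ (ℓ, ℓ + t]`. -/
noncomputable def EE (ℓ t : ℕ) : PowerSeries ℤ := ∏ i ∈ range t, (1 - X ^ (ℓ + 1 + i))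

@[simp] theorem EE_zero (ℓ : ℕ) : EE ℓ 0 = 1 := by simp [EE]

theorem EE_succ (ℓ t : ℕ) : EE ℓ (t + 1) = (1 - X ^ (ℓ + 1)) * EE (ℓ + 1) t := by
  unfold EE
  rw [prod_range_succ', mul_comm]
  congr 1
  apply prod_congr rfl
  intro i _
  congr 2
  omega

/-- the coefficients of `EE`. -/
def eAux : ℕ → ℕ → ℕ → ℤ
  | 0, _, s => if s = 0 then 1 else 0
  | t + 1, ℓ, s => eAux t (ℓ + 1) s - (if ℓ + 1 ≤ s then eAux t (ℓ + 1) (s - (ℓ + 1)) else 0)

theorem coeff_EE (ℓ t s : ℕ) : coeff s (EE ℓ t) = eAux t ℓ s := by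
  induction t generalizing ℓ s with
  | zero =>
    rw [EE_zero, coeff_one]
    simp [eAux]
  | succ t ih =>
    rw [EE_succ, sub_mul, one_mul, map_sub, coeff_X_pow_mul', ih, eAux]
    split_ifs
    · rw [ih]
    · rfl

section identity

variable (q M : ℕ)

/-- the auxiliary series. -/
noncomputable def GG (K : ℕ) : PowerSeries ℤ :=
  ∑ ℓ ∈ range (M + 1), C ((q : ℤ) ^ ℓ) * X ^ (K * ℓ) * EE ℓ (M - ℓ)

theorem EE_step (ℓ : ℕ) (hℓ : ℓ < M) :
    EE (ℓ + 1) (M - (ℓ + 1)) - EE ℓ (M - ℓ) = X ^ (ℓ + 1) * EE (ℓ + 1) (M - (ℓ + 1)) := by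
  have : M - ℓ = (M - (ℓ + 1)) + 1 := by omega
  rw [this, EE_succ]
  ring

theorem GG_step (K : ℕ) :
    (1 - C (q : ℤ) * X ^ K) * GG q M K
      = GG q M (K + 1) - C ((q : ℤ) ^ (M + 1)) * X ^ (K * (M + 1)) := by
  -- induction on the upper summation limit, in a general form
  have gen : ∀ m, m ≤ M →
      (1 - C (q : ℤ) * X ^ K) * (∑ ℓ ∈ range (m + 1), C ((q : ℤ) ^ ℓ) * X ^ (K * ℓ) * EE ℓ (M - ℓ))
        = (∑ ℓ ∈ range (m + 1), C ((q : ℤ) ^ ℓ) * X ^ ((K + 1) * ℓ) * EE ℓ (M - ℓ))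
          - C ((q : ℤ) ^ (m + 1)) * X ^ (K * (m + 1)) * EE m (M - m) := by
    intro m
    induction m with
    | zero =>
      intro _
      simp only [zero_add, range_one, sum_singleton, pow_zero, mul_zero, map_one, one_mul,
        mul_one, pow_one]
      ring
    | succ m ih =>
      intro hm
      rw [sum_range_succ, sum_range_succ _ (m + 1), mul_add, ih (by omega)]
      have h := EE_step M m (by omega)
      have h3 : EE (m + 1) (M - (m + 1)) = EE m (M - m) + X ^ (m + 1) * EE (m + 1) (M - (m + 1)) := by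
        rw [← h]; ring
      have e1 : ((q : ℤ) ^ (m + 1 + 1)) = (q : ℤ) * (q : ℤ) ^ (m + 1) := by ring
      rw [e1, map_mul]
      have e2 : (X : PowerSeries ℤ) ^ (K * (m + 1 + 1)) = X ^ K * X ^ (K * (m + 1)) := by
        rw [← pow_add]; congr 1; ring
      have e3 : (X : PowerSeries ℤ) ^ ((K + 1) * (m + 1)) = X ^ (K * (m + 1)) * X ^ (m + 1) := by
        rw [← pow_add]; congr 1; ring
      rw [e2, e3]
      generalize (∑ ℓ ∈ range (m + 1), C ((q : ℤ) ^ ℓ) * X ^ ((K + 1) * ℓ) * EE ℓ (M - ℓ)) = S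
      generalize EE (m + 1) (M - (m + 1)) = E1 at h3 ⊢
      generalize EE m (M - m) = E0 at h3 ⊢
      generalize (C ((q : ℤ) ^ (m + 1)) : PowerSeries ℤ) = c
      generalize (X : PowerSeries ℤ) ^ (K * (m + 1)) = x1 at *
      generalize (C (q : ℤ) : PowerSeries ℤ) = cq
      have h4 : E0 = E1 - X ^ (m + 1) * E1 := by linear_combination (-1 : PowerSeries ℤ) * h3
      rw [h4]
      ring
  have := gen M le_rfl
  unfold GG
  rw [this]
  simp

theorem GG_iter (t : ℕ) :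
    (X : PowerSeries ℤ) ^ (M + 1) ∣
      GG q M 1 * (∏ i ∈ range t, (1 - C (q : ℤ) * X ^ (1 + i))) - GG q M (1 + t) := by
  induction t with
  | zero => simp
  | succ t ih =>
    rw [prod_range_succ, ← mul_assoc]
    obtain ⟨y, hy⟩ := ih
    have h1 : GG q M 1 * ∏ i ∈ range t, (1 - C (q : ℤ) * X ^ (1 + i))
        = GG q M (1 + t) + X ^ (M + 1) * y := by
      rw [← hy]; ring
    rw [h1, add_mul, mul_comm (GG q M (1 + t)), GG_step]
    have h2 : (X : PowerSeries ℤ) ^ (M + 1) ∣ X ^ ((1 + t) * (M + 1)) :=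
      pow_dvd_pow _ (Nat.le_mul_of_pos_left _ (by omega))
    obtain ⟨z, hz⟩ := h2
    rw [hz, show 1 + (t + 1) = 1 + t + 1 by ring]
    refine ⟨y * (1 - C (q : ℤ) * X ^ (1 + t)) - C ((q : ℤ) ^ (M + 1)) * z, ?_⟩
    ring

theorem GG_top : (X : PowerSeries ℤ) ^ (M + 1) ∣ GG q M (1 + M) - EE 0 M := by
  unfold GG
  rw [sum_range_succ']
  simp only [mul_zero, pow_zero, map_one, one_mul, mul_one, Nat.sub_zero, add_sub_cancel_right]
  apply dvd_sum
  intro ℓ _
  have : (X : PowerSeries ℤ) ^ (M + 1) ∣ X ^ ((1 + M) * (ℓ + 1)) :=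
    pow_dvd_pow _ (by nlinarith)
  exact dvd_mul_of_dvd_left (dvd_mul_of_dvd_right this _) _

theorem PS_prod (k s : ℕ) (hq : 1 ≤ q) (hk : 1 ≤ k) :
    PS q k s * (∏ i ∈ range s, (1 - C (q : ℤ) * X ^ (k + i)))
      = ∏ i ∈ range s, (1 - X ^ (k + i)) := by
  induction s generalizing k with
  | zero => simp [PS_zero]
  | succ s ih =>
    rw [prod_range_succ', prod_range_succ']
    have := ih (k + 1) (by omega)
    have h1 : ∏ i ∈ range s, (1 - C (q : ℤ) * X ^ (k + (i + 1)))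
        = ∏ i ∈ range s, (1 - C (q : ℤ) * X ^ (k + 1 + i)) :=
      prod_congr rfl (fun i _ => by rw [show k + (i + 1) = k + 1 + i by ring])
    have h2 : ∏ i ∈ range s, (1 - (X : PowerSeries ℤ) ^ (k + (i + 1)))
        = ∏ i ∈ range s, (1 - X ^ (k + 1 + i)) :=
      prod_congr rfl (fun i _ => by rw [show k + (i + 1) = k + 1 + i by ring])
    rw [h1, h2, add_zero]
    calc PS q k (s + 1) * ((∏ i ∈ range s, (1 - C (q : ℤ) * X ^ (k + 1 + i))) * (1 - C (q : ℤ) * X ^ k))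
        = (PS q k (s + 1) * (1 - C (q : ℤ) * X ^ k)) * ∏ i ∈ range s, (1 - C (q : ℤ) * X ^ (k + 1 + i)) := by ring
      _ = (PS q (k + 1) s * (1 - X ^ k)) * ∏ i ∈ range s, (1 - C (q : ℤ) * X ^ (k + 1 + i)) := by
          rw [PS_rec q k s hq hk]
      _ = (PS q (k + 1) s * ∏ i ∈ range s, (1 - C (q : ℤ) * X ^ (k + 1 + i))) * (1 - X ^ k) := by ring
      _ = _ := by rw [this]

theorem unit_prod (s : ℕ) : IsUnit (∏ i ∈ range s, (1 - C (q : ℤ) * X ^ (1 + i))) := by
  rw [PowerSeries.isUnit_iff_constantCoeff, map_prod]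
  apply Finset.prod_induction _ IsUnit
  · exact fun a b => IsUnit.mul
  · exact isUnit_one
  · intro i _
    simp

theorem dvd_PS_sub (hq : 1 ≤ q) : (X : PowerSeries ℤ) ^ (M + 1) ∣ PS q 1 M - GG q M 1 := by
  have h1 := GG_iter q M M
  have h2 := GG_top q M
  have h3 := PS_prod q 1 M hq le_rfl
  have h4 : EE 0 M = ∏ i ∈ range M, (1 - X ^ (1 + i)) := by
    unfold EE; simp
  have h5 : (X : PowerSeries ℤ) ^ (M + 1) ∣
      (PS q 1 M - GG q M 1) * ∏ i ∈ range M, (1 - C (q : ℤ) * X ^ (1 + i)) := by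
    have : (PS q 1 M - GG q M 1) * ∏ i ∈ range M, (1 - C (q : ℤ) * X ^ (1 + i))
        = - ((GG q M 1 * (∏ i ∈ range M, (1 - C (q : ℤ) * X ^ (1 + i))) - GG q M (1 + M))
            + (GG q M (1 + M) - EE 0 M)) := by
      rw [sub_mul, h3, h4]; ring
    rw [this]
    exact (dvd_neg).2 (dvd_add h1 h2)
  exact (unit_prod q M).dvd_mul_right.1 h5

/-- the main identity. -/
theorem CC_eq_sum (hq : 1 ≤ q) (n : ℕ) (hn : n ≤ M) :
    (CC q 1 M n : ℤ) = ∑ ℓ ∈ range (n + 1), (q : ℤ) ^ ℓ * eAux (M - ℓ) ℓ (n - ℓ) := by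
  have h := dvd_PS_sub q M hq
  rw [X_pow_dvd_iff] at h
  have h1 := h n (by omega)
  rw [map_sub, sub_eq_zero, coeff_PS] at h1
  rw [h1]
  unfold GG
  rw [map_sum]
  have hsub : range (n + 1) ⊆ range (M + 1) := by
    intro x; simp only [mem_range]; omega
  rw [← sum_subset hsub]
  · apply sum_congr rfl
    intro ℓ hℓ
    have hℓn : ℓ ≤ n := by simpa [Nat.lt_succ_iff] using hℓ
    rw [one_mul, mul_assoc, coeff_C_mul, coeff_X_pow_mul', if_pos hℓn, coeff_EE]
  · intro ℓ _ hℓ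
    have hℓn : ¬ ℓ ≤ n := by simpa [Nat.lt_succ_iff] using hℓ
    rw [one_mul, mul_assoc, coeff_C_mul, coeff_X_pow_mul', if_neg hℓn, mul_zero]

end identity

end Cfsg.Agent.Lib.ClassNum
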