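/-
Small values of the sum `SS n`, computed by the kernel.
-/
import Cfsg.Agent.Lib.ClassNum.Gen

set_option autoImplicit false

namespace Cfsg.Agent.Lib.ClassNum

/-- a fast form of `eAux` -/
def ef : ℕ → ℕ → ℕ → ℤ
  | 0, _, s => if s = 0 then 1 else 0
  | t + 1, ℓ, s =>
    if s = 0 then 1 else if s ≤ ℓ then 0 else if s ≤ 2 * ℓ + 2 then -1
    else ef t (ℓ + 1) s - ef t (ℓ + 1) (s - (ℓ + 1))

/-- the stable value of the coefficient. -/
def ec (ℓ s : ℕ) : ℤ := ef (s - ℓ) ℓ s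

/-- partial sums of the low terms -/
def sumLow (n : ℕ) : ℕ → ℕ
  | 0 => 0
  | k + 1 => sumLow n k + (ec k (n - k)).natAbs * 2 ^ k

/-- the low sum -/
def SS (n : ℕ) : ℕ := sumLow n (n / 3)

/-- check up to `m` -/
def chk : ℕ → Bool
  | 0 => true
  | m + 1 => chk m && decide (SS (m + 1) ≤ 2 ^ (m / 2))

theorem chk44 : chk 44 = true := by decide +kernel

end Cfsg.Agent.Lib.ClassNum
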