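/-
The bound `q^n - 3 q^((n-1)/2) ≤ c_n ≤ q^n`.
-/
import Cfsg.Agent.Lib.ClassNum.Table

set_option autoImplicit false

namespace Cfsg.Agent.Lib.ClassNum

open Finset

theorem eAux_succ (t ℓ s : ℕ) :
    eAux (t + 1) ℓ s = eAux t (ℓ + 1) s - (if ℓ + 1 ≤ s then eAux t (ℓ + 1) (s - (ℓ + 1)) else 0) := by
  rw [eAux]

theorem eAux_zero_right (t ℓ : ℕ) : eAux t ℓ 0 = 1 := by
  induction t generalizing ℓ with
  | zero => simp [eAux]
  | succ t ih => rw [eAux_succ, ih]; simp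

theorem eAux_small (t ℓ s : ℕ) (h1 : 1 ≤ s) (h2 : s ≤ ℓ) : eAux t ℓ s = 0 := by
  induction t generalizing ℓ with
  | zero => simp [eAux]; omega
  | succ t ih =>
    rw [eAux_succ, ih (ℓ + 1) (by omega), if_neg (by omega)]
    simp

theorem eAux_mid (t ℓ s : ℕ) (h1 : ℓ < s) (h2 : s ≤ 2 * ℓ + 2) (h3 : s ≤ ℓ + t) : eAux t ℓ s = -1 := by
  induction t generalizing ℓ with
  | zero => omega
  | succ t ih =>
    rw [eAux_succ, if_pos (by omega)]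
    by_cases h : s = ℓ + 1
    · subst h
      rw [eAux_small t (ℓ + 1) (ℓ + 1) (by omega) le_rfl]
      simp [eAux_zero_right]
    · rw [ih (ℓ + 1) (by omega) (by omega) (by omega),
        eAux_small t (ℓ + 1) (s - (ℓ + 1)) (by omega) (by omega)]
      simp

theorem abs_eAux_le_one (t ℓ s : ℕ) (h2 : s ≤ 2 * ℓ + 2) : |eAux t ℓ s| ≤ 1 := by
  induction t generalizing ℓ s with
  | zero =>
    simp only [eAux]
    split_ifs <;> simp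
  | succ t ih =>
    rw [eAux_succ]
    by_cases h1 : ℓ + 1 ≤ s
    · rw [if_pos h1]
      by_cases h : s = ℓ + 1
      · subst h
        rw [eAux_small t (ℓ + 1) (ℓ + 1) (by omega) le_rfl]
        simp [eAux_zero_right]
      · rw [eAux_small t (ℓ + 1) (s - (ℓ + 1)) (by omega) (by omega)]
        simpa using ih (ℓ + 1) s (by omega)
    · rw [if_neg h1]
      simpa using ih (ℓ + 1) s (by omega)

theorem ef_eq (t ℓ s : ℕ) (h : s ≤ ℓ + t) : ef t ℓ s = eAux t ℓ s := by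
  induction t generalizing ℓ s with
  | zero => simp [ef, eAux]
  | succ t ih =>
    rw [ef]
    split_ifs with h0 h1 h2
    · subst h0; rw [eAux_zero_right]
    · rw [eAux_small _ _ _ (by omega) h1]
    · rw [eAux_mid _ _ _ (by omega) h2 h]
    · rw [eAux_succ, if_pos (by omega), ih _ _ (by omega), ih _ _ (by omega)]

/-- stability of the coefficients -/
theorem eAux_stable (t ℓ s : ℕ) (h : s ≤ ℓ + t) : eAux (t + 1) ℓ s = eAux t ℓ s := by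
  induction t generalizing ℓ s with
  | zero =>
    rw [eAux_succ, if_neg (by omega)]
    simp [eAux]
  | succ t ih =>
    rw [eAux_succ (t + 1) ℓ s, eAux_succ t ℓ s, ih (ℓ + 1) s (by omega)]
    split_ifs with h1
    · rw [ih (ℓ + 1) (s - (ℓ + 1)) (by omega)]
    · rfl

theorem eAux_eq_ec (t ℓ s : ℕ) (h : s ≤ ℓ + t) : eAux t ℓ s = ec ℓ s := by
  unfold ec
  rw [ef_eq _ _ _ (by omega)]
  obtain ⟨k, rfl⟩ : ∃ k, t = (s - ℓ) + k := ⟨t - (s - ℓ), by omega⟩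
  induction k with
  | zero => rfl
  | succ k ih =>
    rw [← add_assoc, eAux_stable _ _ _ (by omega), ih (by omega)]

/-- the geometric bound, for `ℓ ≥ 2`. -/
theorem abs_eAux_le_geom (t ℓ s : ℕ) (hℓ : 2 ≤ ℓ) (hs : 2 * ℓ ≤ s) :
    |(eAux t ℓ s : ℚ)| ≤ 2 * (5 / 4 : ℚ) ^ (s - 2 * ℓ) := by
  induction t generalizing ℓ s with
  | zero =>
    simp only [eAux]
    have : (1 : ℚ) ≤ (5 / 4 : ℚ) ^ (s - 2 * ℓ) := one_le_pow₀ (by norm_num)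
    split_ifs <;> simp <;> linarith
  | succ t ih =>
    obtain ⟨k, rfl⟩ : ∃ k, s = 2 * ℓ + k := ⟨s - 2 * ℓ, by omega⟩
    have hk : 2 * ℓ + k - 2 * ℓ = k := by omega
    rw [hk]
    by_cases hk2 : k ≤ 2
    · have h1 := abs_eAux_le_one (t + 1) ℓ (2 * ℓ + k) (by omega)
      have h2 : |(eAux (t + 1) ℓ (2 * ℓ + k) : ℚ)| ≤ 1 := by exact_mod_cast h1
      have h3 : (1 : ℚ) ≤ (5 / 4 : ℚ) ^ k := one_le_pow₀ (by norm_num)
      linarith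
    · push Not at hk2
      rw [eAux_succ, if_pos (by omega)]
      push_cast
      -- first term
      have h1 : |(eAux t (ℓ + 1) (2 * ℓ + k) : ℚ)| ≤ 2 * (5 / 4 : ℚ) ^ (k - 2) := by
        have := ih (ℓ + 1) (2 * ℓ + k) (by omega) (by omega)
        rwa [show 2 * ℓ + k - 2 * (ℓ + 1) = k - 2 by omega] at this
      -- second term
      obtain ⟨j, rfl⟩ : ∃ j, k = j + 3 := ⟨k - 3, by omega⟩
      have hjj : j + 3 - 2 = j + 1 := by omega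
      rw [hjj] at h1
      have hpow : (5 / 4 : ℚ) ^ (j + 3) = (5 / 4 : ℚ) ^ (j + 1) * (25 / 16) := by ring
      have hpos : (1 : ℚ) ≤ (5 / 4 : ℚ) ^ j := one_le_pow₀ (by norm_num)
      have hp1 : (5 / 4 : ℚ) ^ (j + 1) = (5 / 4 : ℚ) ^ j * (5 / 4) := by ring
      have h2 : |(eAux t (ℓ + 1) (2 * ℓ + (j + 3) - (ℓ + 1)) : ℚ)|
          ≤ max 1 (2 * (5 / 4 : ℚ) ^ (j + 1) * (64 / 125 : ℚ)) := by
        by_cases hc : 2 * (ℓ + 1) ≤ 2 * ℓ + (j + 3) - (ℓ + 1)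
        · have := ih (ℓ + 1) (2 * ℓ + (j + 3) - (ℓ + 1)) (by omega) hc
          apply le_trans this
          apply le_trans _ (le_max_right _ _)
          -- exponent at most `j - 2`
          have hexp : 2 * ℓ + (j + 3) - (ℓ + 1) - 2 * (ℓ + 1) + 2 ≤ j := by omega
          obtain ⟨i, hi⟩ : ∃ i, j = (2 * ℓ + (j + 3) - (ℓ + 1) - 2 * (ℓ + 1)) + 2 + i :=
            ⟨j - (2 * ℓ + (j + 3) - (ℓ + 1) - 2 * (ℓ + 1) + 2), by omega⟩
          set x := 2 * ℓ + (j + 3) - (ℓ + 1) - 2 * (ℓ + 1) with hx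
          have hj1 : (5 / 4 : ℚ) ^ (j + 1) = (5 / 4 : ℚ) ^ x * (5 / 4) ^ 3 * (5 / 4) ^ i := by
            rw [show j + 1 = x + 3 + i by omega, pow_add, pow_add]
          have hxpos : (1 : ℚ) ≤ (5 / 4 : ℚ) ^ i := one_le_pow₀ (by norm_num)
          have hxp : (0 : ℚ) < (5 / 4 : ℚ) ^ x := by positivity
          rw [hj1]
          have : (5 / 4 : ℚ) ^ x ≤ (5 / 4 : ℚ) ^ x * (5 / 4) ^ i := le_mul_of_one_le_right hxp.le hxpos
          norm_num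
          nlinarith
        · have := abs_eAux_le_one t (ℓ + 1) (2 * ℓ + (j + 3) - (ℓ + 1)) (by omega)
          apply le_trans _ (le_max_left _ _)
          exact_mod_cast this
      calc |(eAux t (ℓ + 1) (2 * ℓ + (j + 3)) : ℚ) - (eAux t (ℓ + 1) (2 * ℓ + (j + 3) - (ℓ + 1)) : ℚ)|
          ≤ |(eAux t (ℓ + 1) (2 * ℓ + (j + 3)) : ℚ)| + |(eAux t (ℓ + 1) (2 * ℓ + (j + 3) - (ℓ + 1)) : ℚ)| :=
            abs_sub _ _
        _ ≤ 2 * (5 / 4 : ℚ) ^ (j + 1) + max 1 (2 * (5 / 4 : ℚ) ^ (j + 1) * (64 / 125 : ℚ)) :=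
            add_le_add h1 h2
        _ ≤ 2 * (5 / 4 : ℚ) ^ (j + 3) := by
            rw [hpow]
            rcases max_cases (1 : ℚ) (2 * (5 / 4 : ℚ) ^ (j + 1) * (64 / 125 : ℚ)) with ⟨h, _⟩ | ⟨h, _⟩ <;>
              rw [h] <;> nlinarith

theorem pow_le_pow_63 (n : ℕ) : (5 / 4 : ℚ) ^ n ≤ (63 / 50 : ℚ) ^ n :=
  pow_le_pow_left₀ (by norm_num) (by norm_num) n

theorem one_le_63 (n : ℕ) : (1 : ℚ) ≤ (63 / 50 : ℚ) ^ n := one_le_pow₀ (by norm_num)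

theorem pow_mono_54 {a b : ℕ} (h : a ≤ b) : (5 / 4 : ℚ) ^ a ≤ (5 / 4 : ℚ) ^ b :=
  pow_le_pow_right₀ (by norm_num) h

/-- term bound, `ℓ ≥ 2` -/
theorem term_bound_ge2 (n ℓ : ℕ) (hℓ : 2 ≤ ℓ) (h : 3 * ℓ + 3 ≤ n) :
    |(ec ℓ (n - ℓ) : ℚ)| * 2 ^ ℓ ≤ 4 * (63 / 50 : ℚ) ^ n := by
  have h0 : ec ℓ (n - ℓ) = eAux (n - ℓ) ℓ (n - ℓ) := (eAux_eq_ec _ _ _ (by omega)).symm
  rw [h0]
  have h1 := abs_eAux_le_geom (n - ℓ) ℓ (n - ℓ) hℓ (by omega)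
  obtain ⟨k, rfl⟩ : ∃ k, n = 3 * ℓ + k := ⟨n - 3 * ℓ, by omega⟩
  have hk : 3 * ℓ + k - ℓ - 2 * ℓ = k := by omega
  rw [hk] at h1
  have h2 : (2 : ℚ) ^ ℓ ≤ (63 / 50 : ℚ) ^ (3 * ℓ) := by
    rw [pow_mul]
    exact pow_le_pow_left₀ (by norm_num) (by norm_num) ℓ
  have h3 := pow_le_pow_63 k
  have h4 : (63 / 50 : ℚ) ^ (3 * ℓ + k) = (63 / 50 : ℚ) ^ (3 * ℓ) * (63 / 50 : ℚ) ^ k := pow_add _ _ _
  rw [h4]
  have h5 : (0 : ℚ) < (63 / 50 : ℚ) ^ k := by positivity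
  have h6 : (0 : ℚ) < (63 / 50 : ℚ) ^ (3 * ℓ) := by positivity
  have h7 : (0 : ℚ) < (2 : ℚ) ^ ℓ := by positivity
  calc |(eAux (3 * ℓ + k - ℓ) ℓ (3 * ℓ + k - ℓ) : ℚ)| * 2 ^ ℓ
      ≤ (2 * (63 / 50 : ℚ) ^ k) * (63 / 50 : ℚ) ^ (3 * ℓ) := by
        apply mul_le_mul _ h2 h7.le (by positivity)
        linarith
    _ ≤ _ := by nlinarith [mul_pos h5 h6]

/-- two-step bound at `ℓ = 1`. -/
theorem abs_eAux_one (t s : ℕ) (hs : 6 ≤ s) :
    |(eAux t 1 s : ℚ)| ≤ 4 * (5 / 4 : ℚ) ^ (s - 4) := by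
  cases t with
  | zero =>
    simp only [eAux, if_neg (show ¬ s = 0 by omega)]
    have : (0 : ℚ) < (5 / 4 : ℚ) ^ (s - 4) := by positivity
    simp; linarith
  | succ t =>
    rw [eAux_succ, if_pos (by omega)]
    have h1 := abs_eAux_le_geom t 2 s le_rfl (by omega)
    have h2 := abs_eAux_le_geom t 2 (s - 2) le_rfl (by omega)
    have h3 : (5 / 4 : ℚ) ^ (s - 2 - 2 * 2) ≤ (5 / 4 : ℚ) ^ (s - 4) := pow_mono_54 (by omega)
    have e : s - 2 * 2 = s - 4 := by omega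
    rw [e] at h1
    push_cast
    change |(eAux t 2 s : ℚ) - (eAux t 2 (s - 2) : ℚ)| ≤ _
    calc |(eAux t 2 s : ℚ) - (eAux t 2 (s - 2) : ℚ)| ≤ |(eAux t 2 s : ℚ)| + |(eAux t 2 (s - 2) : ℚ)| :=
          abs_sub _ _
      _ ≤ _ := by linarith

theorem abs_eAux_zero (t s : ℕ) (hs : 8 ≤ s) :
    |(eAux t 0 s : ℚ)| ≤ 8 * (5 / 4 : ℚ) ^ (s - 4) := by
  cases t with
  | zero =>
    simp only [eAux, if_neg (show ¬ s = 0 by omega)]
    have : (0 : ℚ) < (5 / 4 : ℚ) ^ (s - 4) := by positivity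
    simp; linarith
  | succ t =>
    rw [eAux_succ, if_pos (by omega)]
    have h1 := abs_eAux_one t s (by omega)
    have h2 := abs_eAux_one t (s - 1) (by omega)
    have h3 : (5 / 4 : ℚ) ^ (s - 1 - 4) ≤ (5 / 4 : ℚ) ^ (s - 4) := pow_mono_54 (by omega)
    push_cast
    change |(eAux t 1 s : ℚ) - (eAux t 1 (s - 1) : ℚ)| ≤ _
    calc |(eAux t 1 s : ℚ) - (eAux t 1 (s - 1) : ℚ)| ≤ |(eAux t 1 s : ℚ)| + |(eAux t 1 (s - 1) : ℚ)| :=
          abs_sub _ _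
      _ ≤ _ := by linarith

theorem term_bound (n ℓ : ℕ) (hn : 12 ≤ n) (h : 3 * ℓ + 3 ≤ n) :
    |(ec ℓ (n - ℓ) : ℚ)| * 2 ^ ℓ ≤ 4 * (63 / 50 : ℚ) ^ n := by
  by_cases hℓ : 2 ≤ ℓ
  · exact term_bound_ge2 n ℓ hℓ h
  · have hpos : (0 : ℚ) < (63 / 50 : ℚ) ^ (n - 5) := by positivity
    interval_cases ℓ
    · have h0 : ec 0 (n - 0) = eAux n 0 n := by
        rw [Nat.sub_zero]; exact (eAux_eq_ec _ _ _ (by omega)).symm
      rw [h0]
      have h1 := abs_eAux_zero n n (by omega)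
      have h2 := pow_le_pow_63 (n - 4)
      have h3 : (63 / 50 : ℚ) ^ n = (63 / 50 : ℚ) ^ (n - 4) * (63 / 50 : ℚ) ^ 4 := by
        rw [← pow_add]; congr 1; omega
      have h4 : (0 : ℚ) < (63 / 50 : ℚ) ^ (n - 4) := by positivity
      rw [h3]
      norm_num
      norm_num at h1
      nlinarith
    · have h0 : ec 1 (n - 1) = eAux (n - 1) 1 (n - 1) := (eAux_eq_ec _ _ _ (by omega)).symm
      rw [h0]
      have h1 := abs_eAux_one (n - 1) (n - 1) (by omega)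
      have h2 := pow_le_pow_63 (n - 1 - 4)
      have h3 : (63 / 50 : ℚ) ^ n = (63 / 50 : ℚ) ^ (n - 1 - 4) * (63 / 50 : ℚ) ^ 5 := by
        rw [← pow_add]; congr 1; omega
      have h4 : (0 : ℚ) < (63 / 50 : ℚ) ^ (n - 1 - 4) := by positivity
      rw [h3]
      norm_num
      norm_num at h1
      nlinarith

theorem sumLow_eq (n k : ℕ) :
    sumLow n k = ∑ ℓ ∈ range k, (ec ℓ (n - ℓ)).natAbs * 2 ^ ℓ := by
  induction k with
  | zero => rfl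
  | succ k ih => rw [sumLow, ih, sum_range_succ]

theorem SS_le_large (n : ℕ) (hn : 12 ≤ n) :
    (SS n : ℚ) ≤ (n / 3 : ℕ) * (4 * (63 / 50 : ℚ) ^ n) := by
  unfold SS
  rw [sumLow_eq]
  push_cast
  have : ∀ ℓ ∈ range (n / 3), (((ec ℓ (n - ℓ)).natAbs : ℚ) * 2 ^ ℓ) ≤ 4 * (63 / 50 : ℚ) ^ n := by
    intro ℓ hℓ
    have hl : 3 * ℓ + 3 ≤ n := by
      have := mem_range.1 hℓ
      omega
    have := term_bound n ℓ hn hl
    have e : |(ec ℓ (n - ℓ) : ℚ)| = ((ec ℓ (n - ℓ)).natAbs : ℚ) := by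
      rw [← Int.cast_abs, Int.abs_eq_natAbs]; simp
    rwa [e] at this
  calc _ ≤ ∑ _ℓ ∈ range (n / 3), (4 * (63 / 50 : ℚ) ^ n) := sum_le_sum this
    _ = _ := by simp

/-- numeric input for large `n`. -/
theorem numeric_large (n : ℕ) (hn : 44 ≤ n) :
    (n : ℚ) * (63 / 50 : ℚ) ^ n * 4 / 3 ≤ 2 ^ ((n - 1) / 2) := by
  have key : ∀ m, ((44 + m : ℕ) : ℚ) * (63 / 50 : ℚ) ^ (44 + m) * 4 / 3 ≤ 2 ^ ((44 + m - 1) / 2)
      ∧ ((45 + m : ℕ) : ℚ) * (63 / 50 : ℚ) ^ (45 + m) * 4 / 3 ≤ 2 ^ ((45 + m - 1) / 2) := by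
    intro m
    induction m with
    | zero => norm_num
    | succ m ih =>
      refine ⟨?_, ?_⟩
      · simpa [add_assoc, add_comm, add_left_comm] using ih.2
      · have h := ih.1
        have e1 : (45 + (m + 1) - 1) / 2 = (44 + m - 1) / 2 + 1 := by omega
        have e2 : (63 / 50 : ℚ) ^ (45 + (m + 1)) = (63 / 50 : ℚ) ^ (44 + m) * (63 / 50) ^ 2 := by
          rw [← pow_add]; congr 1; omega
        rw [e1, e2, pow_succ (2 : ℚ)]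
        have h0 : (0 : ℚ) < (63 / 50 : ℚ) ^ (44 + m) := by positivity
        push_cast at h ⊢
        have hm : (0 : ℚ) ≤ (m : ℚ) := Nat.cast_nonneg m
        have h3 : ((45 : ℚ) + (m + 1)) * (63 / 50) ^ 2 ≤ (44 + m) * 2 := by
          norm_num; nlinarith
        generalize (63 / 50 : ℚ) ^ (44 + m) = a at *
        generalize (2 : ℚ) ^ ((44 + m - 1) / 2) = P at *
        calc ((45 : ℚ) + (m + 1)) * (a * (63 / 50) ^ 2) * 4 / 3
            = (a * (((45 : ℚ) + (m + 1)) * (63 / 50) ^ 2)) * (4 / 3) := by ring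
          _ ≤ (a * ((44 + m) * 2)) * (4 / 3) := by
              apply mul_le_mul_of_nonneg_right _ (by norm_num)
              exact mul_le_mul_of_nonneg_left h3 h0.le
          _ = ((44 + m) * a * 4 / 3) * 2 := by ring
          _ ≤ P * 2 := by linarith
  obtain ⟨m, rfl⟩ : ∃ m, n = 44 + m := ⟨n - 44, by omega⟩
  exact (key m).1

theorem chk_spec (m : ℕ) (h : chk m = true) (n : ℕ) (h1 : 1 ≤ n) (h2 : n ≤ m) :
    SS n ≤ 2 ^ ((n - 1) / 2) := by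
  induction m with
  | zero => omega
  | succ m ih =>
    rw [chk, Bool.and_eq_true] at h
    by_cases h3 : n = m + 1
    · subst h3
      simpa using h.2
    · exact ih h.1 (by omega)

/-- the key estimate on the low terms. -/
theorem SS_le (n : ℕ) (h1 : 1 ≤ n) : SS n ≤ 2 ^ ((n - 1) / 2) := by
  by_cases h : n ≤ 44
  · exact chk_spec 44 chk44 n h1 h
  · push Not at h
    have h2 := SS_le_large n (by omega)
    have h3 := numeric_large n (by omega)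
    have h4 : ((n / 3 : ℕ) : ℚ) ≤ (n : ℚ) / 3 := Nat.cast_div_le
    have h5 : (0 : ℚ) < (63 / 50 : ℚ) ^ n := by positivity
    have h6 : (SS n : ℚ) ≤ ((2 ^ ((n - 1) / 2) : ℕ) : ℚ) := by
      push_cast
      calc (SS n : ℚ) ≤ _ := h2
        _ ≤ (n : ℚ) / 3 * (4 * (63 / 50 : ℚ) ^ n) :=
            mul_le_mul_of_nonneg_right h4 (by positivity)
        _ = (n : ℚ) * (63 / 50 : ℚ) ^ n * 4 / 3 := by ring
        _ ≤ _ := h3
    exact_mod_cast h6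

theorem geom_le (q m : ℕ) (hq : 2 ≤ q) : ∑ i ∈ range (m + 1), (q : ℤ) ^ i ≤ 2 * (q : ℤ) ^ m := by
  induction m with
  | zero => simp
  | succ m ih =>
    rw [sum_range_succ]
    have h2 : (2 : ℤ) ≤ q := by exact_mod_cast hq
    have h3 : (0 : ℤ) < (q : ℤ) ^ m := by positivity
    rw [pow_succ]
    nlinarith

/-- the low terms, scaled. -/
theorem low_le (q n : ℕ) (hq : 2 ≤ q) (h1 : 1 ≤ n) :
    ∑ ℓ ∈ range (n / 3), |(q : ℤ) ^ ℓ * ec ℓ (n - ℓ)| ≤ (q : ℤ) ^ ((n - 1) / 2) := by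
  set L := (n - 1) / 2 with hL
  have h2q : (2 : ℤ) ≤ q := by exact_mod_cast hq
  have hS := SS_le n h1
  unfold SS at hS
  rw [sumLow_eq] at hS
  have hterm : ∀ ℓ ∈ range (n / 3), |(q : ℤ) ^ ℓ * ec ℓ (n - ℓ)| * 2 ^ L
      ≤ (q : ℤ) ^ L * (((ec ℓ (n - ℓ)).natAbs * 2 ^ ℓ : ℕ) : ℤ) := by
    intro ℓ hℓ
    have hl : ℓ ≤ L := by
      have := mem_range.1 hℓ
      omega
    obtain ⟨k, hk⟩ : ∃ k, L = ℓ + k := ⟨L - ℓ, by omega⟩
    rw [hk, abs_mul, abs_of_nonneg (by positivity : (0 : ℤ) ≤ (q : ℤ) ^ ℓ)]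
    push_cast
    have h3 : (2 : ℤ) ^ k ≤ (q : ℤ) ^ k := pow_le_pow_left₀ (by norm_num) h2q k
    have h5 : (0 : ℤ) < (q : ℤ) ^ ℓ := by positivity
    have h6 : (0 : ℤ) < (2 : ℤ) ^ ℓ := by positivity
    rw [pow_add, pow_add]
    calc (q : ℤ) ^ ℓ * |ec ℓ (n - ℓ)| * (2 ^ ℓ * 2 ^ k)
        = ((q : ℤ) ^ ℓ * |ec ℓ (n - ℓ)| * 2 ^ ℓ) * 2 ^ k := by ring
      _ ≤ ((q : ℤ) ^ ℓ * |ec ℓ (n - ℓ)| * 2 ^ ℓ) * (q : ℤ) ^ k :=
          mul_le_mul_of_nonneg_left h3 (by positivity)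
      _ = _ := by ring
  have hsum : (∑ ℓ ∈ range (n / 3), |(q : ℤ) ^ ℓ * ec ℓ (n - ℓ)|) * 2 ^ L
      ≤ (q : ℤ) ^ L * (2 : ℤ) ^ L := by
    rw [sum_mul]
    calc _ ≤ ∑ ℓ ∈ range (n / 3), (q : ℤ) ^ L * (((ec ℓ (n - ℓ)).natAbs * 2 ^ ℓ : ℕ) : ℤ) :=
          sum_le_sum hterm
      _ = (q : ℤ) ^ L * ((∑ ℓ ∈ range (n / 3), (ec ℓ (n - ℓ)).natAbs * 2 ^ ℓ : ℕ) : ℤ) := by
          rw [← mul_sum]; push_cast; rfl
      _ ≤ _ := by
          apply mul_le_mul_of_nonneg_left _ (by positivity)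
          exact_mod_cast hS
  have h2L : (0 : ℤ) < (2 : ℤ) ^ L := by positivity
  exact le_of_mul_le_mul_right hsum h2L

/-- **The main estimate**: `q^n - 3 q^((n-1)/2) ≤ c_n ≤ q^n`. -/
theorem CC_bounds (q M n : ℕ) (hq : 2 ≤ q) (h1 : 1 ≤ n) (hn : n ≤ M) :
    (CC q 1 M n : ℤ) ≤ (q : ℤ) ^ n ∧ (q : ℤ) ^ n - CC q 1 M n ≤ 3 * (q : ℤ) ^ ((n - 1) / 2) := by
  rw [CC_eq_sum q M (by omega) n hn, sum_range_succ]
  have hlast : (q : ℤ) ^ n * eAux (M - n) n (n - n) = (q : ℤ) ^ n := by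
    rw [Nat.sub_self, eAux_zero_right, mul_one]
  rw [hlast]
  have hcongr : ∑ ℓ ∈ range n, (q : ℤ) ^ ℓ * eAux (M - ℓ) ℓ (n - ℓ)
      = ∑ ℓ ∈ range n, (q : ℤ) ^ ℓ * ec ℓ (n - ℓ) := by
    apply sum_congr rfl
    intro ℓ hℓ
    have := mem_range.1 hℓ
    rw [eAux_eq_ec _ _ _ (by omega)]
  rw [hcongr]
  set L := (n - 1) / 2 with hL
  have hsplit : ∑ ℓ ∈ range n, (q : ℤ) ^ ℓ * ec ℓ (n - ℓ)
      = ∑ ℓ ∈ range (n / 3), (q : ℤ) ^ ℓ * ec ℓ (n - ℓ)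
        + ∑ ℓ ∈ Ico (n / 3) n, (q : ℤ) ^ ℓ * ec ℓ (n - ℓ) := by
    rw [range_eq_Ico, range_eq_Ico, sum_Ico_consecutive _ (Nat.zero_le _) (Nat.div_le_self _ _)]
  have hlow := low_le q n hq h1
  have hlow2 : |∑ ℓ ∈ range (n / 3), (q : ℤ) ^ ℓ * ec ℓ (n - ℓ)| ≤ (q : ℤ) ^ L :=
    le_trans (abs_sum_le_sum_abs _ _) hlow
  have hmid : ∑ ℓ ∈ Ico (n / 3) n, (q : ℤ) ^ ℓ * ec ℓ (n - ℓ)
      = - ∑ ℓ ∈ (Ico (n / 3) n).filter (fun ℓ => 2 * ℓ < n), (q : ℤ) ^ ℓ := by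
    rw [sum_filter, ← sum_neg_distrib]
    apply sum_congr rfl
    intro ℓ hℓ
    obtain ⟨h3, h4⟩ := mem_Ico.1 hℓ
    have h5 : n ≤ 3 * ℓ + 2 := by omega
    unfold ec
    rw [ef_eq _ _ _ (by omega)]
    split_ifs with h6
    · rw [eAux_mid _ _ _ (by omega) (by omega) (by omega)]
      ring
    · by_cases h7 : n - ℓ = 0
      · omega
      · rw [eAux_small _ _ _ (by omega) (by omega)]
        simp
  have hmem : L ∈ (Ico (n / 3) n).filter (fun ℓ => 2 * ℓ < n) := by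
    rw [mem_filter, mem_Ico]
    omega
  have hup : (q : ℤ) ^ L ≤ ∑ ℓ ∈ (Ico (n / 3) n).filter (fun ℓ => 2 * ℓ < n), (q : ℤ) ^ ℓ :=
    single_le_sum (f := fun ℓ => (q : ℤ) ^ ℓ) (fun i _ => by positivity) hmem
  have hlo : ∑ ℓ ∈ (Ico (n / 3) n).filter (fun ℓ => 2 * ℓ < n), (q : ℤ) ^ ℓ ≤ 2 * (q : ℤ) ^ L := by
    apply le_trans _ (geom_le q L hq)
    apply sum_le_sum_of_subset_of_nonneg
    · intro x hx
      rw [mem_filter, mem_Ico] at hx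
      rw [mem_range]
      omega
    · intro i _ _
      positivity
  rw [hsplit, hmid]
  have := abs_le.1 hlow2
  constructor <;> linarith [this.1, this.2]

end Cfsg.Agent.Lib.ClassNum
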