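/-
The centre acts on conjugacy classes; the classes of the central quotient by Burnside's lemma.
-/
import Mathlib

set_option autoImplicit false

namespace Cfsg.Agent.Lib.ClassNum

universe u

variable {G : Type u} [Group G]

/-- multiplication by a central element on classes. -/
def mulc (z : Subgroup.center G) : ConjClasses G → ConjClasses G :=
  Quotient.map (fun g => (z : G) * g) (by
    intro a b (h : IsConj a b)
    obtain ⟨c, hc⟩ := isConj_iff.1 h
    change IsConj _ _
    refine isConj_iff.2 ⟨c, ?_⟩
    have hz : ∀ x : G, (z : G) * x = x * z := fun x => (Subgroup.mem_center_iff.1 z.2 x).symm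
    rw [← hc]
    calc c * ((z : G) * a) * c⁻¹ = (c * z) * a * c⁻¹ := by group
      _ = ((z : G) * c) * a * c⁻¹ := by rw [hz c]
      _ = _ := by group)

theorem mulc_mk (z : Subgroup.center G) (g : G) : mulc z (ConjClasses.mk g) = ConjClasses.mk ((z : G) * g) := rfl

/-- the action on classes. -/
@[instance_reducible] def actZ : MulAction (Subgroup.center G) (ConjClasses G) where
  smul := mulc
  one_smul x := by
    obtain ⟨g, rfl⟩ := ConjClasses.mk_surjective x
    change mulc 1 (ConjClasses.mk g) = _
    rw [mulc_mk]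
    simp
  mul_smul z w x := by
    obtain ⟨g, rfl⟩ := ConjClasses.mk_surjective x
    change mulc (z * w) (ConjClasses.mk g) = mulc z (mulc w (ConjClasses.mk g))
    rw [mulc_mk, mulc_mk, mulc_mk]
    simp [mul_assoc]

/-- Burnside's lemma for the central action. -/
theorem burnside_center [Finite G] [Fintype (Subgroup.center G)] :
    ∑ z : Subgroup.center G, Nat.card {x : ConjClasses G // mulc z x = x} =
      Nat.card (ConjClasses (G ⧸ Subgroup.center G)) * Fintype.card (Subgroup.center G) := by
  classical
  letI := actZ (G := G)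
  haveI : Fintype (ConjClasses G) := Fintype.ofFinite _
  haveI : ∀ z : Subgroup.center G, Fintype (MulAction.fixedBy (ConjClasses G) z) := fun _ => Fintype.ofFinite _
  haveI : Fintype (Quotient (MulAction.orbitRel (Subgroup.center G) (ConjClasses G))) := Fintype.ofFinite _
  have hB := MulAction.sum_card_fixedBy_eq_card_orbits_mul_card_group (Subgroup.center G) (ConjClasses G)
  have h1 : ∀ z : Subgroup.center G, Nat.card {x : ConjClasses G // mulc z x = x} =
      Fintype.card (MulAction.fixedBy (ConjClasses G) z) := by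
    intro z
    rw [← Nat.card_eq_fintype_card]
    rfl
  simp only [h1]
  rw [hB]
  congr 1
  rw [← Nat.card_eq_fintype_card]
  let π : ConjClasses G → ConjClasses (G ⧸ Subgroup.center G) :=
    ConjClasses.map (QuotientGroup.mk' (Subgroup.center G))
  have hπ : ∀ g : G, π (ConjClasses.mk g) = ConjClasses.mk (g : G ⧸ Subgroup.center G) := fun _ => rfl
  let f : Quotient (MulAction.orbitRel (Subgroup.center G) (ConjClasses G)) → ConjClasses (G ⧸ Subgroup.center G) :=
    Quotient.lift π (by
      intro x y h
      obtain ⟨z, rfl⟩ := MulAction.orbitRel_apply.1 h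
      obtain ⟨g, rfl⟩ := ConjClasses.mk_surjective y
      change π (mulc z (ConjClasses.mk g)) = _
      rw [mulc_mk, hπ, hπ, ConjClasses.mk_eq_mk_iff_isConj]
      have : (((z : G) * g : G) : G ⧸ Subgroup.center G) = (g : G ⧸ Subgroup.center G) := by
        rw [QuotientGroup.mk_mul, (QuotientGroup.eq_one_iff (z : G)).2 z.2, one_mul]
      rw [this])
  refine Nat.card_congr (Equiv.ofBijective f ⟨?_, ?_⟩)
  · intro x y
    refine Quotient.inductionOn₂ x y ?_
    intro a b h
    obtain ⟨g, rfl⟩ := ConjClasses.mk_surjective a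
    obtain ⟨g', rfl⟩ := ConjClasses.mk_surjective b
    change π (ConjClasses.mk g) = π (ConjClasses.mk g') at h
    rw [hπ, hπ, ConjClasses.mk_eq_mk_iff_isConj] at h
    obtain ⟨c, hc⟩ := isConj_iff.1 h
    obtain ⟨c, rfl⟩ := QuotientGroup.mk_surjective c
    have h2 : ((c * g * c⁻¹ : G) : G ⧸ Subgroup.center G) = (g' : G ⧸ Subgroup.center G) := by
      simpa [QuotientGroup.mk_mul, QuotientGroup.mk_inv] using hc
    rw [QuotientGroup.eq] at h2
    apply Quotient.sound
    refine MulAction.orbitRel_apply.2 ⟨⟨_, Subgroup.inv_mem _ h2⟩, ?_⟩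
    change mulc _ (ConjClasses.mk g') = ConjClasses.mk g
    rw [mulc_mk, ConjClasses.mk_eq_mk_iff_isConj]
    have h3 := Subgroup.mem_center_iff.1 (Subgroup.inv_mem _ h2) g'
    change IsConj (((c * g * c⁻¹)⁻¹ * g')⁻¹ * g') g
    rw [← h3]
    refine isConj_iff.2 ⟨c⁻¹, ?_⟩
    group
  · intro y
    obtain ⟨g, rfl⟩ := ConjClasses.mk_surjective y
    obtain ⟨g, rfl⟩ := QuotientGroup.mk_surjective g
    exact ⟨Quotient.mk _ (ConjClasses.mk g), rfl⟩

end Cfsg.Agent.Lib.ClassNum
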