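/-
Endomorphisms as multiplication by `X` on `F[X]`-modules; determinants.
-/
import Cfsg.Agent.Lib.ClassNum.Blocks
import Cfsg.Agent.Lib.MatConj.Decomp

set_option autoImplicit false

namespace Cfsg.Agent.Lib.ClassNum

open Polynomial Module

universe u v w

variable {F : Type u} [Field F]

section rep

variable {V : Type v} [AddCommGroup V] [Module F V]

/-- `T` on `V` is multiplication by `X` on the `F[X]`-module `M`. -/
def Rp (T : V →ₗ[F] V) (M : Type w) [AddCommGroup M] [Module F[X] M] : Prop :=
  ∃ φ : V ≃+ M, (∀ v, φ (T v) = (X : F[X]) • φ v) ∧ ∀ (c : F) (v : V), φ (c • v) = (C c : F[X]) • φ v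

theorem Rp.equiv {T : V →ₗ[F] V} {M M' : Type w} [AddCommGroup M] [Module F[X] M] [AddCommGroup M']
    [Module F[X] M'] (h : Rp T M) (E : M ≃ₗ[F[X]] M') : Rp T M' := by
  obtain ⟨φ, h1, h2⟩ := h
  refine ⟨φ.trans E.toAddEquiv, ?_, ?_⟩
  · intro v
    simp [h1]
  · intro c v
    simp [h2]

/-- elements of `F[X]` act through `aeval`. -/
theorem rp_aeval {T : V →ₗ[F] V} {M : Type w} [AddCommGroup M] [Module F[X] M] {φ : V ≃+ M}
    (h1 : ∀ v, φ (T v) = (X : F[X]) • φ v) (h2 : ∀ (c : F) (v : V), φ (c • v) = (C c : F[X]) • φ v)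
    (f : F[X]) (v : V) : φ (aeval T f v) = f • φ v := by
  induction f using Polynomial.induction_on' generalizing v with
  | add p q hp hq =>
    simp only [map_add, LinearMap.add_apply, hp, hq, add_smul]
  | monomial n a =>
    have hpow : ∀ (k : ℕ) (w : V), φ ((T ^ k) w) = (X ^ k : F[X]) • φ w := by
      intro k
      induction k with
      | zero => intro w; simp
      | succ k ih =>
        intro w
        rw [pow_succ, Module.End.mul_apply, ih, h1, smul_smul, pow_succ]
    rw [aeval_monomial, ← C_mul_X_pow_eq_monomial, mul_smul, ← hpow, ← h2]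
    rfl

/-- modules with the same structure give similar endomorphisms. -/
theorem Rp.conj {V' : Type v} [AddCommGroup V'] [Module F V'] {T : V →ₗ[F] V} {T' : V' →ₗ[F] V'}
    {M : Type w} [AddCommGroup M] [Module F[X] M] (h : Rp T M) (h' : Rp T' M) :
    ∃ P : V ≃ₗ[F] V', ∀ x, P (T x) = T' (P x) := by
  obtain ⟨φ, h1, h2⟩ := h
  obtain ⟨φ', h1', h2'⟩ := h'
  let P : V ≃ₗ[F] V' :=
    { toFun := fun v => φ'.symm (φ v)
      invFun := fun v => φ.symm (φ' v)
      map_add' := by intro x y; simp
      map_smul' := by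
        intro c x
        apply φ'.injective
        simp [h2, h2']
      left_inv := by intro x; simp
      right_inv := by intro x; simp }
  refine ⟨P, ?_⟩
  intro x
  apply φ'.injective
  change φ' (φ'.symm (φ (T x))) = φ' (T' (φ'.symm (φ x)))
  rw [AddEquiv.apply_symm_apply, h1, h1', AddEquiv.apply_symm_apply]

/-- the module of `AEval'`. -/
theorem rp_aevalMod (T : V →ₗ[F] V) : Rp T (Module.AEval' T) := by
  refine ⟨(Module.AEval'.of T).toAddEquiv, ?_, ?_⟩
  · intro v
    exact (Module.AEval'.X_smul_of T v).symm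
  · intro c v
    change Module.AEval'.of T (c • v) = (C c : F[X]) • Module.AEval'.of T v
    rw [← Module.AEval.of_aeval_smul, aeval_C]
    simp [Module.algebraMap_end_eq_smul_id]

end rep

/-- scalars on `AdjoinRoot`. -/
theorem C_smul_adjoin (f : F[X]) (c : F) (y : F[X] ⧸ Ideal.span {f}) :
    (C c : F[X]) • y = (c • (show AdjoinRoot f from y) : AdjoinRoot f) := by
  induction y using Submodule.Quotient.induction_on with
  | H g =>
    change AdjoinRoot.mk f (C c * g) = c • AdjoinRoot.mk f g
    rw [AdjoinRoot.smul_mk, smul_eq_C_mul]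

section primary

variable {V : Type u} [AddCommGroup V] [Module F V] [FiniteDimensional F V]

/-- primary decomposition -/
theorem exists_primary (T : V →ₗ[F] V) :
    ∃ (ι : Type u) (_ : Fintype ι) (p : ι → F[X]) (_ : ∀ i, Irreducible (p i)) (_ : ∀ i, (p i).Monic)
      (e : ι → ℕ), Rp T (∀ i, F[X] ⧸ Ideal.span {p i ^ e i}) := by
  obtain ⟨ι, hι, p, hp, hm, e, Φ, hΦ⟩ := Cfsg.Agent.Lib.MatConj.Decomp.exists_decomp T
  refine ⟨ι, hι, p, hp, hm, e, ?_⟩
  refine ⟨Φ.toAddEquiv, ?_, ?_⟩
  · intro v
    funext i
    exact hΦ v i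
  · intro c v
    funext i
    change Φ (c • v) i = (C c : F[X]) • (show F[X] ⧸ Ideal.span {p i ^ e i} from Φ v i)
    rw [map_smul, C_smul_adjoin]
    rfl

end primary

section det

/-- the value of a monic polynomial relevant to determinants. -/
noncomputable def nu (h : F[X]) : F := (-1) ^ h.natDegree * h.coeff 0

variable {V : Type v} [AddCommGroup V] [Module F V] [FiniteDimensional F V]
variable {Y : Type w} [AddCommGroup Y] [Module F Y] [FiniteDimensional F Y]

/-- the determinant along an invariant kernel. -/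
theorem det_split (S : V →ₗ[F] V) (SY : Y →ₗ[F] Y) (π : V →ₗ[F] Y) (hπ : Function.Surjective π)
    (hc : ∀ v, π (S v) = SY (π v)) (hW : LinearMap.ker π ≤ (LinearMap.ker π).comap S) :
    LinearMap.det S = LinearMap.det (S.restrict hW) * LinearMap.det SY := by
  rw [LinearMap.det_eq_det_mul_det (LinearMap.ker π) S hW]
  congr 1
  let e := π.quotKerEquivOfSurjective hπ
  rw [← LinearMap.det_conj ((LinearMap.ker π).mapQ (LinearMap.ker π) S hW) e]
  congr 1
  apply LinearMap.ext
  intro y
  obtain ⟨v, rfl⟩ := hπ y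
  have h1 : e.symm (π v) = Submodule.Quotient.mk v := by
    apply e.injective
    rw [LinearEquiv.apply_symm_apply]
    rfl
  simp only [LinearMap.comp_apply, LinearEquiv.coe_coe]
  rw [h1]
  change e (Submodule.Quotient.mk (S v)) = _
  change π (S v) = _
  exact hc v

/-- the determinant of multiplication by the root. -/
theorem det_root (h : F[X]) (hm : h.Monic) :
    LinearMap.det (LinearMap.mulLeft F (AdjoinRoot.root h)) = nu h := by
  haveI := hm.finite_adjoinRoot
  have h1 : Algebra.norm F (AdjoinRoot.root h) = nu h := by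
    have := Algebra.PowerBasis.norm_gen_eq_coeff_zero_minpoly (AdjoinRoot.powerBasis' hm)
    change Algebra.norm F (AdjoinRoot.root h) = (-1) ^ h.natDegree * coeff (minpoly F (AdjoinRoot.root h)) 0 at this
    rw [this, AdjoinRoot.minpoly_root hm.ne_zero, hm.leadingCoeff]
    simp [nu]
  rw [← h1, Algebra.norm_apply]
  rfl

/-- `X` acts as the root. -/
theorem X_smul_adjoin (f g : F[X]) (y : F[X] ⧸ Ideal.span {f}) :
    g • y = (AdjoinRoot.mk f g * (show AdjoinRoot f from y) : AdjoinRoot f) := by
  induction y using Submodule.Quotient.induction_on with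
  | H r =>
    change AdjoinRoot.mk f (g * r) = AdjoinRoot.mk f g * AdjoinRoot.mk f r
    rw [map_mul]

omit [FiniteDimensional F V] in
/-- the head projection of a representation. -/
noncomputable def headL (h : F[X]) {N : Type w} [AddCommGroup N] [Module F[X] N]
    (φ : V ≃+ ((F[X] ⧸ Ideal.span {h}) × N))
    (h2 : ∀ (c : F) (v : V), φ (c • v) = (C c : F[X]) • φ v) : V →ₗ[F] AdjoinRoot h where
  toFun v := (φ v).1
  map_add' x y := by
    rw [map_add]
    rfl
  map_smul' c x := by
    rw [h2]
    exact C_smul_adjoin h c (φ x).1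

/-- the determinant of an endomorphism in terms of its invariant factors. -/
theorem det_of_Rp (H : List F[X]) (hm : ∀ h ∈ H, h.Monic) {V : Type v} [AddCommGroup V] [Module F V]
    [FiniteDimensional F V] (T : V →ₗ[F] V) (hR : Rp T (BM H)) :
    LinearMap.det T = (H.map nu).prod := by
  induction H generalizing V with
  | nil =>
    obtain ⟨φ, -, -⟩ := hR
    haveI : Subsingleton V := φ.injective.subsingleton
    rw [LinearMap.det_eq_one_of_subsingleton]
    simp
  | cons h H ih =>
    obtain ⟨hh, hH⟩ : h.Monic ∧ ∀ t ∈ H, t.Monic := by simpa using hm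
    obtain ⟨φ, h1, h2⟩ := hR.equiv (BM.consEquiv h H)
    haveI := hh.finite_adjoinRoot
    let π : V →ₗ[F] AdjoinRoot h := headL h φ h2
    have hπ : Function.Surjective π := by
      intro y
      refine ⟨φ.symm (y, 0), ?_⟩
      change (φ (φ.symm (y, 0))).1 = y
      rw [AddEquiv.apply_symm_apply]
    have hc : ∀ v, π (T v) = LinearMap.mulLeft F (AdjoinRoot.root h) (π v) := by
      intro v
      change (φ (T v)).1 = AdjoinRoot.root h * (show AdjoinRoot h from (φ v).1)
      rw [h1]
      exact X_smul_adjoin h X (φ v).1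
    have hW : LinearMap.ker π ≤ (LinearMap.ker π).comap T := by
      intro v hv
      rw [Submodule.mem_comap, LinearMap.mem_ker, hc, LinearMap.mem_ker.1 hv]
      simp
    rw [det_split T _ π hπ hc hW, det_root h hh, List.map_cons, List.prod_cons, mul_comm]
    congr 1
    apply ih hH
    have hmem : ∀ y : BM H, φ.symm (0, y) ∈ LinearMap.ker π := by
      intro y
      rw [LinearMap.mem_ker]
      change (φ (φ.symm (0, y))).1 = 0
      simp
    refine ⟨{ toFun := fun w => (φ w.1).2
              invFun := fun y => ⟨φ.symm (0, y), hmem y⟩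
              map_add' := by intro x y; simp
              left_inv := ?_
              right_inv := ?_ }, ?_, ?_⟩
    · intro w
      apply Subtype.ext
      apply φ.injective
      simp only [AddEquiv.apply_symm_apply]
      have : (φ w.1).1 = 0 := LinearMap.mem_ker.1 w.2
      exact Prod.ext this.symm rfl
    · intro y
      simp
    · intro w
      change (φ (T w.1)).2 = X • (φ w.1).2
      rw [h1]
      rfl
    · intro c w
      change (φ (c • w.1)).2 = C c • (φ w.1).2
      rw [h2]
      rfl

end det

section Dd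

variable (F) in
/-- the determinant of multiplication by `u` on `F[X]/(f)`. -/
noncomputable def Dd (f u : F[X]) : F := LinearMap.det (LinearMap.mulLeft F (AdjoinRoot.mk f u))

/-- multiplication by `f` as an `F`-linear map `F[X]/(g) → F[X]/(f g)`. -/
noncomputable def mulFL (f g : F[X]) : AdjoinRoot g →ₗ[F] AdjoinRoot (f * g) where
  toFun y := mq g (f * g) f ⟨1, by ring⟩ y
  map_add' x y := map_add _ x y
  map_smul' c y := by
    have h1 := C_smul_adjoin g c y
    have h2 := C_smul_adjoin (f * g) c (mq g (f * g) f ⟨1, by ring⟩ y)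
    simp only [RingHom.id_apply]
    refine Eq.trans ?_ h2
    refine Eq.trans ?_ (map_smul (mq g (f * g) f ⟨1, by ring⟩) (C c) (show F[X] ⧸ Ideal.span {g} from y))
    exact congrArg _ h1.symm

theorem mulFL_mk (f g r : F[X]) : mulFL f g (AdjoinRoot.mk g r) = AdjoinRoot.mk (f * g) (f * r) := rfl

theorem Dd_mul (f g u : F[X]) (hf : f.Monic) (hg : g.Monic) :
    Dd F (f * g) u = Dd F f u * Dd F g u := by
  haveI := hf.finite_adjoinRoot
  haveI := hg.finite_adjoinRoot
  haveI := (hf.mul hg).finite_adjoinRoot
  let π : AdjoinRoot (f * g) →ₗ[F] AdjoinRoot f :=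
    (AdjoinRoot.algHomOfDvd F (f * g) f (dvd_mul_right f g)).toLinearMap
  have hπmk : ∀ r, π (AdjoinRoot.mk (f * g) r) = AdjoinRoot.mk f r := by
    intro r
    change AdjoinRoot.algHomOfDvd F (f * g) f (dvd_mul_right f g) (AdjoinRoot.mk (f * g) r) = _
    induction r using Polynomial.induction_on' with
    | add p q hp hq => simp only [map_add, hp, hq]
    | monomial n a =>
      simp only [← C_mul_X_pow_eq_monomial, map_mul, map_pow, AdjoinRoot.mk_X,
        AdjoinRoot.algHomOfDvd_root, AdjoinRoot.mk_C, ← AdjoinRoot.algebraMap_eq, AlgHom.commutes]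
  have hπ : Function.Surjective π := by
    intro y
    obtain ⟨r, rfl⟩ := AdjoinRoot.mk_surjective y
    exact ⟨_, hπmk r⟩
  have hc : ∀ v, π (LinearMap.mulLeft F (AdjoinRoot.mk (f * g) u) v)
      = LinearMap.mulLeft F (AdjoinRoot.mk f u) (π v) := by
    intro v
    obtain ⟨r, rfl⟩ := AdjoinRoot.mk_surjective v
    simp only [LinearMap.mulLeft_apply, ← map_mul, hπmk]
  have hW : LinearMap.ker π ≤ (LinearMap.ker π).comap (LinearMap.mulLeft F (AdjoinRoot.mk (f * g) u)) := by
    intro v hv
    rw [Submodule.mem_comap, LinearMap.mem_ker, hc, LinearMap.mem_ker.1 hv]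
    simp
  unfold Dd
  rw [det_split _ _ π hπ hc hW, mul_comm]
  congr 1
  -- identify the kernel with `F[X]/(g)`
  have hmem : ∀ y, mulFL f g y ∈ LinearMap.ker π := by
    intro y
    obtain ⟨r, rfl⟩ := AdjoinRoot.mk_surjective y
    rw [LinearMap.mem_ker, mulFL_mk, hπmk, AdjoinRoot.mk_eq_zero]
    exact dvd_mul_right _ _
  let ι : AdjoinRoot g →ₗ[F] LinearMap.ker π := (mulFL f g).codRestrict _ hmem
  have hinj : Function.Injective ι := by
    rw [injective_iff_map_eq_zero]
    intro y hy
    obtain ⟨r, rfl⟩ := AdjoinRoot.mk_surjective y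
    have h1 : mulFL f g (AdjoinRoot.mk g r) = 0 := congrArg Subtype.val hy
    rw [mulFL_mk, AdjoinRoot.mk_eq_zero] at h1
    rw [AdjoinRoot.mk_eq_zero]
    exact (mul_dvd_mul_iff_left hf.ne_zero).1 h1
  have hsurj : Function.Surjective ι := by
    intro w
    obtain ⟨w, hw⟩ := w
    obtain ⟨r, rfl⟩ := AdjoinRoot.mk_surjective w
    rw [LinearMap.mem_ker, hπmk, AdjoinRoot.mk_eq_zero] at hw
    obtain ⟨s, rfl⟩ := hw
    exact ⟨AdjoinRoot.mk g s, Subtype.ext (mulFL_mk f g s)⟩
  let e : AdjoinRoot g ≃ₗ[F] LinearMap.ker π := LinearEquiv.ofBijective ι ⟨hinj, hsurj⟩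
  rw [← LinearMap.det_conj (LinearMap.mulLeft F (AdjoinRoot.mk g u)) e]
  congr 1
  apply LinearMap.ext
  intro w
  obtain ⟨y, rfl⟩ := e.surjective w
  apply Subtype.ext
  obtain ⟨r, rfl⟩ := AdjoinRoot.mk_surjective y
  simp only [LinearMap.comp_apply, LinearEquiv.coe_coe, LinearEquiv.symm_apply_apply]
  change (AdjoinRoot.mk (f * g) u) * (mulFL f g (AdjoinRoot.mk g r))
    = mulFL f g (AdjoinRoot.mk g u * AdjoinRoot.mk g r)
  rw [← map_mul, mulFL_mk, mulFL_mk, ← map_mul]
  congr 1
  ring

theorem Dd_one (u : F[X]) : Dd F 1 u = 1 := by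
  haveI : Subsingleton (AdjoinRoot (1 : F[X])) := by
    rw [subsingleton_iff_forall_eq 0]
    intro y
    obtain ⟨r, rfl⟩ := AdjoinRoot.mk_surjective y
    rw [AdjoinRoot.mk_eq_zero]
    exact one_dvd _
  exact LinearMap.det_eq_one_of_subsingleton _

theorem Dd_pow (p u : F[X]) (hp : p.Monic) (e : ℕ) : Dd F (p ^ e) u = Dd F p u ^ e := by
  induction e with
  | zero => simp [Dd_one]
  | succ e ih => rw [pow_succ, Dd_mul _ _ _ (hp.pow e) hp, ih, pow_succ]

/-- surjectivity of the norm. -/
theorem exists_Dd_eq [Finite F] (p : F[X]) (hp : Irreducible p) (hm : p.Monic) (lam : F) :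
    ∃ u : F[X], Dd F p u = lam := by
  haveI : Fact (Irreducible p) := ⟨hp⟩
  haveI := hm.finite_adjoinRoot
  haveI : Finite (AdjoinRoot p) := Module.finite_of_finite F
  obtain ⟨x, hx⟩ := FiniteField.norm_surjective F (AdjoinRoot p) lam
  obtain ⟨u, rfl⟩ := AdjoinRoot.mk_surjective x
  refine ⟨u, ?_⟩
  rw [← hx, Algebra.norm_apply]
  rfl

end Dd

section cent

variable {V : Type v} [AddCommGroup V] [Module F V] [FiniteDimensional F V]

/-- a commuting endomorphism with prescribed determinant. -/
theorem exists_cent {ι : Type*} [Fintype ι] [DecidableEq ι] (T : V →ₗ[F] V) (f : ι → F[X])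
    (hf : ∀ i, (f i).Monic) (hR : Rp T (∀ i, F[X] ⧸ Ideal.span {f i})) (i₀ : ι) (u : F[X]) :
    ∃ c : V →ₗ[F] V, (∀ v, c (T v) = T (c v)) ∧ LinearMap.det c = Dd F (f i₀) u := by
  obtain ⟨φ, h1, h2⟩ := hR
  haveI := (hf i₀).finite_adjoinRoot
  let c : V →ₗ[F] V :=
    { toFun := fun v => φ.symm (Function.update (φ v) i₀ (u • φ v i₀))
      map_add' := by
        intro x y
        apply φ.injective
        simp only [map_add, AddEquiv.apply_symm_apply]
        funext i
        by_cases hi : i = i₀
        · subst hi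
          simp
        · simp [Function.update_of_ne hi]
      map_smul' := by
        intro a x
        apply φ.injective
        simp only [AddEquiv.apply_symm_apply, RingHom.id_apply, h2]
        funext i
        by_cases hi : i = i₀
        · subst hi
          rw [Function.update_self, Pi.smul_apply, Pi.smul_apply, Function.update_self, smul_comm]
        · simp [Function.update_of_ne hi] }
  have hcφ : ∀ v, φ (c v) = Function.update (φ v) i₀ (u • φ v i₀) := by
    intro v
    exact AddEquiv.apply_symm_apply _ _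
  refine ⟨c, ?_, ?_⟩
  · intro v
    apply φ.injective
    rw [hcφ, h1, h1, hcφ]
    funext i
    by_cases hi : i = i₀
    · subst hi
      rw [Function.update_self, Pi.smul_apply, Pi.smul_apply, Function.update_self, smul_comm]
    · simp [Function.update_of_ne hi]
  · let π : V →ₗ[F] AdjoinRoot (f i₀) :=
      { toFun := fun v => φ v i₀
        map_add' := by intro x y; rw [map_add]; rfl
        map_smul' := by
          intro a x
          rw [h2]
          exact C_smul_adjoin (f i₀) a (φ x i₀) }
    have hπ : Function.Surjective π := by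
      intro y
      refine ⟨φ.symm (Function.update 0 i₀ y), ?_⟩
      change φ (φ.symm (Function.update 0 i₀ y)) i₀ = y
      rw [AddEquiv.apply_symm_apply]
      exact Function.update_self _ _ _
    have hc : ∀ v, π (c v) = LinearMap.mulLeft F (AdjoinRoot.mk (f i₀) u) (π v) := by
      intro v
      change φ (c v) i₀ = AdjoinRoot.mk (f i₀) u * (show AdjoinRoot (f i₀) from φ v i₀)
      rw [hcφ]
      simp only [Function.update_self]
      exact X_smul_adjoin _ u _
    have hW : LinearMap.ker π ≤ (LinearMap.ker π).comap c := by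
      intro v hv
      rw [Submodule.mem_comap, LinearMap.mem_ker, hc, LinearMap.mem_ker.1 hv]
      simp
    unfold Dd
    rw [det_split c _ π hπ hc hW]
    have hid : c.restrict hW = LinearMap.id := by
      apply LinearMap.ext
      intro w
      apply Subtype.ext
      change c w.1 = w.1
      apply φ.injective
      rw [hcφ]
      have hw0 : φ w.1 i₀ = 0 := LinearMap.mem_ker.1 w.2
      rw [hw0, smul_zero]
      funext i
      by_cases hi : i = i₀
      · subst hi
        simp [hw0]
      · simp [Function.update_of_ne hi]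
    rw [hid, LinearMap.det_id, one_mul]

end cent

end Cfsg.Agent.Lib.ClassNum
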