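/-
Finite data: lists of monic polynomials with non-zero constant term, their weights and
determinants, and the corresponding counts.
-/
import Cfsg.Agent.Lib.ClassNum.Rep
import Cfsg.Agent.Lib.ClassNum.Bound

set_option autoImplicit false

namespace Cfsg.Agent.Lib.ClassNum

open Polynomial Finset

universe u

variable {F : Type u} [Field F]

/-! ### `nu` -/

theorem nu_one : nu (1 : F[X]) = 1 := by simp [nu]

theorem nu_mul (g h : F[X]) (hg : g.Monic) (hh : h.Monic) : nu (g * h) = nu g * nu h := by
  unfold nu
  rw [hg.natDegree_mul hh, mul_coeff_zero, pow_add]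
  ring

theorem nu_pow (g : F[X]) (hg : g.Monic) (d : ℕ) : nu (g ^ d) = nu g ^ d := by
  induction d with
  | zero => simp [nu_one]
  | succ d ih => rw [pow_succ, nu_mul _ _ (hg.pow d) hg, ih, pow_succ]

theorem nu_ne_zero_iff (g : F[X]) : nu g ≠ 0 ↔ g.coeff 0 ≠ 0 := by
  unfold nu
  simp

/-! ### Lists -/

/-- the weight of a list. -/
def wt : ℕ → List F[X] → ℕ
  | _, [] => 0
  | k, g :: L => k * g.natDegree + wt (k + 1) L

/-- the determinant of a list. -/
noncomputable def dt : ℕ → List F[X] → F
  | _, [] => 1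
  | k, g :: L => nu g ^ k * dt (k + 1) L

/-- the chain of a list. -/
noncomputable def sfx : List F[X] → List F[X]
  | [] => []
  | g :: L => (g * L.prod) :: sfx L

@[simp] theorem sfx_nil : sfx ([] : List F[X]) = [] := rfl
@[simp] theorem sfx_cons (g : F[X]) (L : List F[X]) : sfx (g :: L) = (g * L.prod) :: sfx L := rfl

theorem sfx_length (L : List F[X]) : (sfx L).length = L.length := by
  induction L with
  | nil => rfl
  | cons g L ih => simp [ih]

theorem prod_monic (L : List F[X]) (hL : ∀ g ∈ L, g.Monic) : L.prod.Monic := by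
  induction L with
  | nil => simp
  | cons g L ih =>
    rw [List.prod_cons]
    exact (hL g (by simp)).mul (ih fun t ht => hL t (by simp [ht]))

theorem sfx_monic (L : List F[X]) (hL : ∀ g ∈ L, g.Monic) : ∀ h ∈ sfx L, h.Monic := by
  induction L with
  | nil => simp
  | cons g L ih =>
    intro h hh
    rw [sfx_cons, List.mem_cons] at hh
    rcases hh with rfl | hh
    · exact (hL g (by simp)).mul (prod_monic L fun t ht => hL t (by simp [ht]))
    · exact ih (fun t ht => hL t (by simp [ht])) h hh

theorem sfx_head_dvd (L : List F[X]) : ∀ h ∈ sfx L, h ∣ L.prod := by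
  induction L with
  | nil => simp
  | cons g L ih =>
    intro h hh
    rw [sfx_cons, List.mem_cons] at hh
    rcases hh with rfl | hh
    · rw [List.prod_cons]
    · rw [List.prod_cons]
      exact Dvd.dvd.mul_left (ih h hh) g

theorem sfx_pairwise (L : List F[X]) : (sfx L).Pairwise (fun x y => y ∣ x) := by
  induction L with
  | nil => simp
  | cons g L ih =>
    rw [sfx_cons, List.pairwise_cons]
    refine ⟨?_, ih⟩
    intro h hh
    exact Dvd.dvd.mul_left (sfx_head_dvd L h hh) g

/-- weights through chains -/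
theorem wt_eq (L : List F[X]) (hL : ∀ g ∈ L, g.Monic) (k : ℕ) (hk : 1 ≤ k) :
    wt k L = ((sfx L).map natDegree).sum + (k - 1) * L.prod.natDegree := by
  induction L generalizing k with
  | nil => simp [wt]
  | cons g L ih =>
    have hg : g.Monic := hL g (by simp)
    have hL' : ∀ t ∈ L, t.Monic := fun t ht => hL t (by simp [ht])
    have hP := prod_monic L hL'
    rw [wt, ih hL' (k + 1) (by omega), sfx_cons, List.map_cons, List.sum_cons, List.prod_cons,
      hg.natDegree_mul hP]
    obtain ⟨k, rfl⟩ : ∃ j, k = j + 1 := ⟨k - 1, by omega⟩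
    simp only [Nat.add_sub_cancel]
    ring

/-- determinants through chains -/
theorem dt_eq (L : List F[X]) (hL : ∀ g ∈ L, g.Monic) (k : ℕ) (hk : 1 ≤ k) :
    dt k L = ((sfx L).map nu).prod * nu L.prod ^ (k - 1) := by
  induction L generalizing k with
  | nil => simp [dt, nu_one]
  | cons g L ih =>
    have hg : g.Monic := hL g (by simp)
    have hL' : ∀ t ∈ L, t.Monic := fun t ht => hL t (by simp [ht])
    have hP := prod_monic L hL'
    rw [dt, ih hL' (k + 1) (by omega), sfx_cons, List.map_cons, List.prod_cons, List.prod_cons,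
      nu_mul _ _ hg hP]
    obtain ⟨k, rfl⟩ : ∃ j, k = j + 1 := ⟨k - 1, by omega⟩
    simp only [Nat.add_sub_cancel, pow_succ, mul_pow]
    ring

/-- every chain comes from a list. -/
theorem exists_sfx (H : List F[X]) (hm : ∀ h ∈ H, h.Monic) (hp : H.Pairwise (fun x y => y ∣ x)) :
    ∃ L : List F[X], sfx L = H ∧ (∀ g ∈ L, g.Monic) ∧ L.prod = H.headD 1 := by
  induction H with
  | nil => exact ⟨[], rfl, by simp, rfl⟩
  | cons h H ih =>
    rw [List.pairwise_cons] at hp
    obtain ⟨L, h1, h2, h3⟩ := ih (fun t ht => hm t (by simp [ht])) hp.2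
    have hh : h.Monic := hm h (by simp)
    have hd : H.headD 1 ∣ h := by
      cases H with
      | nil => simp
      | cons a H => exact hp.1 a (by simp)
    obtain ⟨g, hg⟩ := hd
    have hdm : (H.headD 1).Monic := by
      cases H with
      | nil => simp
      | cons a H => exact hm a (by simp)
    have hgm : g.Monic := by
      rw [hg] at hh
      exact hdm.of_mul_monic_left hh
    refine ⟨g :: L, ?_, ?_, ?_⟩
    · rw [sfx_cons, h1, h3, hg, mul_comm]
    · intro t ht
      rw [List.mem_cons] at ht
      rcases ht with rfl | ht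
      · exact hgm
      · exact h2 t ht
    · rw [List.prod_cons, h3, List.headD_cons, hg, mul_comm]

/-- non-zero constant terms along a list -/
theorem coeff_of_sfx (L : List F[X]) (h0 : ∀ h ∈ sfx L, h.coeff 0 ≠ 0) : ∀ g ∈ L, g.coeff 0 ≠ 0 := by
  induction L with
  | nil => simp
  | cons g L ih =>
    intro t ht
    rw [List.mem_cons] at ht
    rcases ht with rfl | ht
    · have := h0 (t * L.prod) (by simp)
      rw [mul_coeff_zero] at this
      exact left_ne_zero_of_mul this
    · exact ih (fun h hh => h0 h (by simp [hh])) t ht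

theorem prod_coeff_ne (L : List F[X]) (h0 : ∀ g ∈ L, g.coeff 0 ≠ 0) : L.prod.coeff 0 ≠ 0 := by
  induction L with
  | nil => simp
  | cons g L ih =>
    rw [List.prod_cons, mul_coeff_zero]
    exact mul_ne_zero (h0 g (by simp)) (ih fun t ht => h0 t (by simp [ht]))

theorem dt_ne_zero (L : List F[X]) (h0 : ∀ g ∈ L, g.coeff 0 ≠ 0) (k : ℕ) : dt k L ≠ 0 := by
  induction L generalizing k with
  | nil => simp [dt]
  | cons g L ih =>
    rw [dt]
    exact mul_ne_zero (pow_ne_zero _ ((nu_ne_zero_iff g).2 (h0 g (by simp))))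
      (ih (fun t ht => h0 t (by simp [ht])) _)

/-! ### Monic polynomials -/

section finite

variable [Fintype F]

theorem finite_mon (d : ℕ) : {g : F[X] | g.Monic ∧ g.natDegree = d ∧ g.coeff 0 ≠ 0}.Finite := by
  refine Set.Finite.of_injOn (f := fun g : F[X] => fun i : Fin d => g.coeff i)
    (t := Set.univ) (fun _ _ => Set.mem_univ _) ?_ Set.finite_univ
  rintro g ⟨hg, hd, -⟩ g' ⟨hg', hd', -⟩ hgg
  ext j
  rcases lt_trichotomy j d with hj | rfl | hj
  · exact congrFun hgg ⟨j, hj⟩
  · have h1 := hg.coeff_natDegree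
    have h2 := hg'.coeff_natDegree
    rw [hd] at h1
    rw [hd'] at h2
    rw [h1, h2]
  · rw [coeff_eq_zero_of_natDegree_lt (by omega), coeff_eq_zero_of_natDegree_lt (by omega)]

/-- monic polynomials of degree `d` with non-zero constant term. -/
noncomputable def Mon (d : ℕ) : Finset F[X] := (finite_mon (F := F) d).toFinset

theorem mem_Mon {d : ℕ} {g : F[X]} : g ∈ Mon d ↔ g.Monic ∧ g.natDegree = d ∧ g.coeff 0 ≠ 0 := by
  simp [Mon]

theorem Mon_zero : Mon (F := F) 0 = {1} := by
  ext g
  rw [mem_Mon, mem_singleton]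
  constructor
  · rintro ⟨h1, h2, -⟩
    exact Polynomial.eq_one_of_monic_natDegree_zero h1 h2
  · rintro rfl
    simp

open Classical in
theorem card_mon_coeff (d : ℕ) (c : F) :
    ((Mon (F := F) (d + 1)).filter fun g => g.coeff 0 = c).card ≤ Fintype.card F ^ d := by
  have h : ∀ g ∈ (Mon (F := F) (d + 1)).filter (fun g => g.coeff 0 = c),
      (fun g : F[X] => fun i : Fin d => g.coeff (i + 1)) g ∈ (Finset.univ : Finset (Fin d → F)) :=
    fun _ _ => Finset.mem_univ _
  have := Finset.card_le_card_of_injOn _ h ?_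
  · simpa using this
  · intro g hg g' hg' hgg
    have hg := Finset.mem_filter.1 (Finset.mem_coe.1 hg)
    have hg' := Finset.mem_filter.1 (Finset.mem_coe.1 hg')
    obtain ⟨h1, h2, -⟩ := mem_Mon.1 hg.1
    obtain ⟨h1', h2', -⟩ := mem_Mon.1 hg'.1
    ext j
    rcases j with _ | j
    · rw [hg.2, hg'.2]
    · rcases lt_trichotomy j d with hj | rfl | hj
      · exact congrFun hgg ⟨j, hj⟩
      · have h3 := h1.coeff_natDegree
        have h4 := h1'.coeff_natDegree
        rw [h2] at h3
        rw [h2'] at h4
        rw [h3, h4]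
      · rw [coeff_eq_zero_of_natDegree_lt (by omega), coeff_eq_zero_of_natDegree_lt (by omega)]

open Classical in
theorem card_mon_nu (d : ℕ) (c : F) :
    ((Mon (F := F) (d + 1)).filter fun g => nu g = c).card ≤ Fintype.card F ^ d := by
  refine le_trans (Finset.card_le_card ?_) (card_mon_coeff d ((-1) ^ (d + 1) * c))
  intro g hg
  rw [Finset.mem_filter] at hg ⊢
  refine ⟨hg.1, ?_⟩
  obtain ⟨-, h2, -⟩ := mem_Mon.1 hg.1
  rw [← hg.2, nu, h2, ← mul_assoc, ← mul_pow]
  simp

open Classical in
theorem card_Mon_le (d : ℕ) : (Mon (F := F) d).card ≤ aa (Fintype.card F) d := by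
  rcases d with _ | d
  · simp [Mon_zero]
  · rw [aa_succ]
    have h1 : (Mon (F := F) (d + 1)) = (Finset.univ.filter fun c : F => c ≠ 0).biUnion
        fun c => (Mon (F := F) (d + 1)).filter fun g => g.coeff 0 = c := by
      ext g
      simp only [mem_biUnion, mem_filter, mem_univ, true_and]
      constructor
      · intro hg
        exact ⟨g.coeff 0, (mem_Mon.1 hg).2.2, hg, rfl⟩
      · rintro ⟨c, -, hg, -⟩
        exact hg
    rw [h1]
    refine le_trans Finset.card_biUnion_le ?_
    refine le_trans (Finset.sum_le_card_nsmul _ _ (Fintype.card F ^ d) ?_) ?_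
    · intro c _
      exact card_mon_coeff d c
    · rw [smul_eq_mul]
      apply Nat.mul_le_mul_right
      have : (Finset.univ.filter fun c : F => c ≠ 0).card = Fintype.card F - 1 := by
        rw [Finset.filter_ne' , Finset.card_erase_of_mem (Finset.mem_univ _), Finset.card_univ]
      rw [this]

/-! ### Data -/

open Classical in
/-- lists of polynomials with prescribed weight. -/
noncomputable def Dat : ℕ → ℕ → ℕ → Finset (List F[X])
  | _, 0, n => if n = 0 then {[]} else ∅
  | k, s + 1, n => (Finset.range (n / k + 1)).biUnion fun d =>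
      ((Mon (F := F) d) ×ˢ (Dat (k + 1) s (n - k * d))).image fun p => p.1 :: p.2

/-- membership -/
theorem mem_Dat (k s n : ℕ) (hk : 1 ≤ k) (L : List F[X]) :
    L ∈ Dat k s n ↔ L.length = s ∧ wt k L = n ∧ ∀ g ∈ L, g.Monic ∧ g.coeff 0 ≠ 0 := by
  induction s generalizing k n L with
  | zero =>
    rw [Dat]
    by_cases hn : n = 0
    · subst hn
      simp only [if_true, mem_singleton]
      constructor
      · rintro rfl
        simp [wt]
      · rintro ⟨h, -, -⟩
        exact List.length_eq_zero_iff.1 h
    · simp only [hn, if_false, notMem_empty, false_iff]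
      rintro ⟨h1, h2, -⟩
      rw [List.length_eq_zero_iff.1 h1] at h2
      simp [wt] at h2
      omega
  | succ s ih =>
    rw [Dat]
    simp only [mem_biUnion, mem_image, mem_product, Prod.exists, mem_range]
    constructor
    · rintro ⟨d, hd, g, L', ⟨hg, hL'⟩, rfl⟩
      obtain ⟨h1, h2, h3⟩ := (ih (k + 1) (n - k * d) (by omega) L').1 hL'
      obtain ⟨h4, h5, h6⟩ := mem_Mon.1 hg
      have hle : k * d ≤ n := by
        have : d ≤ n / k := by omega
        calc k * d ≤ k * (n / k) := Nat.mul_le_mul_left _ this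
          _ ≤ n := Nat.mul_div_le n k
      refine ⟨by simp [h1], ?_, ?_⟩
      · rw [wt, h2, h5]
        omega
      · intro t ht
        rw [List.mem_cons] at ht
        rcases ht with rfl | ht
        · exact ⟨h4, h6⟩
        · exact h3 t ht
    · rintro ⟨h1, h2, h3⟩
      obtain ⟨g, L', rfl⟩ : ∃ g L', L = g :: L' := by
        cases L with
        | nil => simp at h1
        | cons g L' => exact ⟨g, L', rfl⟩
      have hg := h3 g (by simp)
      rw [wt] at h2
      refine ⟨g.natDegree, ?_, g, L', ⟨mem_Mon.2 ⟨hg.1, rfl, hg.2⟩, ?_⟩, rfl⟩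
      · have : k * g.natDegree ≤ n := by omega
        have : g.natDegree ≤ n / k := (Nat.le_div_iff_mul_le (by omega)).2 (by linarith)
        omega
      · rw [ih (k + 1) _ (by omega)]
        refine ⟨by simpa using h1, by omega, fun t ht => h3 t (by simp [ht])⟩

/-- the count of data -/
theorem card_Dat_le (k s n : ℕ) : (Dat (F := F) k s n).card ≤ CC (Fintype.card F) k s n := by
  classical
  induction s generalizing k n with
  | zero =>
    rw [Dat, CC_zero]
    split_ifs <;> simp
  | succ s ih =>
    rw [Dat, CC_succ]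
    refine le_trans Finset.card_biUnion_le (Finset.sum_le_sum ?_)
    intro d _
    refine le_trans Finset.card_image_le ?_
    rw [Finset.card_product]
    exact Nat.mul_le_mul (card_Mon_le d) (ih _ _)

end finite

end Cfsg.Agent.Lib.ClassNum
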