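/-
Cardinalities of `BM`, normal forms of chains, and the data attached to an endomorphism.
-/
import Cfsg.Agent.Lib.ClassNum.Data

set_option autoImplicit false

namespace Cfsg.Agent.Lib.ClassNum

open Polynomial Module

universe u

variable {F : Type u} [Field F] [Fintype F]

omit [Fintype F] in
/-- a polynomial quotient is a finite module. -/
theorem finrank_quot (h : F[X]) (hm : h.Monic) : Module.finrank F (AdjoinRoot h) = h.natDegree := by
  have := (AdjoinRoot.powerBasis' hm).finrank
  rwa [AdjoinRoot.powerBasis'_dim] at this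

theorem card_quot (h : F[X]) (hm : h.Monic) :
    Nat.card (F[X] ⧸ Ideal.span {h}) = Fintype.card F ^ h.natDegree := by
  haveI := hm.finite_adjoinRoot
  have h1 : Nat.card (AdjoinRoot h) = Nat.card F ^ Module.finrank F (AdjoinRoot h) :=
    Module.natCard_eq_pow_finrank
  rw [finrank_quot h hm, Nat.card_eq_fintype_card (α := F)] at h1
  exact h1

theorem finite_quot (h : F[X]) (hm : h.Monic) : Finite (F[X] ⧸ Ideal.span {h}) := by
  haveI := hm.finite_adjoinRoot
  have : Finite (AdjoinRoot h) := Module.finite_of_finite F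
  exact this

theorem finite_BM (H : List F[X]) (hm : ∀ h ∈ H, h.Monic) : Finite (BM H) := by
  induction H with
  | nil => exact (inferInstance : Finite PUnit.{u+1})
  | cons h H ih =>
    haveI := ih fun t ht => hm t (by simp [ht])
    haveI := finite_quot h (hm h (by simp))
    exact (inferInstance : Finite ((F[X] ⧸ Ideal.span {h}) × BM H))

theorem card_BM (H : List F[X]) (hm : ∀ h ∈ H, h.Monic) :
    Nat.card (BM H) = Fintype.card F ^ (H.map natDegree).sum := by
  induction H with
  | nil =>
    have : Nat.card (BM ([] : List F[X])) = 1 := Nat.card_unique (α := PUnit.{u+1})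
    simpa using this
  | cons h H ih =>
    have : Nat.card (BM (h :: H)) = Nat.card ((F[X] ⧸ Ideal.span {h}) × BM H) := rfl
    rw [this, Nat.card_prod, ih fun t ht => hm t (by simp [ht]), card_quot h (hm h (by simp)),
      List.map_cons, List.sum_cons, pow_add]

omit [Fintype F] in
theorem map_pow_monic (H : List F[X]) (hm : ∀ h ∈ H, h.Monic) (d : ℕ) :
    ∀ h ∈ H.map (· ^ d), h.Monic := by
  intro h hh
  obtain ⟨t, ht, rfl⟩ := List.mem_map.1 hh
  exact (hm t ht).pow d

omit [Fintype F] in
theorem sum_natDegree_pow (H : List F[X]) (hm : ∀ h ∈ H, h.Monic) (d : ℕ) :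
    ((H.map (· ^ d)).map natDegree).sum = d * (H.map natDegree).sum := by
  induction H with
  | nil => simp
  | cons h H ih =>
    simp only [List.map_cons, List.sum_cons, mul_add]
    rw [ih fun t ht => hm t (by simp [ht]), (hm h (by simp)).natDegree_pow]

section normal

omit [Fintype F]

theorem subsingleton_quot_one_pow (d : ℕ) : Subsingleton (F[X] ⧸ Ideal.span {(1 : F[X]) ^ d}) := by
  rw [one_pow, Ideal.span_singleton_one]
  exact Submodule.Quotient.subsingleton_iff.2 rfl

/-- dropping a trivial factor -/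
noncomputable def dropSub (A B : Type u) [AddCommGroup A] [Module F[X] A] [AddCommGroup B]
    [Module F[X] B] [Subsingleton A] : (A × B) ≃ₗ[F[X]] B :=
  LinearEquiv.ofLinearMap (LinearMap.snd F[X] A B) (LinearMap.inr F[X] A B) (by
    apply LinearMap.ext
    intro b
    rfl) (by
    apply LinearMap.ext
    rintro ⟨a, b⟩
    exact Prod.ext (Subsingleton.elim _ _) rfl)

open Classical in
/-- removing trivial entries. -/
noncomputable def flt : List F[X] → List F[X]
  | [] => []
  | h :: H => if h = 1 then flt H else h :: flt H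

theorem mem_flt {H : List F[X]} {h : F[X]} (hh : h ∈ flt H) : h ∈ H ∧ h ≠ 1 := by
  induction H with
  | nil => simp [flt] at hh
  | cons a H ih =>
    rw [flt] at hh
    split_ifs at hh with ha
    · exact ⟨by simp [(ih hh).1], (ih hh).2⟩
    · rw [List.mem_cons] at hh
      rcases hh with rfl | hh
      · exact ⟨by simp, ha⟩
      · exact ⟨by simp [(ih hh).1], (ih hh).2⟩

theorem flt_pairwise {H : List F[X]} (hp : H.Pairwise (fun x y => y ∣ x)) :
    (flt H).Pairwise (fun x y => y ∣ x) := by
  induction H with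
  | nil => simp [flt]
  | cons a H ih =>
    rw [List.pairwise_cons] at hp
    rw [flt]
    split_ifs with ha
    · exact ih hp.2
    · rw [List.pairwise_cons]
      exact ⟨fun b hb => hp.1 b (mem_flt hb).1, ih hp.2⟩

theorem flt_sum (H : List F[X]) : ((flt H).map natDegree).sum = (H.map natDegree).sum := by
  induction H with
  | nil => rfl
  | cons a H ih =>
    rw [flt]
    split_ifs with ha
    · subst ha
      simpa using ih
    · simp [ih]

/-- removing trivial entries. -/
theorem BM_filter (H : List F[X]) (d : ℕ) :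
    Nonempty (BM ((flt H).map (· ^ d)) ≃ₗ[F[X]] BM (H.map (· ^ d))) := by
  induction H with
  | nil => exact ⟨LinearEquiv.refl _ _⟩
  | cons h H ih =>
    obtain ⟨E⟩ := ih
    rw [flt]
    by_cases hh : h = 1
    · subst hh
      rw [if_pos rfl, List.map_cons]
      haveI := subsingleton_quot_one_pow (F := F) d
      exact ⟨E.trans ((dropSub _ _).symm.trans (BM.consEquiv _ _).symm)⟩
    · rw [if_neg hh, List.map_cons, List.map_cons]
      exact ⟨(BM.consEquiv _ _).trans ((LinearEquiv.prodCongr (LinearEquiv.refl _ _) E).trans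
        (BM.consEquiv _ _).symm)⟩

/-- adding trivial entries. -/
theorem BM_pad (H : List F[X]) (r d : ℕ) :
    Nonempty (BM ((H ++ List.replicate r 1).map (· ^ d)) ≃ₗ[F[X]] BM (H.map (· ^ d))) := by
  induction H with
  | nil =>
    induction r with
    | zero => exact ⟨LinearEquiv.refl _ _⟩
    | succ r ih =>
      obtain ⟨E⟩ := ih
      haveI := subsingleton_quot_one_pow (F := F) d
      rw [List.replicate_succ, List.nil_append, List.map_cons]
      rw [List.nil_append] at E
      exact ⟨((BM.consEquiv _ _).trans (dropSub _ _)).trans E⟩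
  | cons h H ih =>
    obtain ⟨E⟩ := ih
    rw [List.cons_append, List.map_cons, List.map_cons]
    exact ⟨(BM.consEquiv _ _).trans ((LinearEquiv.prodCongr (LinearEquiv.refl _ _) E).trans
        (BM.consEquiv _ _).symm)⟩

/-- a chain in normal form. -/
theorem norm_chain (H : List F[X]) (hm : ∀ h ∈ H, h.Monic) (hp : H.Pairwise (fun x y => y ∣ x))
    (d m : ℕ) (hsum : (H.map natDegree).sum = m) :
    ∃ H' : List F[X], (∀ h ∈ H', h.Monic) ∧ H'.Pairwise (fun x y => y ∣ x) ∧ H'.length = m ∧
      (H'.map natDegree).sum = m ∧ Nonempty (BM (H'.map (· ^ d)) ≃ₗ[F[X]] BM (H.map (· ^ d))) := by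
  set H1 := flt H with hH1
  have hm1 : ∀ h ∈ H1, h.Monic := fun h hh => hm h (mem_flt hh).1
  have hp1 : H1.Pairwise (fun x y => y ∣ x) := flt_pairwise hp
  have hlen : ∀ K : List F[X], (∀ h ∈ K, h.Monic) → (∀ h ∈ K, h ≠ 1) → K.length ≤ (K.map natDegree).sum := by
    intro K hK hK'
    induction K with
    | nil => simp
    | cons h K ih =>
      have h1 := ih (fun t ht => hK t (by simp [ht])) (fun t ht => hK' t (by simp [ht]))
      have h2 : 1 ≤ h.natDegree := by
        by_contra hc
        exact hK' h (by simp) (eq_one_of_monic_natDegree_zero (hK h (by simp)) (by omega))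
      simp only [List.length_cons, List.map_cons, List.sum_cons]
      omega
  have hl1 : H1.length ≤ m := by
    rw [← hsum, ← flt_sum H]
    exact hlen H1 hm1 fun h hh => (mem_flt hh).2
  refine ⟨H1 ++ List.replicate (m - H1.length) 1, ?_, ?_, ?_, ?_, ?_⟩
  · intro h hh
    rcases List.mem_append.1 hh with hh | hh
    · exact hm1 h hh
    · rw [List.eq_of_mem_replicate hh]
      exact monic_one
  · rw [List.pairwise_append]
    refine ⟨hp1, ?_, ?_⟩
    · rw [List.pairwise_replicate]
      exact Or.inr dvd_rfl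
    · intro a _ b hb
      rw [List.eq_of_mem_replicate hb]
      exact one_dvd _
  · simp
    omega
  · rw [List.map_append, List.sum_append, hH1, flt_sum, hsum]
    simp
  · obtain ⟨E1⟩ := BM_pad H1 (m - H1.length) d
    obtain ⟨E2⟩ := BM_filter H d
    exact ⟨E1.trans E2⟩

end normal

omit [Fintype F] in
theorem prod_nu_pow (H : List F[X]) (hm : ∀ h ∈ H, h.Monic) (d : ℕ) :
    ((H.map (· ^ d)).map nu).prod = (H.map nu).prod ^ d := by
  induction H with
  | nil => simp
  | cons h H ih =>
    simp only [List.map_cons, List.prod_cons, mul_pow]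
    rw [ih fun t ht => hm t (by simp [ht]), nu_pow h (hm h (by simp))]

/-- the data attached to an endomorphism. -/
theorem lev_data {V : Type u} [AddCommGroup V] [Module F V] [FiniteDimensional F V] (n : ℕ)
    (hV : Module.finrank F V = n) (T : V →ₗ[F] V) (hT : LinearMap.det T ≠ 0) (d : ℕ) (hd : 1 ≤ d)
    (H : List F[X]) (hm : ∀ h ∈ H, h.Monic) (hp : H.Pairwise (fun x y => y ∣ x))
    (hR : Rp T (BM (H.map (· ^ d)))) :
    d ∣ n ∧ ∃ L ∈ Dat (F := F) 1 (n / d) (n / d), Rp T (BM ((sfx L).map (· ^ d))) ∧
      LinearMap.det T = dt 1 L ^ d := by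
  have hq : 1 < Fintype.card F := Fintype.one_lt_card
  obtain ⟨φ, -, -⟩ := id hR
  have hcard : Fintype.card F ^ n = Fintype.card F ^ (d * (H.map natDegree).sum) := by
    have h1 : Nat.card V = Fintype.card F ^ n := by
      rw [← hV, Module.natCard_eq_pow_finrank (K := F), Nat.card_eq_fintype_card]
    rw [← h1, Nat.card_congr φ.toEquiv, card_BM _ (map_pow_monic H hm d), sum_natDegree_pow H hm d]
  have hn : n = d * (H.map natDegree).sum := Nat.pow_right_injective hq hcard
  have hnd : n / d = (H.map natDegree).sum := by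
    rw [hn, Nat.mul_div_cancel_left _ (by omega)]
  refine ⟨⟨_, hn⟩, ?_⟩
  rw [hnd]
  obtain ⟨H', h1, h2, h3, h4, ⟨E⟩⟩ := norm_chain H hm hp d _ rfl
  obtain ⟨L, rfl, h6, h7⟩ := exists_sfx H' h1 h2
  have hR' : Rp T (BM ((sfx L).map (· ^ d))) := hR.equiv E.symm
  have hdet : LinearMap.det T = ((sfx L).map nu).prod ^ d := by
    rw [det_of_Rp _ (map_pow_monic _ h1 d) T hR', prod_nu_pow _ h1 d]
  have hne : ∀ h ∈ sfx L, h.coeff 0 ≠ 0 := by
    intro h hh
    rw [← nu_ne_zero_iff]
    intro h0
    apply hT
    rw [hdet, List.prod_eq_zero (List.mem_map.2 ⟨h, hh, h0⟩), zero_pow (by omega)]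
  have hL0 := coeff_of_sfx L hne
  refine ⟨L, ?_, hR', ?_⟩
  · rw [mem_Dat _ _ _ le_rfl]
    refine ⟨by rw [← sfx_length, h3], ?_, fun g hg => ⟨h6 g hg, hL0 g hg⟩⟩
    rw [wt_eq L h6 1 le_rfl, h4]
    simp
  · rw [hdet, dt_eq L h6 1 le_rfl]
    simp

end Cfsg.Agent.Lib.ClassNum
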