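/-
Counting data with prescribed determinant.
-/
import Cfsg.Agent.Lib.ClassNum.Data

set_option autoImplicit false

namespace Cfsg.Agent.Lib.ClassNum

open Polynomial Finset

universe u

variable {F : Type u} [Field F] [Fintype F]

open _root_.Classical in
theorem card_roots_nu (k d : ℕ) (hk : 1 ≤ k) (c : F) :
    ((Mon (F := F) (d + 1)).filter fun g => nu g ^ k = c).card ≤ k * Fintype.card F ^ d := by
  have h1 : ((Mon (F := F) (d + 1)).filter fun g => nu g ^ k = c) ⊆
      (nthRoots k c).toFinset.biUnion fun u => (Mon (F := F) (d + 1)).filter fun g => nu g = u := by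
    intro g hg
    rw [mem_filter] at hg
    rw [mem_biUnion]
    refine ⟨nu g, ?_, mem_filter.2 ⟨hg.1, rfl⟩⟩
    rw [Multiset.mem_toFinset, mem_nthRoots (by omega)]
    exact hg.2
  refine le_trans (card_le_card h1) (le_trans card_biUnion_le ?_)
  refine le_trans (sum_le_card_nsmul _ _ (Fintype.card F ^ d) fun u _ => card_mon_nu d u) ?_
  rw [smul_eq_mul]
  refine Nat.mul_le_mul_right _ ?_
  exact le_trans (Multiset.toFinset_card_le _) (card_nthRoots k c)

open _root_.Classical in
/-- one step of the count -/
theorem det_step (k s n : ℕ) (hk : 1 ≤ k) (w : F) (hw : w ≠ 0) :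
    (Fintype.card F - 1) * ((Dat (F := F) k (s + 1) n).filter fun L => dt k L = w).card ≤
      (∑ d ∈ range (n / k), k * aa (Fintype.card F) (d + 1) * CC (Fintype.card F) (k + 1) s (n - k * (d + 1)))
      + (Fintype.card F - 1) * ((Dat (F := F) (k + 1) s n).filter fun L => dt (k + 1) L = w).card := by
  set A := (Dat (F := F) k (s + 1) n).filter fun L => dt k L = w with hA
  set B0 := (Dat (F := F) (k + 1) s n).filter fun L => dt (k + 1) L = w with hB0
  set B1 := (range (n / k)).biUnion fun d => (Dat (F := F) (k + 1) s (n - k * (d + 1))).biUnion fun L' =>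
    ((Mon (F := F) (d + 1)).filter fun g => nu g ^ k = w / dt (k + 1) L').image fun g => g :: L' with hB1
  have hsub : A ⊆ B0.image (fun L => (1 : F[X]) :: L) ∪ B1 := by
    intro L hL
    rw [hA, mem_filter, mem_Dat _ _ _ hk] at hL
    obtain ⟨⟨h1, h2, h3⟩, h4⟩ := hL
    obtain ⟨g, L', rfl⟩ : ∃ g L', L = g :: L' := by
      cases L with
      | nil => simp at h1
      | cons g L' => exact ⟨g, L', rfl⟩
    have hg := h3 g (by simp)
    have hL'0 : ∀ t ∈ L', t.coeff 0 ≠ 0 := fun t ht => (h3 t (by simp [ht])).2
    rw [wt] at h2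
    rw [dt] at h4
    rw [mem_union]
    rcases hd : g.natDegree with _ | d
    · left
      have hg1 : g = 1 := eq_one_of_monic_natDegree_zero hg.1 hd
      subst hg1
      rw [mem_image]
      refine ⟨L', ?_, rfl⟩
      rw [hB0, mem_filter, mem_Dat _ _ _ (by omega)]
      refine ⟨⟨by simpa using h1, by rw [hd] at h2; omega, fun t ht => h3 t (by simp [ht])⟩, ?_⟩
      rw [← h4, nu_one]
      simp
    · right
      rw [hd] at h2
      have hle : k * (d + 1) ≤ n := by omega
      rw [hB1, mem_biUnion]
      refine ⟨d, ?_, ?_⟩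
      · rw [mem_range]
        have : d + 1 ≤ n / k := (Nat.le_div_iff_mul_le (by omega)).2 (by linarith)
        omega
      rw [mem_biUnion]
      refine ⟨L', ?_, ?_⟩
      · rw [mem_Dat _ _ _ (by omega)]
        exact ⟨by simpa using h1, by omega, fun t ht => h3 t (by simp [ht])⟩
      rw [mem_image]
      refine ⟨g, ?_, rfl⟩
      rw [mem_filter]
      refine ⟨mem_Mon.2 ⟨hg.1, hd, hg.2⟩, ?_⟩
      rw [eq_div_iff (dt_ne_zero L' hL'0 _)]
      exact h4
  have hB1card : (Fintype.card F - 1) * B1.card ≤
      ∑ d ∈ range (n / k), k * aa (Fintype.card F) (d + 1) * CC (Fintype.card F) (k + 1) s (n - k * (d + 1)) := by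
    have h1 : B1.card ≤ ∑ d ∈ range (n / k), (Dat (F := F) (k + 1) s (n - k * (d + 1))).card * (k * Fintype.card F ^ d) := by
      refine le_trans card_biUnion_le (sum_le_sum ?_)
      intro d _
      refine le_trans card_biUnion_le ?_
      refine le_trans (sum_le_card_nsmul _ _ (k * Fintype.card F ^ d) ?_) (by rw [smul_eq_mul])
      intro L' _
      exact le_trans card_image_le (card_roots_nu k d hk _)
    refine le_trans (Nat.mul_le_mul_left _ h1) ?_
    rw [mul_sum]
    refine sum_le_sum ?_
    intro d _
    rw [aa_succ]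
    calc (Fintype.card F - 1) * ((Dat (F := F) (k + 1) s (n - k * (d + 1))).card * (k * Fintype.card F ^ d))
        ≤ (Fintype.card F - 1) * (CC (Fintype.card F) (k + 1) s (n - k * (d + 1)) * (k * Fintype.card F ^ d)) :=
          Nat.mul_le_mul_left _ (Nat.mul_le_mul_right _ (card_Dat_le _ _ _))
      _ = _ := by ring
  have h2 : A.card ≤ B0.card + B1.card :=
    le_trans (card_le_card hsub) (le_trans (card_union_le _ _) (Nat.add_le_add_right card_image_le _))
  calc (Fintype.card F - 1) * A.card ≤ (Fintype.card F - 1) * (B0.card + B1.card) := Nat.mul_le_mul_left _ h2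
    _ = (Fintype.card F - 1) * B1.card + (Fintype.card F - 1) * B0.card := by ring
    _ ≤ _ := Nat.add_le_add_right hB1card _

/-- the bound for determinant-constrained data. -/
def Phi (q : ℕ) : ℕ → ℕ → ℕ → ℕ
  | _, 0, n => if n = 0 then q - 1 else 0
  | k, s + 1, n => (∑ d ∈ range (n / k), k * aa q (d + 1) * CC q (k + 1) s (n - k * (d + 1))) + Phi q (k + 1) s n

open _root_.Classical in
theorem Phi_bound (k s n : ℕ) (hk : 1 ≤ k) (w : F) (hw : w ≠ 0) :
    (Fintype.card F - 1) * ((Dat (F := F) k s n).filter fun L => dt k L = w).card ≤ Phi (Fintype.card F) k s n := by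
  induction s generalizing k n with
  | zero =>
    rw [Phi]
    by_cases hn : n = 0
    · subst hn
      rw [if_pos rfl]
      have : ((Dat (F := F) k 0 0).filter fun L => dt k L = w).card ≤ 1 := by
        refine le_trans (card_le_card (filter_subset _ _)) ?_
        rw [Dat, if_pos rfl]
        simp
      nlinarith
    · rw [if_neg hn]
      rw [Dat, if_neg hn]
      simp
  | succ s ih =>
    rw [Phi]
    refine le_trans (det_step k s n hk w hw) ?_
    exact Nat.add_le_add_left (ih (k + 1) n (by omega)) _

open _root_.Classical in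
/-- the bound in terms of the total count. -/
theorem N1_bound (s n : ℕ) (w : F) (hw : w ≠ 0) :
    (Fintype.card F - 1) * ((Dat (F := F) 1 (s + 1) n).filter fun L => dt 1 L = w).card
      + CC (Fintype.card F) 2 s n ≤
      CC (Fintype.card F) 1 (s + 1) n + (Fintype.card F - 1) * CC (Fintype.card F) 2 s n := by
  have h1 := det_step (F := F) 1 s n le_rfl w hw
  have h2 : ((Dat (F := F) 2 s n).filter fun L => dt 2 L = w).card ≤ CC (Fintype.card F) 2 s n :=
    le_trans (card_le_card (filter_subset _ _)) (card_Dat_le _ _ _)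
  have h3 := CC_succ (Fintype.card F) 1 s n
  rw [Nat.div_one, sum_range_succ'] at h3
  simp only [aa_zero, one_mul, mul_zero, Nat.sub_zero, Nat.reduceAdd] at h3
  rw [Nat.div_one] at h1
  simp only [one_mul, Nat.reduceAdd] at h1
  have h4 := Nat.mul_le_mul_left (Fintype.card F - 1) h2
  omega

end Cfsg.Agent.Lib.ClassNum
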