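/-
Classes of `GL_n(F)` and data; the class number of `GL_n(F)`.
-/
import Cfsg.Agent.Lib.ClassNum.Chain
import Cfsg.Agent.Lib.MatConj.Tg

set_option autoImplicit false

namespace Cfsg.Agent.Lib.ClassNum

open Polynomial Module Cfsg.Agent.Lib.MatConj.Tg

universe u

variable {F : Type u} [Field F]

section chain

variable {V : Type u} [AddCommGroup V] [Module F V] [FiniteDimensional F V]

/-- a chain of level `d` from a primary decomposition. -/
theorem exists_chain (T : V →ₗ[F] V) {ι : Type u} [Fintype ι] (p : ι → F[X]) (e : ι → ℕ)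
    (hm : ∀ i, (p i).Monic) (hR : Rp T (∀ i, F[X] ⧸ Ideal.span {p i ^ e i})) (d : ℕ)
    (hd : ∀ i, d ∣ e i) :
    ∃ H : List F[X], (∀ h ∈ H, h.Monic) ∧ H.Pairwise (fun x y => y ∣ x) ∧ Rp T (BM (H.map (· ^ d))) := by
  obtain ⟨H, h1, h2, ⟨E⟩⟩ := family d ι (fun i => p i ^ (e i / d)) (fun i => (hm i).pow _)
  refine ⟨H, h1, h2, ?_⟩
  refine (hR.equiv ?_).equiv E
  refine LinearEquiv.piCongrRight fun i => Submodule.quotEquivOfEq _ _ ?_
  rw [← pow_mul, Nat.div_mul_cancel (hd i)]

end chain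

variable {n : ℕ}

/-- `g` has a chain of level `d`. -/
def Lev (d : ℕ) (g : GL (Fin n) F) : Prop :=
  ∃ H : List F[X], (∀ h ∈ H, h.Monic) ∧ H.Pairwise (fun x y => y ∣ x) ∧ Rp (Tg g) (BM (H.map (· ^ d)))

theorem det_Tg (g : GL (Fin n) F) : LinearMap.det (Tg g) = (g : Matrix (Fin n) (Fin n) F).det := by
  rw [Tg, ← Matrix.toLin'_apply', LinearMap.det_toLin']

theorem det_Tg_ne (g : GL (Fin n) F) : LinearMap.det (Tg g) ≠ 0 := by
  rw [det_Tg]
  exact (Matrix.isUnit_iff_isUnit_det _).1 g.isUnit |>.ne_zero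

section count

variable [Fintype F]

theorem Lev.data {d : ℕ} (hd : 1 ≤ d) {g : GL (Fin n) F} (h : Lev d g) :
    d ∣ n ∧ ∃ L ∈ Dat (F := F) 1 (n / d) (n / d), Rp (Tg g) (BM ((sfx L).map (· ^ d))) ∧
      (g : Matrix (Fin n) (Fin n) F).det = dt 1 L ^ d := by
  obtain ⟨H, h1, h2, h3⟩ := h
  have := lev_data n (by simp) (Tg g) (det_Tg_ne g) d hd H h1 h2 h3
  rwa [det_Tg] at this

open _root_.Classical in
/-- classes with chains of level `d` embed in data. -/
theorem card_le_of_lev (A : Finset (ConjClasses (GL (Fin n) F))) {d : ℕ} (hd : 1 ≤ d)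
    (X : Finset (List F[X])) (hlev : ∀ C ∈ A, Lev d (Quotient.out C))
    (hX : ∀ C ∈ A, ∀ L ∈ Dat (F := F) 1 (n / d) (n / d),
      Rp (Tg (Quotient.out C)) (BM ((sfx L).map (· ^ d))) →
        (Quotient.out C : GL (Fin n) F).1.det = dt 1 L ^ d → L ∈ X) :
    A.card ≤ X.card := by
  have hex : ∀ C : A, ∃ L, L ∈ X ∧ Rp (Tg (Quotient.out C.1)) (BM ((sfx L).map (· ^ d))) := by
    intro C
    obtain ⟨-, L, hL, h1, h2⟩ := (hlev C.1 C.2).data hd
    exact ⟨L, hX C.1 C.2 L hL h1 h2, h1⟩
  choose f hf hf' using hex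
  rw [← Fintype.card_coe A, ← Fintype.card_coe X]
  refine Fintype.card_le_of_injective (fun C => (⟨f C, hf C⟩ : X)) ?_
  intro C C' hCC
  have h1 : f C = f C' := congrArg Subtype.val hCC
  have h2 := hf' C
  have h3 := hf' C'
  rw [h1] at h2
  obtain ⟨P, hP⟩ := h2.conj h3
  have h4 : IsConj (Quotient.out C.1) (Quotient.out C'.1) := (isConj_iff_T _ _).2 ⟨P, hP⟩
  apply Subtype.ext
  have h5 : ConjClasses.mk (Quotient.out C.1) = ConjClasses.mk (Quotient.out C'.1) :=
    ConjClasses.mk_eq_mk_iff_isConj.2 h4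
  have h6 : ∀ D : ConjClasses (GL (Fin n) F), ConjClasses.mk (Quotient.out D) = D := fun D => Quotient.out_eq D
  rwa [h6, h6] at h5

/-- every element has a chain of level one. -/
theorem lev_one (g : GL (Fin n) F) : Lev 1 g := by
  obtain ⟨ι, hι, p, -, hm, e, hR⟩ := exists_primary (Tg g)
  exact exists_chain (Tg g) p e hm hR 1 (fun _ => one_dvd _)

open _root_.Classical in
theorem card_GL_le (hn : 1 ≤ n) :
    Nat.card (ConjClasses (GL (Fin n) F)) ≤ Fintype.card F ^ n := by
  haveI : Fintype (ConjClasses (GL (Fin n) F)) := Fintype.ofFinite _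
  rw [Nat.card_eq_fintype_card, ← Finset.card_univ]
  have h1 := card_le_of_lev (n := n) (F := F) Finset.univ le_rfl (Dat (F := F) 1 n n)
    (fun C _ => lev_one _) (by
      intro C _ L hL _ _
      simpa using hL)
  refine le_trans h1 (le_trans (card_Dat_le _ _ _) ?_)
  have hq : 2 ≤ Fintype.card F := Fintype.one_lt_card
  have := (CC_bounds (Fintype.card F) n n hq hn le_rfl).1
  exact_mod_cast this

/-! ### Lower bounds -/

omit [Fintype F] in
/-- a matrix with prescribed characteristic polynomial. -/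
theorem exists_charpoly (p : F[X]) (hm : p.Monic) (hn : p.natDegree = n) :
    ∃ A : Matrix (Fin n) (Fin n) F, A.charpoly = p := by
  subst hn
  let pb := AdjoinRoot.powerBasis' hm
  have hdim : pb.dim = p.natDegree := rfl
  refine ⟨Matrix.reindex (finCongr hdim) (finCongr hdim) (Algebra.leftMulMatrix pb.basis pb.gen), ?_⟩
  rw [Matrix.charpoly_reindex, charpoly_leftMulMatrix]
  change minpoly F (AdjoinRoot.root p) = p
  rw [AdjoinRoot.minpoly_root hm.ne_zero, hm.leadingCoeff]
  simp

/-- the polynomial with given lower coefficients. -/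
noncomputable def pf (m : ℕ) (f : Fin m → F) : F[X] := X ^ m + ∑ i : Fin m, C (f i) * X ^ (i : ℕ)

theorem pf_monic (m : ℕ) (f : Fin m → F) : (pf m f).Monic :=
  monic_X_pow_add (degree_sum_fin_lt f)

theorem pf_natDegree (m : ℕ) (f : Fin m → F) : (pf m f).natDegree = m := by
  unfold pf
  exact natDegree_add_eq_left_of_degree_lt (by
    rw [degree_X_pow]
    exact degree_sum_fin_lt f) |>.trans (natDegree_X_pow m)

theorem pf_coeff (m : ℕ) (f : Fin m → F) (i : Fin m) : (pf m f).coeff i = f i := by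
  unfold pf
  rw [coeff_add, coeff_X_pow, if_neg (by omega), zero_add, finsetSum_coeff]
  simp only [coeff_C_mul, coeff_X_pow]
  rw [Finset.sum_eq_single i]
  · simp
  · intro b _ hb
    rw [if_neg (fun h => hb (Fin.ext h.symm)), mul_zero]
  · simp

theorem pf_injective (m : ℕ) : Function.Injective (pf (F := F) m) := by
  intro f f' h
  funext i
  rw [← pf_coeff m f i, ← pf_coeff m f' i, h]

open _root_.Classical in
/-- the class number of `GL_n` from below. -/
theorem GL_lower (m : ℕ) :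
    (Fintype.card F - 1) * Fintype.card F ^ m ≤ Nat.card (ConjClasses (GL (Fin (m + 1)) F)) := by
  have hex : ∀ x : Fˣ × (Fin m → F), ∃ g : GL (Fin (m + 1)) F,
      (g : Matrix (Fin (m + 1)) (Fin (m + 1)) F).charpoly = pf (m + 1) (Fin.cons (x.1 : F) x.2) := by
    intro x
    obtain ⟨A, hA⟩ := exists_charpoly (pf (m + 1) (Fin.cons (x.1 : F) x.2)) (pf_monic _ _) (pf_natDegree _ _)
    have hdet : A.det ≠ 0 := by
      rw [Matrix.det_eq_sign_charpoly_coeff, hA]
      have := pf_coeff (m + 1) (Fin.cons (x.1 : F) x.2) 0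
      simp only [Fin.val_zero, Fin.cons_zero] at this
      rw [this]
      simp
    refine ⟨Matrix.GeneralLinearGroup.mkOfDetNeZero A hdet, ?_⟩
    rw [← hA]
    rfl
  choose g hg using hex
  have hinj : Function.Injective (fun x => ConjClasses.mk (g x)) := by
    intro x y hxy
    have h1 : IsConj (g x) (g y) := ConjClasses.mk_eq_mk_iff_isConj.1 hxy
    obtain ⟨c, hc⟩ := isConj_iff.1 h1
    have h2 : (g y : Matrix (Fin (m + 1)) (Fin (m + 1)) F).charpoly = (g x : Matrix (Fin (m + 1)) (Fin (m + 1)) F).charpoly := by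
      rw [← hc, Units.val_mul, Units.val_mul]
      have h7 : ((c⁻¹ : GL (Fin (m + 1)) F) : Matrix (Fin (m + 1)) (Fin (m + 1)) F) = (c : Matrix (Fin (m + 1)) (Fin (m + 1)) F)⁻¹ :=
        Matrix.coe_units_inv c
      rw [h7, Matrix.charpoly_units_conj]
    rw [hg, hg] at h2
    have h3 := pf_injective _ h2
    have h4 : (y.1 : F) = x.1 := by simpa using congrFun h3 0
    have h5 : y.2 = x.2 := by
      funext i
      simpa using congrFun h3 i.succ
    exact (Prod.ext (Units.ext h4) h5).symm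
  have := Nat.card_le_card_of_injective _ hinj
  have hcard : Nat.card (Fˣ × (Fin m → F)) = (Fintype.card F - 1) * Fintype.card F ^ m := by
    rw [Nat.card_prod, Nat.card_eq_fintype_card, Nat.card_eq_fintype_card, Fintype.card_units]
    simp
  rwa [hcard] at this

end count

end Cfsg.Agent.Lib.ClassNum
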