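/-
Fibres of the map from classes of `SL_n(F)` to classes of `GL_n(F)`.
-/
import Cfsg.Agent.Lib.ClassNum.GLcount

set_option autoImplicit false

namespace Cfsg.Agent.Lib.ClassNum

open Polynomial Module Cfsg.Agent.Lib.MatConj.Tg

universe u

variable {F : Type u} [Field F] {n : ℕ}

/-- the inclusion -/
noncomputable abbrev toG : Matrix.SpecialLinearGroup (Fin n) F →* GL (Fin n) F :=
  Matrix.SpecialLinearGroup.toGL

theorem toG_coe (s : Matrix.SpecialLinearGroup (Fin n) F) :
    ((toG s : GL (Fin n) F) : Matrix (Fin n) (Fin n) F) = s.1 := rfl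

theorem toG_injective : Function.Injective (toG : Matrix.SpecialLinearGroup (Fin n) F →* GL (Fin n) F) := by
  intro s s' h
  apply Subtype.ext
  have := congrArg (fun g : GL (Fin n) F => (g : Matrix (Fin n) (Fin n) F)) h
  simpa using this

/-- elements of determinant one -/
theorem exists_toG (z : GL (Fin n) F) (hz : Matrix.GeneralLinearGroup.det z = 1) :
    ∃ s : Matrix.SpecialLinearGroup (Fin n) F, toG s = z := by
  have h1 : (z : Matrix (Fin n) (Fin n) F).det = 1 := by
    have := congrArg Units.val hz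
    simpa using this
  refine ⟨⟨z.1, h1⟩, ?_⟩
  apply Units.ext
  rfl

theorem det_toG (s : Matrix.SpecialLinearGroup (Fin n) F) :
    Matrix.GeneralLinearGroup.det (toG s) = 1 := by
  apply Units.ext
  simpa using s.2

/-- classes of `SL_n` to classes of `GL_n`. -/
noncomputable def up : ConjClasses (Matrix.SpecialLinearGroup (Fin n) F) → ConjClasses (GL (Fin n) F) :=
  ConjClasses.map toG

theorem up_mk (s : Matrix.SpecialLinearGroup (Fin n) F) : up (ConjClasses.mk s) = ConjClasses.mk (toG s) := rfl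

section

variable [Fintype F]

/-- a linear map with non-zero determinant is a group element. -/
theorem exists_of_det (c : (Fin n → F) →ₗ[F] (Fin n → F)) (hc : LinearMap.det c ≠ 0) :
    ∃ a : GL (Fin n) F, Tg a = c ∧ (Matrix.GeneralLinearGroup.det a : F) = LinearMap.det c := by
  have h1 : (LinearMap.toMatrix' c).det ≠ 0 := by
    rwa [LinearMap.det_toMatrix']
  refine ⟨Matrix.GeneralLinearGroup.mkOfDetNeZero _ h1, ?_, ?_⟩
  · rw [Tg]
    change Matrix.mulVecLin (LinearMap.toMatrix' c) = c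
    rw [← Matrix.toLin'_apply', Matrix.toLin'_toMatrix']
  · change (LinearMap.toMatrix' c).det = _
    rw [LinearMap.det_toMatrix']

/-- the subgroup of determinants of the centralizer. -/
noncomputable def Dc (g : GL (Fin n) F) : Subgroup Fˣ :=
  (Subgroup.centralizer {g}).map Matrix.GeneralLinearGroup.det

/-- determinants in the centralizer -/
theorem pow_mem_Dc (g : GL (Fin n) F) {ι : Type u} [Fintype ι] (p : ι → F[X]) (e : ι → ℕ)
    (hi : ∀ i, Irreducible (p i)) (hm : ∀ i, (p i).Monic)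
    (hR : Rp (Tg g) (∀ i, F[X] ⧸ Ideal.span {p i ^ e i})) (i : ι) (lam : Fˣ) :
    lam ^ e i ∈ Dc g := by
  classical
  obtain ⟨u, hu⟩ := exists_Dd_eq (p i) (hi i) (hm i) (lam : F)
  obtain ⟨c, h1, h2⟩ := exists_cent (Tg g) (fun i => p i ^ e i) (fun i => (hm i).pow _) hR i u
  rw [Dd_pow _ _ (hm i), hu] at h2
  have hne : LinearMap.det c ≠ 0 := by
    rw [h2]
    exact pow_ne_zero _ lam.ne_zero
  obtain ⟨a, ha1, ha2⟩ := exists_of_det c hne
  refine ⟨a, ?_, ?_⟩
  · rw [SetLike.mem_coe, Subgroup.mem_centralizer_iff]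
    intro h hh
    rw [Set.mem_singleton_iff] at hh
    subst hh
    apply Tg_injective
    rw [Tg_mul, Tg_mul, ha1]
    apply LinearMap.ext
    intro v
    exact (h1 v).symm
  · apply Units.ext
    rw [ha2, h2]
    simp

theorem gcd_pow_mem (D : Subgroup Fˣ) {ι : Type u} (e : ι → ℕ)
    (h : ∀ i (lam : Fˣ), lam ^ e i ∈ D) (S : Finset ι) (lam : Fˣ) : lam ^ (S.gcd e) ∈ D := by
  classical
  induction S using Finset.induction_on with
  | empty => simp [D.one_mem]
  | insert a S _ ih =>
    rw [Finset.gcd_insert]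
    have hk : lam ^ (GCDMonoid.gcd (e a) (S.gcd e)) =
        (lam ^ e a) ^ (Nat.gcdA (e a) (S.gcd e)) * (lam ^ (S.gcd e)) ^ (Nat.gcdB (e a) (S.gcd e)) := by
      rw [← zpow_natCast, ← zpow_natCast lam (e a), ← zpow_natCast lam (S.gcd e), ← zpow_mul, ← zpow_mul,
        ← zpow_add]
      congr 1
      exact Nat.gcd_eq_gcd_ab _ _
    rw [hk]
    exact D.mul_mem (D.zpow_mem (h _ _) _) (D.zpow_mem ih _)

/-- The number of classes of `SL_n` in a class of `GL_n`. -/
theorem fib_le (g : GL (Fin n) F) :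
    ∃ δ : ℕ, (∀ d, d ∣ δ → Lev d g) ∧
      Nat.card {x : ConjClasses (Matrix.SpecialLinearGroup (Fin n) F) // up x = ConjClasses.mk g}
        ≤ Nat.gcd (Fintype.card F - 1) δ := by
  classical
  obtain ⟨ι, hι, p, hi, hm, e, hR⟩ := exists_primary (Tg g)
  refine ⟨Finset.univ.gcd e, ?_, ?_⟩
  · intro d hd
    exact exists_chain (Tg g) p e hm hR d fun i => hd.trans (Finset.gcd_dvd (Finset.mem_univ i))
  set δ := Finset.univ.gcd e with hδ
  have hpow : ∀ lam : Fˣ, lam ^ δ ∈ Dc g := fun lam =>
    gcd_pow_mem (Dc g) e (fun i lam => pow_mem_Dc g p e hi hm hR i lam) _ lam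
  set Pw : Subgroup Fˣ := (powMonoidHom δ : Fˣ →* Fˣ).range with hPw
  have hex : ∀ x : {x : ConjClasses (Matrix.SpecialLinearGroup (Fin n) F) // up x = ConjClasses.mk g},
      ∃ (s : Matrix.SpecialLinearGroup (Fin n) F) (y : GL (Fin n) F),
        ConjClasses.mk s = x.1 ∧ y * g * y⁻¹ = toG s := by
    rintro ⟨x, hx⟩
    obtain ⟨s, rfl⟩ := ConjClasses.mk_surjective x
    rw [up_mk, ConjClasses.mk_eq_mk_iff_isConj] at hx
    obtain ⟨y, hy⟩ := isConj_iff.1 hx.symm
    exact ⟨s, y, rfl, hy⟩
  choose s y hs hy using hex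
  have hinj : Function.Injective
      (fun x => (QuotientGroup.mk (Matrix.GeneralLinearGroup.det (y x)) : Fˣ ⧸ Pw)) := by
    intro x x' hxx
    have h1 := QuotientGroup.eq.1 hxx
    obtain ⟨lam, hlam⟩ := h1
    obtain ⟨c, hc, hdet⟩ := hpow lam
    rw [SetLike.mem_coe, Subgroup.mem_centralizer_iff] at hc
    have hc' : g * c = c * g := hc g rfl
    have hdetc : Matrix.GeneralLinearGroup.det c = (Matrix.GeneralLinearGroup.det (y x))⁻¹ * Matrix.GeneralLinearGroup.det (y x') := by
      rw [hdet, ← hlam]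
      rfl
    set z := y x' * (y x * c)⁻¹ with hz
    have hzdet : Matrix.GeneralLinearGroup.det z = 1 := by
      rw [hz, map_mul, map_inv, map_mul, hdetc]
      simp
    obtain ⟨t, ht⟩ := exists_toG z hzdet
    apply Subtype.ext
    rw [← hs x, ← hs x', ConjClasses.mk_eq_mk_iff_isConj]
    refine isConj_iff.2 ⟨t, toG_injective ?_⟩
    rw [map_mul, map_mul, map_inv, ht, ← hy x, ← hy x', hz]
    have : c * g * c⁻¹ = g := by
      rw [← hc']
      group
    calc y x' * (y x * c)⁻¹ * (y x * g * (y x)⁻¹) * (y x' * (y x * c)⁻¹)⁻¹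
        = y x' * (c⁻¹ * g * c) * (y x')⁻¹ := by group
      _ = y x' * g * (y x')⁻¹ := by
        congr 2
        rw [mul_assoc, hc', ← mul_assoc]
        simp
  haveI : Finite (Fˣ ⧸ Pw) := inferInstance
  refine le_trans (Nat.card_le_card_of_injective _ hinj) ?_
  have h2 := Subgroup.card_mul_index Pw
  have h3 : Nat.card Pw = Nat.card Fˣ / (Nat.card Fˣ).gcd δ := IsCyclic.card_powMonoidHom_range Fˣ δ
  have h4 : Nat.card Fˣ = Fintype.card F - 1 := by
    rw [Nat.card_eq_fintype_card, Fintype.card_units]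
  rw [Subgroup.index] at h2
  rw [h3, h4] at h2
  rw [h4] at h3
  have hQ : 0 < Fintype.card F - 1 := by
    have : 1 < Fintype.card F := Fintype.one_lt_card
    omega
  have h5 : 0 < (Fintype.card F - 1) / (Fintype.card F - 1).gcd δ :=
    Nat.div_pos (Nat.gcd_le_left _ hQ) (Nat.gcd_pos_of_pos_left _ hQ)
  have h6 : (Fintype.card F - 1) / (Fintype.card F - 1).gcd δ * (Fintype.card F - 1).gcd δ = Fintype.card F - 1 :=
    Nat.div_mul_cancel (Nat.gcd_dvd_left _ _)
  have h7 : Nat.card (Fˣ ⧸ Pw) = (Fintype.card F - 1).gcd δ := by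
    apply Nat.eq_of_mul_eq_mul_left h5
    rw [h2, h6]
  exact le_of_eq h7

open _root_.Classical in
/-- the fibre as a sum of totients. -/
theorem fib_le_sum (g : GL (Fin n) F) :
    Nat.card {x : ConjClasses (Matrix.SpecialLinearGroup (Fin n) F) // up x = ConjClasses.mk g}
      ≤ ∑ d ∈ (Nat.divisors (Fintype.card F - 1)).filter (fun d => Lev d g), Nat.totient d := by
  obtain ⟨δ, h1, h2⟩ := fib_le g
  refine le_trans h2 ?_
  have hQ : Fintype.card F - 1 ≠ 0 := by
    have : 1 < Fintype.card F := Fintype.one_lt_card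
    omega
  conv_lhs => rw [← Nat.sum_totient (Nat.gcd (Fintype.card F - 1) δ)]
  refine Finset.sum_le_sum_of_subset ?_
  intro d hd
  have hd' := Nat.dvd_of_mem_divisors hd
  rw [Finset.mem_filter, Nat.mem_divisors]
  exact ⟨⟨hd'.trans (Nat.gcd_dvd_left _ _), hQ⟩, h1 d (hd'.trans (Nat.gcd_dvd_right _ _))⟩

theorem det_out (s : Matrix.SpecialLinearGroup (Fin n) F) (C : ConjClasses (GL (Fin n) F))
    (hC : ConjClasses.mk (toG s) = C) : Matrix.GeneralLinearGroup.det (Quotient.out C) = 1 := by
  subst hC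
  have h1 : ConjClasses.mk (Quotient.out (ConjClasses.mk (toG s))) = ConjClasses.mk (toG s) := Quotient.out_eq _
  rw [ConjClasses.mk_eq_mk_iff_isConj] at h1
  obtain ⟨c, hc⟩ := isConj_iff.1 h1
  have := congrArg Matrix.GeneralLinearGroup.det hc
  rw [det_toG, map_mul, map_mul, map_inv, mul_comm, ← mul_assoc, inv_mul_cancel, one_mul] at this
  exact this

open _root_.Classical in
/-- the main counting principle: classes of `SL_n` over a set of classes of `GL_n`. -/
theorem card_up_le (P : Finset (ConjClasses (GL (Fin n) F))) :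
    Nat.card {x : ConjClasses (Matrix.SpecialLinearGroup (Fin n) F) // up x ∈ P} ≤
      ∑ d ∈ Nat.divisors (Fintype.card F - 1), Nat.totient d *
        (P.filter fun C : ConjClasses (GL (Fin n) F) =>
          Matrix.GeneralLinearGroup.det (Quotient.out C) = 1 ∧ Lev d (Quotient.out C)).card := by
  haveI : Fintype (ConjClasses (Matrix.SpecialLinearGroup (Fin n) F)) := Fintype.ofFinite _
  set D1 : Finset (ConjClasses (GL (Fin n) F)) :=
    P.filter fun C : ConjClasses (GL (Fin n) F) => Matrix.GeneralLinearGroup.det (Quotient.out C) = 1 with hD1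
  have h1 : Nat.card {x : ConjClasses (Matrix.SpecialLinearGroup (Fin n) F) // up x ∈ P} =
      (Finset.univ.filter fun x : ConjClasses (Matrix.SpecialLinearGroup (Fin n) F) => up x ∈ P).card := by
    rw [Nat.card_eq_fintype_card, Fintype.card_subtype]
  have h2 : ∀ x ∈ Finset.univ.filter (fun x : ConjClasses (Matrix.SpecialLinearGroup (Fin n) F) => up x ∈ P),
      up x ∈ D1 := by
    intro x hx
    rw [Finset.mem_filter] at hx
    rw [hD1, Finset.mem_filter]
    refine ⟨hx.2, ?_⟩
    obtain ⟨s, rfl⟩ := ConjClasses.mk_surjective x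
    exact det_out s _ rfl
  rw [h1, Finset.card_eq_sum_card_fiberwise h2]
  have h3 : ∀ C ∈ D1, ((Finset.univ.filter fun x : ConjClasses (Matrix.SpecialLinearGroup (Fin n) F) => up x ∈ P).filter
      fun x => up x = C).card ≤
      ∑ d ∈ (Nat.divisors (Fintype.card F - 1)).filter (fun d => Lev d (Quotient.out C)), Nat.totient d := by
    intro C _
    refine le_trans ?_ (fib_le_sum (Quotient.out C))
    have h4 : ConjClasses.mk (Quotient.out C) = C := Quotient.out_eq C
    rw [h4, Nat.card_eq_fintype_card, Fintype.card_subtype]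
    refine Finset.card_le_card ?_
    intro x hx
    rw [Finset.mem_filter] at hx ⊢
    exact ⟨Finset.mem_univ _, hx.2⟩
  refine le_trans (Finset.sum_le_sum h3) ?_
  simp only [Finset.sum_filter]
  rw [Finset.sum_comm]
  refine Finset.sum_le_sum ?_
  intro d _
  rw [← Finset.sum_filter]
  simp only [Finset.sum_const, smul_eq_mul]
  rw [mul_comm]
  refine Nat.mul_le_mul_left _ (le_of_eq ?_)
  congr 1
  ext a
  simp only [hD1, Finset.mem_filter, and_assoc]

end

end Cfsg.Agent.Lib.ClassNum
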