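/-
Numerical bounds for the counting functions.
-/
import Cfsg.Agent.Lib.ClassNum.DetCount

set_option autoImplicit false

namespace Cfsg.Agent.Lib.ClassNum

open Finset

theorem CC_at_zero (q k s : ℕ) : CC q k s 0 = 1 := by
  induction s generalizing k with
  | zero => simp [CC_zero]
  | succ s ih =>
    rw [CC_succ]
    simp [ih]

theorem CC_one_le (q M n : ℕ) (hq : 2 ≤ q) (hn : n ≤ M) : CC q 1 M n ≤ q ^ n := by
  rcases Nat.eq_zero_or_pos n with rfl | h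
  · simp [CC_at_zero]
  · have := (CC_bounds q M n hq h hn).1
    exact_mod_cast this

/-- first difference of `u` -/
theorem u_step (q s j : ℕ) (hq : 2 ≤ q) (hj : 2 ≤ j) (hjs : j ≤ s + 1) :
    (CC q 2 s j : ℤ) ≤ CC q 2 s (j - 1) + 3 * (q : ℤ) ^ (j / 2) := by
  have h1 := CC_rec q 1 s j (by omega) le_rfl
  rw [if_pos (by omega), if_pos (by omega)] at h1
  have h2 := (CC_bounds q (s + 1) j hq (by omega) hjs).1
  have h3 := (CC_bounds q (s + 1) (j - 1) hq (by omega) (by omega)).2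
  have h4 : (j - 1 - 1) / 2 + 1 = j / 2 := by omega
  have h5 : (q : ℤ) ^ j = q * (q : ℤ) ^ (j - 1) := by
    rw [← pow_succ']
    congr 1
    omega
  have h6 : (q : ℤ) ^ (j / 2) = q * (q : ℤ) ^ ((j - 1 - 1) / 2) := by
    rw [← pow_succ', h4]
  have hq0 : (0 : ℤ) ≤ q := by positivity
  have h7 := mul_le_mul_of_nonneg_left h3 hq0
  simp only [Nat.reduceAdd] at h1
  rw [h6]
  nlinarith

theorem u_one (q s : ℕ) (hq : 2 ≤ q) (hs : 1 ≤ s + 1) : (CC q 2 s 1 : ℤ) ≤ 1 := by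
  have h1 := CC_rec q 1 s 1 (by omega) le_rfl
  rw [if_pos (by omega), if_pos (by omega)] at h1
  simp only [Nat.sub_self, CC_at_zero, Nat.reduceAdd] at h1
  have h2 := (CC_bounds q (s + 1) 1 hq (by omega) hs).1
  push_cast at h1
  nlinarith

theorem u_odd (q s t : ℕ) (hq : 3 ≤ q) (ht : 2 * t + 1 ≤ s + 1) :
    (CC q 2 s (2 * t + 1) : ℤ) + 8 ≤ 9 * (q : ℤ) ^ t := by
  induction t with
  | zero =>
    have := u_one q s (by omega) (by omega)
    simp only [mul_zero, zero_add, pow_zero]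
    linarith
  | succ t ih =>
    have h1 := ih (by omega)
    have h2 := u_step q s (2 * (t + 1) + 1) (by omega) (by omega) ht
    have h3 := u_step q s (2 * (t + 1)) (by omega) (by omega) (by omega)
    have e1 : 2 * (t + 1) + 1 - 1 = 2 * (t + 1) := by omega
    have e2 : 2 * (t + 1) - 1 = 2 * t + 1 := by omega
    have e3 : (2 * (t + 1) + 1) / 2 = t + 1 := by omega
    have e4 : (2 * (t + 1)) / 2 = t + 1 := by omega
    rw [e1, e3] at h2
    rw [e2, e4] at h3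
    have h4 : (q : ℤ) ^ (t + 1) = q * (q : ℤ) ^ t := pow_succ' _ _
    have hq' : (3 : ℤ) ≤ q := by exact_mod_cast hq
    have hp : (0 : ℤ) ≤ (q : ℤ) ^ t := by positivity
    have h5 : 3 * (q : ℤ) ^ t ≤ (q : ℤ) ^ (t + 1) := by
      rw [h4]
      exact mul_le_mul_of_nonneg_right hq' hp
    linarith

/-- the bound `u_n ≤ q^{n-2}` for large `n`. -/
theorem u_large (q s n : ℕ) (hq : 3 ≤ q) (hn : 7 ≤ n) (hs : n ≤ s + 1) : CC q 2 s n ≤ q ^ (n - 2) := by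
  have hq' : (3 : ℤ) ≤ q := by exact_mod_cast hq
  suffices h : (CC q 2 s n : ℤ) ≤ (q : ℤ) ^ (n - 2) by exact_mod_cast h
  rcases Nat.even_or_odd' n with ⟨t, rfl | rfl⟩
  · -- even case
    obtain ⟨t, rfl⟩ : ∃ r, t = r + 1 := ⟨t - 1, by omega⟩
    have h1 := u_odd q s t hq (by omega)
    have h2 := u_step q s (2 * (t + 1)) (by omega) (by omega) hs
    have e2 : 2 * (t + 1) - 1 = 2 * t + 1 := by omega
    have e4 : (2 * (t + 1)) / 2 = t + 1 := by omega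
    rw [e2, e4] at h2
    obtain ⟨r, rfl⟩ : ∃ r, t = r + 3 := ⟨t - 3, by omega⟩
    have e5 : 2 * (r + 3 + 1) - 2 = (r + 3 + 1) + 2 + r := by omega
    rw [e5]
    have hp : (0 : ℤ) < (q : ℤ) ^ (r + 3) := by positivity
    have h3 : (q : ℤ) ^ (r + 3 + 1) = q * (q : ℤ) ^ (r + 3) := pow_succ' _ _
    have h6 : (q : ℤ) ^ (r + 3 + 1) + 0 ≤ (q : ℤ) ^ (r + 3 + 1) := by linarith
    have h7 : (1 : ℤ) ≤ (q : ℤ) ^ r := one_le_pow₀ (by linarith)
    rw [pow_add, pow_add _ (r + 3 + 1) 2]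
    have h8 : (0 : ℤ) < (q : ℤ) ^ (r + 3 + 1) := by positivity
    have h9 : (9 : ℤ) ≤ (q : ℤ) ^ 2 := by nlinarith
    have h10 : (q : ℤ) ^ (r + 3 + 1) * 9 ≤ (q : ℤ) ^ (r + 3 + 1) * (q : ℤ) ^ 2 * (q : ℤ) ^ r := by
      have : (9 : ℤ) ≤ (q : ℤ) ^ 2 * (q : ℤ) ^ r := by nlinarith
      nlinarith
    have h11 : 3 * (q : ℤ) ^ (r + 3) ≤ (q : ℤ) ^ (r + 3 + 1) := by
      rw [h3]
      exact mul_le_mul_of_nonneg_right hq' hp.le
    linarith
  · obtain ⟨r, rfl⟩ : ∃ r, t = r + 3 := ⟨t - 3, by omega⟩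
    have h1 := u_odd q s (r + 3) hq (by omega)
    have e5 : 2 * (r + 3) + 1 - 2 = (r + 3) + 2 + r := by omega
    rw [e5, pow_add, pow_add _ (r + 3) 2]
    have hp : (0 : ℤ) < (q : ℤ) ^ (r + 3) := by positivity
    have h7 : (1 : ℤ) ≤ (q : ℤ) ^ r := one_le_pow₀ (by linarith)
    have h9 : (9 : ℤ) ≤ (q : ℤ) ^ 2 := by nlinarith
    have : (9 : ℤ) ≤ (q : ℤ) ^ 2 * (q : ℤ) ^ r := by nlinarith
    nlinarith

theorem u_five (q : ℕ) (hq : 1 ≤ q) : CC q 2 4 5 ≤ q ^ 3 := by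
  obtain ⟨Q, rfl⟩ : ∃ Q, q = Q + 1 := ⟨q - 1, by omega⟩
  have : CC (Q + 1) 2 4 5 = Q * (Q + 1) := by
    simp [CC_succ, CC_zero, Finset.sum_range_succ, aa]
    ring
  rw [this]
  nlinarith [sq_nonneg Q]

set_option maxHeartbeats 4000000 in
theorem u_six (q : ℕ) (hq : 1 ≤ q) : CC q 2 5 6 ≤ q ^ 4 := by
  obtain ⟨Q, rfl⟩ : ∃ Q, q = Q + 1 := ⟨q - 1, by omega⟩
  have h0 : CC (Q + 1) 3 4 6 = Q * (Q + 2) := by
    simp only [CC_succ, CC_zero]
    simp [Finset.sum_range_succ, aa]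
    ring
  have h1 : CC (Q + 1) 3 4 4 = Q := by
    simp only [CC_succ, CC_zero]
    simp [Finset.sum_range_succ, aa]
  have h2 : CC (Q + 1) 3 4 2 = 0 := by
    simp only [CC_succ, CC_zero]
    simp [Finset.sum_range_succ, aa]
  have h3 : CC (Q + 1) 3 4 0 = 1 := CC_at_zero _ _ _
  have : CC (Q + 1) 2 5 6 = Q * (Q + 1) * (Q + 3) := by
    rw [CC_succ]
    simp only [Nat.reduceDiv, Nat.reduceAdd, Finset.sum_range_succ, Finset.sum_range_zero, zero_add]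
    simp only [Nat.reduceMul, Nat.reduceSub, h0, h1, h2, h3, aa]
    simp
    ring
  rw [this]
  have h : Q * (Q + 3) ≤ (Q + 1) ^ 3 := by nlinarith [sq_nonneg Q, Nat.zero_le Q]
  calc Q * (Q + 1) * (Q + 3) = (Q + 1) * (Q * (Q + 3)) := by ring
    _ ≤ (Q + 1) * (Q + 1) ^ 3 := Nat.mul_le_mul_left _ h
    _ = (Q + 1) ^ 4 := by ring

/-- `u_n ≤ q^{n-2}` when `q ≥ 3` and `n ≥ 5`. -/
theorem u_le (q n : ℕ) (hq : 3 ≤ q) (hn : 5 ≤ n) : CC q 2 (n - 1) n ≤ q ^ (n - 2) := by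
  rcases (by omega : n = 5 ∨ n = 6 ∨ 7 ≤ n) with rfl | rfl | h
  · exact u_five q (by omega)
  · exact u_six q (by omega)
  · exact u_large q (n - 1) n hq h (by omega)

/-- the determinant one count, `n ≥ 5`. -/
theorem N1_arith (q n N : ℕ) (hq : 2 ≤ q) (hn : 5 ≤ n)
    (h : (q - 1) * N + CC q 2 (n - 1) n ≤ CC q 1 (n - 1 + 1) n + (q - 1) * CC q 2 (n - 1) n) :
    N ≤ (q + 2) * q ^ (n - 2) := by
  have hc : CC q 1 (n - 1 + 1) n ≤ q ^ n := CC_one_le q _ n hq (by omega)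
  set u := CC q 2 (n - 1) n with hu
  set x := q ^ (n - 2) with hx
  have hqn : q ^ n = q ^ 2 * x := by
    rw [hx, ← pow_add]
    congr 1
    omega
  obtain ⟨Q, rfl⟩ : ∃ Q, q = Q + 2 := ⟨q - 2, by omega⟩
  have hQ : Q + 2 - 1 = Q + 1 := by omega
  rw [hQ] at h
  have hxu : Q * u ≤ Q * x := by
    rcases Nat.eq_zero_or_pos Q with rfl | hQ0
    · simp
    · exact Nat.mul_le_mul_left _ (u_le (Q + 2) n (by omega) hn)
  have h2 : (Q + 1) * N ≤ (Q + 1) * ((Q + 2 + 2) * x) := by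
    rw [hqn] at hc
    nlinarith
  exact Nat.le_of_mul_le_mul_left h2 (by omega)

end Cfsg.Agent.Lib.ClassNum
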