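/-
The class number of `SL_n(F)`.
-/
import Cfsg.Agent.Lib.ClassNum.SLfib
import Cfsg.Agent.Lib.ClassNum.Unum

set_option autoImplicit false

namespace Cfsg.Agent.Lib.ClassNum

open Polynomial Module Cfsg.Agent.Lib.MatConj.Tg Finset

universe u

variable {F : Type u} [Field F] [Fintype F] {n : ℕ}

/-- all classes of `GL_n(F)`. -/
noncomputable def allC (n : ℕ) (F : Type u) [Field F] [Fintype F] : Finset (ConjClasses (GL (Fin n) F)) :=
  (Set.finite_univ (α := ConjClasses (GL (Fin n) F))).toFinset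

theorem mem_allC (C : ConjClasses (GL (Fin n) F)) : C ∈ allC n F := by
  simp [allC]

open _root_.Classical in
/-- the classes of determinant one with a chain of level `d`. -/
noncomputable def Nd (P : Finset (ConjClasses (GL (Fin n) F))) (d : ℕ) : ℕ :=
  (P.filter fun C : ConjClasses (GL (Fin n) F) =>
    Matrix.GeneralLinearGroup.det (Quotient.out C) = 1 ∧ Lev d (Quotient.out C)).card

theorem det_val_one (g : GL (Fin n) F) (h : Matrix.GeneralLinearGroup.det g = 1) :
    (g : Matrix (Fin n) (Fin n) F).det = 1 := by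
  have := congrArg Units.val h
  simpa using this

open _root_.Classical in
theorem Nd_le_X (P : Finset (ConjClasses (GL (Fin n) F))) {d : ℕ} (hd : 1 ≤ d) (X : Finset (List F[X]))
    (hX : ∀ C ∈ P, Matrix.GeneralLinearGroup.det (Quotient.out C) = 1 → ∀ L ∈ Dat (F := F) 1 (n / d) (n / d),
      Rp (Tg (Quotient.out C)) (BM ((sfx L).map (· ^ d))) → dt 1 L ^ d = 1 → L ∈ X) :
    Nd P d ≤ X.card := by
  refine card_le_of_lev _ hd X ?_ ?_
  · intro C hC
    exact (mem_filter.1 hC).2.2
  · intro C hC L hL h1 h2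
    have hC' := mem_filter.1 hC
    refine hX C hC'.1 hC'.2.1 L hL h1 ?_
    rw [← h2]
    exact det_val_one _ hC'.2.1

theorem Nd_zero (P : Finset (ConjClasses (GL (Fin n) F))) {d : ℕ} (hd : 1 ≤ d) (h : ¬ d ∣ n) : Nd P d = 0 := by
  classical
  rw [Nd, card_eq_zero, filter_eq_empty_iff]
  rintro C _ ⟨-, h2⟩
  exact h (h2.data hd).1

theorem Nd_le_CC (P : Finset (ConjClasses (GL (Fin n) F))) {d : ℕ} (hd : 1 ≤ d) :
    Nd P d ≤ CC (Fintype.card F) 1 (n / d) (n / d) :=
  le_trans (Nd_le_X P hd (Dat (F := F) 1 (n / d) (n / d)) fun _ _ _ _ hL _ _ => hL) (card_Dat_le _ _ _)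

open _root_.Classical in
theorem Nd_le_det (P : Finset (ConjClasses (GL (Fin n) F))) {d : ℕ} (hd : 1 ≤ d) :
    Nd P d ≤ ((Dat (F := F) 1 (n / d) (n / d)).filter fun L => dt 1 L ^ d = 1).card :=
  Nd_le_X P hd _ fun _ _ _ _ hL _ h => mem_filter.2 ⟨hL, h⟩

open _root_.Classical in
theorem Nd_one_le (P : Finset (ConjClasses (GL (Fin n) F))) :
    Nd P 1 ≤ ((Dat (F := F) 1 n n).filter fun L => dt 1 L = 1).card := by
  refine le_trans (Nd_le_det P le_rfl) ?_
  simp only [Nat.div_one, pow_one]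
  exact le_of_eq (by congr)

theorem Nd_one_Phi (P : Finset (ConjClasses (GL (Fin n) F))) :
    (Fintype.card F - 1) * Nd P 1 ≤ Phi (Fintype.card F) 1 n n := by
  classical
  refine le_trans (Nat.mul_le_mul_left _ (Nd_one_le P)) ?_
  exact Phi_bound 1 n n le_rfl 1 one_ne_zero

theorem card_SL_le (n : ℕ) (F : Type u) [Field F] [Fintype F] :
    Nat.card (ConjClasses (Matrix.SpecialLinearGroup (Fin n) F)) ≤
      ∑ d ∈ Nat.divisors (Fintype.card F - 1), Nat.totient d * Nd (allC n F) d := by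
  classical
  have h := card_up_le (allC n F)
  have h1 : Nat.card {x : ConjClasses (Matrix.SpecialLinearGroup (Fin n) F) // up x ∈ allC n F} =
      Nat.card (ConjClasses (Matrix.SpecialLinearGroup (Fin n) F)) :=
    Nat.card_congr (Equiv.subtypeUnivEquiv fun x => mem_allC _)
  rw [h1] at h
  refine le_trans h (le_of_eq ?_)
  refine Finset.sum_congr rfl fun d _ => ?_
  congr 1

theorem sum_div_gcd (f : ℕ → ℕ) (Q n : ℕ) (hQ : Q ≠ 0) (hf : ∀ d, 1 ≤ d → ¬ d ∣ n → f d = 0) :
    ∑ d ∈ Nat.divisors Q, Nat.totient d * f d = ∑ d ∈ Nat.divisors (Nat.gcd Q n), Nat.totient d * f d := by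
  symm
  refine Finset.sum_subset ?_ ?_
  · intro d hd
    rw [Nat.mem_divisors] at hd ⊢
    exact ⟨hd.1.trans (Nat.gcd_dvd_left _ _), hQ⟩
  · intro d hd hd'
    rw [Nat.mem_divisors] at hd hd'
    have h1 : 1 ≤ d := Nat.pos_of_ne_zero (fun h => by subst h; exact hQ (Nat.eq_zero_of_zero_dvd hd.1))
    have h2 : ¬ d ∣ n := fun h => hd' ⟨Nat.dvd_gcd hd.1 h, Nat.gcd_ne_zero_left hQ⟩
    rw [hf d h1 h2, mul_zero]

theorem Q_ne (F : Type u) [Field F] [Fintype F] : Fintype.card F - 1 ≠ 0 := by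
  have : 1 < Fintype.card F := Fintype.one_lt_card
  omega

/-- `n ≥ 5` -/
theorem SL_large (hn : 5 ≤ n) :
    Nat.card (ConjClasses (Matrix.SpecialLinearGroup (Fin n) F)) ≤
      (Fintype.card F + 3) * Fintype.card F ^ (n - 2) := by
  classical
  have hq : 2 ≤ Fintype.card F := Fintype.one_lt_card
  set q := Fintype.card F with hqq
  set x := q ^ (n - 2) with hx
  refine le_trans (card_SL_le n F) ?_
  have hQ := Q_ne F
  have h1mem : 1 ∈ Nat.divisors (q - 1) := Nat.mem_divisors.2 ⟨one_dvd _, hQ⟩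
  rw [← Finset.add_sum_erase _ _ h1mem]
  simp only [Nat.totient_one, one_mul]
  have hN1 : Nd (allC n F) 1 ≤ (q + 2) * x := by
    refine N1_arith q n _ hq hn ?_
    have h1 := N1_bound (F := F) (n - 1) n 1 one_ne_zero
    have h2 : n - 1 + 1 = n := by omega
    rw [h2] at h1 ⊢
    rw [← hqq] at h1
    have h3 := Nat.mul_le_mul_left (q - 1) (Nd_one_le (allC n F))
    omega
  have hW : ∑ d ∈ (Nat.divisors (q - 1)).erase 1, Nat.totient d * Nd (allC n F) d ≤ x := by
    have h1 : ∀ d ∈ (Nat.divisors (q - 1)).erase 1,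
        Nat.totient d * Nd (allC n F) d ≤ Nat.totient d * q ^ (n / 2) := by
      intro d hd
      rw [Finset.mem_erase, Nat.mem_divisors] at hd
      have hd0 : 1 ≤ d := Nat.pos_of_ne_zero (fun h => by subst h; exact hQ (Nat.eq_zero_of_zero_dvd hd.2.1))
      refine Nat.mul_le_mul_left _ ?_
      by_cases hdn : d ∣ n
      · refine le_trans (Nd_le_CC _ hd0) (le_trans (CC_one_le q _ _ hq le_rfl) ?_)
        refine Nat.pow_le_pow_right (by omega) ?_
        exact Nat.div_le_div_left (by omega) (by omega)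
      · rw [Nd_zero _ hd0 hdn]
        exact Nat.zero_le _
    refine le_trans (Finset.sum_le_sum h1) ?_
    rw [← Finset.sum_mul]
    have h2 : ∑ d ∈ (Nat.divisors (q - 1)).erase 1, Nat.totient d ≤ q := by
      have h3 := Nat.sum_totient (q - 1)
      rw [← Finset.add_sum_erase _ _ h1mem] at h3
      omega
    refine le_trans (Nat.mul_le_mul_right _ h2) ?_
    rw [hx, ← pow_succ']
    exact Nat.pow_le_pow_right (by omega) (by omega)
  calc _ ≤ (q + 2) * x + x := Nat.add_le_add hN1 hW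
    _ = (q + 3) * x := by ring

theorem Phi_two (q : ℕ) (hq : 1 ≤ q) : Phi q 1 2 2 = (q - 1) * (q + 2) := by
  obtain ⟨Q, rfl⟩ : ∃ Q, q = Q + 1 := ⟨q - 1, by omega⟩
  simp [Phi, CC_succ, CC_zero, Finset.sum_range_succ, aa]
  ring

theorem Phi_three (q : ℕ) (hq : 1 ≤ q) : Phi q 1 3 3 = (q - 1) * (q ^ 2 + q + 2) := by
  obtain ⟨Q, rfl⟩ : ∃ Q, q = Q + 1 := ⟨q - 1, by omega⟩
  simp [Phi, CC_succ, CC_zero, Finset.sum_range_succ, aa]
  ring

theorem Phi_four (q : ℕ) (hq : 1 ≤ q) : Phi q 1 4 4 = (q - 1) * (q ^ 3 + q ^ 2 + 2 * q + 3) := by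
  obtain ⟨Q, rfl⟩ : ∃ Q, q = Q + 1 := ⟨q - 1, by omega⟩
  simp [Phi, CC_succ, CC_zero, Finset.sum_range_succ, aa]
  ring

theorem Phi_one (q : ℕ) (hq : 1 ≤ q) : Phi q 1 1 1 = q - 1 := by
  obtain ⟨Q, rfl⟩ : ∃ Q, q = Q + 1 := ⟨q - 1, by omega⟩
  simp [Phi, CC_succ, CC_zero, Finset.sum_range_succ, aa]

theorem CC_one_one (q : ℕ) : CC q 1 1 1 = q - 1 := by
  simp [CC_succ, CC_zero, Finset.sum_range_succ, aa]

theorem Nd_one_two : Nd (allC 2 F) 1 ≤ Fintype.card F + 2 := by
  have hq : 2 ≤ Fintype.card F := Fintype.one_lt_card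
  have h := Nd_one_Phi (n := 2) (F := F) (allC 2 F)
  rw [Phi_two _ (by omega)] at h
  exact Nat.le_of_mul_le_mul_left h (by omega)

theorem Nd_one_three : Nd (allC 3 F) 1 ≤ Fintype.card F ^ 2 + Fintype.card F + 2 := by
  have hq : 2 ≤ Fintype.card F := Fintype.one_lt_card
  have h := Nd_one_Phi (n := 3) (F := F) (allC 3 F)
  rw [Phi_three _ (by omega)] at h
  exact Nat.le_of_mul_le_mul_left h (by omega)

theorem Nd_one_four : Nd (allC 4 F) 1 ≤ Fintype.card F ^ 3 + Fintype.card F ^ 2 + 2 * Fintype.card F + 3 := by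
  have hq : 2 ≤ Fintype.card F := Fintype.one_lt_card
  have h := Nd_one_Phi (n := 4) (F := F) (allC 4 F)
  rw [Phi_four _ (by omega)] at h
  exact Nat.le_of_mul_le_mul_left h (by omega)

/-- at most two determinant data for `n = 2`, `d = 2`. -/
theorem Nd_two_two : Nd (allC 2 F) 2 ≤ 2 := by
  classical
  have hq : 2 ≤ Fintype.card F := Fintype.one_lt_card
  refine le_trans (Nd_le_det _ (by omega)) ?_
  norm_num only
  have h1 : ∀ w : F, w ≠ 0 → ((Dat (F := F) 1 1 1).filter fun L => dt 1 L = w).card ≤ 1 := by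
    intro w hw
    have h := Phi_bound (F := F) 1 1 1 le_rfl w hw
    rw [Phi_one _ (by omega)] at h
    exact Nat.le_of_mul_le_mul_left (by simpa using h) (by omega)
  have h2 : ((Dat (F := F) 1 1 1).filter fun L => dt 1 L ^ 2 = 1) ⊆
      ((Dat (F := F) 1 1 1).filter fun L => dt 1 L = 1) ∪ ((Dat (F := F) 1 1 1).filter fun L => dt 1 L = -1) := by
    intro L hL
    rw [mem_filter] at hL
    rw [mem_union, mem_filter, mem_filter]
    rcases eq_or_eq_neg_of_sq_eq_sq (dt 1 L) 1 (by rw [hL.2, one_pow]) with h | h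
    · exact Or.inl ⟨hL.1, h⟩
    · exact Or.inr ⟨hL.1, h⟩
  refine le_trans (card_le_card h2) (le_trans (card_union_le _ _) ?_)
  have h3 := h1 1 one_ne_zero
  have h4 := h1 (-1) (neg_ne_zero.2 one_ne_zero)
  omega

/-- `n = 2` -/
theorem SL_two :
    Nat.card (ConjClasses (Matrix.SpecialLinearGroup (Fin 2) F)) ≤
      Fintype.card F + 2 + (if 2 ∣ Fintype.card F - 1 then 2 else 0) := by
  have hq : 2 ≤ Fintype.card F := Fintype.one_lt_card
  refine le_trans (card_SL_le 2 F) ?_
  rw [sum_div_gcd _ _ 2 (Q_ne F) fun d hd h => Nd_zero _ hd h]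
  have h1 := Nd_one_two (F := F)
  have h2 := Nd_two_two (F := F)
  by_cases h : 2 ∣ Fintype.card F - 1
  · rw [if_pos h, Nat.gcd_eq_right h]
    have : Nat.divisors 2 = {1, 2} := by decide
    rw [this, Finset.sum_insert (by decide), Finset.sum_singleton]
    simp only [Nat.totient_one, Nat.totient_two, one_mul]
    omega
  · rw [if_neg h]
    have : Nat.gcd (Fintype.card F - 1) 2 = 1 := by
      have h3 : Nat.gcd (Fintype.card F - 1) 2 ∣ 2 := Nat.gcd_dvd_right _ _
      have h4 := (Nat.dvd_prime Nat.prime_two).1 h3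
      rcases h4 with h4 | h4
      · exact h4
      · exact absurd (h4 ▸ Nat.gcd_dvd_left (Fintype.card F - 1) 2) h
    rw [this, Nat.divisors_one, Finset.sum_singleton]
    simp only [Nat.totient_one, one_mul]
    omega

/-- `n = 3` -/
theorem SL_three :
    Nat.card (ConjClasses (Matrix.SpecialLinearGroup (Fin 3) F)) ≤
      Fintype.card F ^ 2 + 3 * Fintype.card F := by
  have hq : 2 ≤ Fintype.card F := Fintype.one_lt_card
  refine le_trans (card_SL_le 3 F) ?_
  rw [sum_div_gcd _ _ 3 (Q_ne F) fun d hd h => Nd_zero _ hd h]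
  have h1 := Nd_one_three (F := F)
  have h3 : Nd (allC 3 F) 3 ≤ Fintype.card F - 1 := by
    have := Nd_le_CC (allC 3 F) (d := 3) (by omega)
    simpa [CC_one_one] using this
  have h4 : Nat.gcd (Fintype.card F - 1) 3 ∣ 3 := Nat.gcd_dvd_right _ _
  rcases (Nat.dvd_prime Nat.prime_three).1 h4 with h5 | h5
  · rw [h5, Nat.divisors_one, Finset.sum_singleton]
    simp only [Nat.totient_one, one_mul]
    omega
  · rw [h5]
    have : Nat.divisors 3 = {1, 3} := by decide
    rw [this, Finset.sum_insert (by decide), Finset.sum_singleton]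
    have h6 : Nat.totient 3 = 2 := by decide
    simp only [Nat.totient_one, h6, one_mul]
    omega

/-- `n = 4` -/
theorem SL_four :
    Nat.card (ConjClasses (Matrix.SpecialLinearGroup (Fin 4) F)) ≤
      Fintype.card F ^ 3 + 3 * Fintype.card F ^ 2 := by
  have hq : 2 ≤ Fintype.card F := Fintype.one_lt_card
  refine le_trans (card_SL_le 4 F) ?_
  rw [sum_div_gcd _ _ 4 (Q_ne F) fun d hd h => Nd_zero _ hd h]
  have h1 := Nd_one_four (F := F)
  have h2 : Nd (allC 4 F) 2 ≤ Fintype.card F ^ 2 := by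
    refine le_trans (Nd_le_CC (allC 4 F) (d := 2) (by omega)) ?_
    exact CC_one_le _ _ _ hq le_rfl
  have h3 : Nd (allC 4 F) 4 ≤ Fintype.card F - 1 := by
    have := Nd_le_CC (allC 4 F) (d := 4) (by omega)
    simpa [CC_one_one] using this
  have h4 : Nat.gcd (Fintype.card F - 1) 4 ∣ 4 := Nat.gcd_dvd_right _ _
  have h5 : Nat.gcd (Fintype.card F - 1) 4 = 1 ∨ Nat.gcd (Fintype.card F - 1) 4 = 2 ∨
      Nat.gcd (Fintype.card F - 1) 4 = 4 := by
    have hle := Nat.le_of_dvd (by omega) h4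
    have hpos : 0 < Nat.gcd (Fintype.card F - 1) 4 := Nat.gcd_pos_of_pos_right _ (by omega)
    generalize Nat.gcd (Fintype.card F - 1) 4 = g at *
    interval_cases g <;> simp_all
  have hdl := Nat.gcd_dvd_left (Fintype.card F - 1) 4
  rcases h5 with h5 | h5 | h5
  · rw [h5, Nat.divisors_one, Finset.sum_singleton]
    simp only [Nat.totient_one, one_mul]
    nlinarith
  · rw [h5] at hdl ⊢
    have hq3 : 3 ≤ Fintype.card F := by
      have := Nat.le_of_dvd (by omega) hdl
      omega
    have : Nat.divisors 2 = {1, 2} := by decide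
    rw [this, Finset.sum_insert (by decide), Finset.sum_singleton]
    simp only [Nat.totient_one, Nat.totient_two, one_mul]
    nlinarith
  · rw [h5] at hdl ⊢
    have hq3 : 5 ≤ Fintype.card F := by
      have := Nat.le_of_dvd (by omega) hdl
      omega
    have : Nat.divisors 4 = {1, 2, 4} := by decide
    rw [this, Finset.sum_insert (by decide), Finset.sum_insert (by decide), Finset.sum_singleton]
    have h6 : Nat.totient 4 = 2 := by decide
    simp only [Nat.totient_one, Nat.totient_two, h6, one_mul]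
    have : 2 * Nd (allC 4 F) 4 ≤ 2 * Fintype.card F := by omega
    nlinarith

/-- `n ≥ 3` -/
theorem SL_ge_three (hn : 3 ≤ n) :
    Nat.card (ConjClasses (Matrix.SpecialLinearGroup (Fin n) F)) ≤
      Fintype.card F ^ (n - 1) + 3 * Fintype.card F ^ (n - 2) := by
  rcases (by omega : n = 3 ∨ n = 4 ∨ 5 ≤ n) with rfl | rfl | h
  · simpa using SL_three (F := F)
  · simpa using SL_four (F := F)
  · have h1 := SL_large (F := F) h
    have h2 : n - 1 = n - 2 + 1 := by omega
    rw [h2, pow_succ]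
    nlinarith

/-! ### lower bound -/

/-- the class number of `SL_n` from below -/
theorem SL_lower (m : ℕ) (hm : 1 ≤ m) :
    Fintype.card F ^ m < Nat.card (ConjClasses (Matrix.SpecialLinearGroup (Fin (m + 1)) F)) := by
  classical
  set c : F := (-1) ^ (m + 1) with hc
  have hex : ∀ a : Fin m → F, ∃ s : Matrix.SpecialLinearGroup (Fin (m + 1)) F,
      s.1.charpoly = pf (m + 1) (Fin.cons c a) := by
    intro a
    obtain ⟨A, hA⟩ := exists_charpoly (pf (m + 1) (Fin.cons c a)) (pf_monic _ _) (pf_natDegree _ _)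
    have hdet : A.det = 1 := by
      rw [Matrix.det_eq_sign_charpoly_coeff, hA]
      have := pf_coeff (m + 1) (Fin.cons c a) 0
      simp only [Fin.val_zero, Fin.cons_zero] at this
      rw [this, hc, Fintype.card_fin, ← mul_pow]
      simp
    exact ⟨⟨A, hdet⟩, hA⟩
  choose s hs using hex
  have hconj : ∀ x y : Matrix.SpecialLinearGroup (Fin (m + 1)) F, IsConj x y → x.1.charpoly = y.1.charpoly := by
    intro x y h
    obtain ⟨b, hb⟩ := isConj_iff.1 h
    rw [← hb]
    have h7 : (((b * x * b⁻¹ : Matrix.SpecialLinearGroup (Fin (m + 1)) F)) : Matrix (Fin (m + 1)) (Fin (m + 1)) F)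
        = ((toG b : GL (Fin (m + 1)) F) : Matrix (Fin (m + 1)) (Fin (m + 1)) F) * x.1 *
          ((toG b : GL (Fin (m + 1)) F) : Matrix (Fin (m + 1)) (Fin (m + 1)) F)⁻¹ := by
      rw [← Matrix.coe_units_inv, ← map_inv]
      rfl
    change x.1.charpoly = ((b * x * b⁻¹ : Matrix.SpecialLinearGroup (Fin (m + 1)) F) : Matrix (Fin (m + 1)) (Fin (m + 1)) F).charpoly
    rw [h7, Matrix.charpoly_units_conj]
  have hinj : Function.Injective (fun a => ConjClasses.mk (s a)) := by
    intro a b hab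
    have h1 := hconj _ _ (ConjClasses.mk_eq_mk_iff_isConj.1 hab)
    rw [hs, hs] at h1
    have h2 := pf_injective _ h1
    funext i
    simpa using congrFun h2 i.succ
  -- a non-trivial unipotent element
  have i0 : Fin (m + 1) := 0
  set i : Fin (m + 1) := 0 with hi
  set j : Fin (m + 1) := ⟨1, by omega⟩ with hj
  have hij : i ≠ j := by
    intro h
    have := congrArg Fin.val h
    simp [hi, hj] at this
  let t : Matrix.SpecialLinearGroup (Fin (m + 1)) F := ⟨Matrix.transvection i j 1, Matrix.det_transvection_of_ne i j hij 1⟩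
  have ht1 : t ≠ 1 := by
    intro h
    have h1 := congrArg (fun x : Matrix.SpecialLinearGroup (Fin (m + 1)) F => x.1 i j) h
    simp [t, Matrix.transvection, hij] at h1
  have hup : ∀ x : Matrix (Fin (m + 1)) (Fin (m + 1)) F, (∀ a b, b < a → x a b = 0) → (∀ a, x a a = 1) →
      x.charpoly = (X - C 1) ^ (m + 1) := by
    intro x h1 h2
    rw [Matrix.charpoly_of_isUpperTriangular x (by
      intro a b hab
      exact h1 a b hab)]
    simp [h2]
  have hcp1 : (1 : Matrix.SpecialLinearGroup (Fin (m + 1)) F).1.charpoly = (X - C 1) ^ (m + 1) := by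
    refine hup _ ?_ ?_
    · intro a b hab
      simp [Matrix.one_apply_ne hab.ne']
    · intro a
      simp
  have hcp2 : t.1.charpoly = (X - C 1) ^ (m + 1) := by
    refine hup _ ?_ ?_
    · intro a b hab
      simp only [t, Matrix.transvection, Matrix.add_apply, Matrix.one_apply_ne hab.ne', zero_add]
      rw [Matrix.single_apply_of_ne]
      rintro ⟨rfl, rfl⟩
      have : (1 : ℕ) < 0 := by simpa [hi, hj, Fin.lt_def] using hab
      omega
    · intro a
      simp only [t, Matrix.transvection, Matrix.add_apply, Matrix.one_apply_eq]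
      rw [Matrix.single_apply_of_ne, add_zero]
      rintro ⟨rfl, h⟩
      exact hij h.symm
  have hns : ¬ Function.Surjective (fun a => ConjClasses.mk (s a)) := by
    intro hsurj
    obtain ⟨a, ha⟩ := hsurj (ConjClasses.mk 1)
    obtain ⟨b, hb⟩ := hsurj (ConjClasses.mk t)
    have h1 := hconj _ _ (ConjClasses.mk_eq_mk_iff_isConj.1 ha)
    have h2 := hconj _ _ (ConjClasses.mk_eq_mk_iff_isConj.1 hb)
    rw [hs, hcp1] at h1
    rw [hs, hcp2] at h2
    have h3 := pf_injective _ (h1.trans h2.symm)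
    have h4 : a = b := by
      funext i
      simpa using congrFun h3 i.succ
    subst h4
    have h5 : IsConj (1 : Matrix.SpecialLinearGroup (Fin (m + 1)) F) t :=
      ConjClasses.mk_eq_mk_iff_isConj.1 (ha.symm.trans hb)
    exact ht1 (isConj_one_left.1 h5.symm)
  haveI : Fintype (ConjClasses (Matrix.SpecialLinearGroup (Fin (m + 1)) F)) := Fintype.ofFinite _
  have h := Fintype.card_lt_of_injective_not_surjective _ hinj hns
  rw [Nat.card_eq_fintype_card]
  simpa using h

end Cfsg.Agent.Lib.ClassNum
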