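/-
Uniqueness of chains, and twisting by a scalar.
-/
import Cfsg.Agent.Lib.ClassNum.SLcount

set_option autoImplicit false

namespace Cfsg.Agent.Lib.ClassNum

open Polynomial Module Cfsg.Agent.Lib.MatConj.Tg

universe u v

variable {F : Type u} [Field F]

section kernel

/-- the number of elements killed by `w`. -/
noncomputable def KK (M : Type v) [AddCommGroup M] [Module F[X] M] (w : F[X]) : ℕ :=
  Nat.card {m : M // w • m = 0}

variable {M : Type v} [AddCommGroup M] [Module F[X] M] {N : Type v} [AddCommGroup N] [Module F[X] N]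

theorem KK_equiv (E : M ≃ₗ[F[X]] N) (w : F[X]) : KK M w = KK N w := by
  refine Nat.card_congr (E.toEquiv.subtypeEquiv fun m => ?_)
  simp only [LinearEquiv.coe_toEquiv]
  rw [← map_smul, map_eq_zero_iff E E.injective]

theorem KK_prod (w : F[X]) : KK (M × N) w = KK M w * KK N w := by
  rw [KK, KK, KK, ← Nat.card_prod]
  refine Nat.card_congr
    { toFun := fun x => (⟨x.1.1, congrArg Prod.fst x.2⟩, ⟨x.1.2, congrArg Prod.snd x.2⟩)
      invFun := fun y => ⟨(y.1.1, y.2.1), Prod.ext y.1.2 y.2.2⟩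
      left_inv := fun _ => rfl
      right_inv := fun _ => rfl }

theorem KK_pos [Finite M] (w : F[X]) : 0 < KK M w := by
  haveI : Nonempty {m : M // w • m = 0} := ⟨⟨0, smul_zero _⟩⟩
  exact Nat.card_pos

theorem KK_zero (M : Type v) [AddCommGroup M] [Module F[X] M] : KK M (0 : F[X]) = Nat.card M := by
  refine Nat.card_congr (Equiv.subtypeUnivEquiv fun m => zero_smul _ m)

theorem KK_eq_card [Finite M] (w : F[X]) : KK M w = Nat.card M ↔ ∀ m : M, w • m = 0 := by
  constructor
  · intro h m
    have h1 : KK M w = Set.ncard {m : M | w • m = 0} := (Nat.card_coe_set_eq _)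
    have h2 : Set.ncard {m : M | w • m = 0} = Set.ncard (Set.univ : Set M) := by
      rw [← h1, h, Set.ncard_univ]
    have h3 := Set.eq_of_subset_of_ncard_le (Set.subset_univ {m : M | w • m = 0}) (le_of_eq h2.symm)
    have h4 : m ∈ {m : M | w • m = 0} := by
      rw [h3]
      trivial
    exact h4
  · intro h
    exact Nat.card_congr (Equiv.subtypeUnivEquiv h)

theorem kills_quot (h w : F[X]) : (∀ m : F[X] ⧸ Ideal.span {h}, w • m = 0) ↔ h ∣ w := by
  constructor
  · intro hm
    have h1 := hm (Ideal.Quotient.mk _ 1)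
    have h2 : Ideal.Quotient.mk (Ideal.span {h}) w = 0 := by
      rw [← h1]
      change _ = Ideal.Quotient.mk (Ideal.span {h}) (w * 1)
      rw [mul_one]
    rwa [Ideal.Quotient.eq_zero_iff_mem, Ideal.mem_span_singleton] at h2
  · rintro hw m
    obtain ⟨r, rfl⟩ := Ideal.Quotient.mk_surjective m
    change Ideal.Quotient.mk (Ideal.span {h}) (w * r) = 0
    rw [Ideal.Quotient.eq_zero_iff_mem, Ideal.mem_span_singleton]
    exact Dvd.dvd.mul_right hw r

theorem kills_BM (H : List F[X]) (w : F[X]) : (∀ m : BM H, w • m = 0) ↔ ∀ h ∈ H, h ∣ w := by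
  induction H with
  | nil =>
    simp only [List.not_mem_nil, false_imp_iff, implies_true, iff_true]
    intro m
    exact Subsingleton.elim _ _
  | cons h H ih =>
    simp only [List.mem_cons, forall_eq_or_imp]
    rw [← ih, ← kills_quot]
    constructor
    · intro hm
      refine ⟨fun a => ?_, fun b => ?_⟩
      · exact congrArg Prod.fst (hm (show BM (h :: H) from (a, 0)))
      · exact congrArg Prod.snd (hm (show BM (h :: H) from (0, b)))
    · rintro ⟨h1, h2⟩ m
      exact Prod.ext (h1 _) (h2 _)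

end kernel

section uniq

variable [Fintype F]

/-- kernels determine chains -/
theorem uniq_of_KK (A B : List F[X]) (hA : ∀ h ∈ A, h.Monic) (hB : ∀ h ∈ B, h.Monic)
    (pA : A.Pairwise (fun x y => y ∣ x)) (pB : B.Pairwise (fun x y => y ∣ x))
    (hlen : A.length = B.length) (hK : ∀ w : F[X], KK (BM A) w = KK (BM B) w) : A = B := by
  induction A generalizing B with
  | nil =>
    cases B with
    | nil => rfl
    | cons _ _ => simp at hlen
  | cons a A ih =>
    cases B with
    | nil => simp at hlen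
    | cons b B =>
      have ha : a.Monic := hA a (by simp)
      have hb : b.Monic := hB b (by simp)
      rw [List.pairwise_cons] at pA pB
      haveI := finite_BM (a :: A) hA
      haveI := finite_BM (b :: B) hB
      haveI := finite_BM A (fun t ht => hA t (by simp [ht]))
      haveI := finite_BM B (fun t ht => hB t (by simp [ht]))
      haveI := finite_quot a ha
      haveI := finite_quot b hb
      have hcard : Nat.card (BM (a :: A)) = Nat.card (BM (b :: B)) := by
        rw [← KK_zero (F := F), ← KK_zero (F := F), hK]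
      have h1 : ∀ m : BM (a :: A), a • m = 0 := by
        rw [kills_BM]
        intro h hh
        rw [List.mem_cons] at hh
        rcases hh with rfl | hh
        · exact dvd_rfl
        · exact pA.1 h hh
      have h2 : ∀ m : BM (b :: B), b • m = 0 := by
        rw [kills_BM]
        intro h hh
        rw [List.mem_cons] at hh
        rcases hh with rfl | hh
        · exact dvd_rfl
        · exact pB.1 h hh
      have h3 : ∀ m : BM (b :: B), a • m = 0 := by
        rw [← KK_eq_card, ← hK, ← hcard, KK_eq_card]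
        exact h1
      have h4 : ∀ m : BM (a :: A), b • m = 0 := by
        rw [← KK_eq_card, hK, hcard, KK_eq_card]
        exact h2
      have h5 : b ∣ a := (kills_BM _ _).1 h3 b (by simp)
      have h6 : a ∣ b := (kills_BM _ _).1 h4 a (by simp)
      have hab : a = b := eq_of_monic_of_associated ha hb (associated_of_dvd_dvd h6 h5)
      subst hab
      congr 1
      refine ih B (fun t ht => hA t (by simp [ht])) (fun t ht => hB t (by simp [ht])) pA.2 pB.2
        (by simpa using hlen) ?_
      intro w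
      have h7 := hK w
      have e1 : KK (BM (a :: A)) w = KK (F[X] ⧸ Ideal.span {a}) w * KK (BM A) w := KK_prod w
      have e2 : KK (BM (a :: B)) w = KK (F[X] ⧸ Ideal.span {a}) w * KK (BM B) w := KK_prod w
      rw [e1, e2] at h7
      exact Nat.eq_of_mul_eq_mul_left (KK_pos w) h7

/-- Isomorphic chain modules have the same chains. -/
theorem uniq_chain (A B : List F[X]) (hA : ∀ h ∈ A, h.Monic) (hB : ∀ h ∈ B, h.Monic)
    (pA : A.Pairwise (fun x y => y ∣ x)) (pB : B.Pairwise (fun x y => y ∣ x))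
    (hlen : A.length = B.length) (E : BM A ≃ₗ[F[X]] BM B) : A = B :=
  uniq_of_KK A B hA hB pA pB hlen fun w => KK_equiv E w

end uniq

section Rp

variable {V : Type u} [AddCommGroup V] [Module F V]

/-- two models of an endomorphism are isomorphic. -/
theorem Rp.toEquiv {T : V →ₗ[F] V} {M M' : Type u} [AddCommGroup M] [Module F[X] M]
    [AddCommGroup M'] [Module F[X] M'] (h : Rp T M) (h' : Rp T M') : Nonempty (M ≃ₗ[F[X]] M') := by
  obtain ⟨φ, h1, h2⟩ := h
  obtain ⟨φ', h1', h2'⟩ := h'
  refine ⟨{ toFun := fun m => φ' (φ.symm m)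
            invFun := fun m => φ (φ'.symm m)
            map_add' := by intro x y; simp
            map_smul' := by
              intro f m
              obtain ⟨v, rfl⟩ := φ.surjective m
              simp only [RingHom.id_apply, AddEquiv.symm_apply_apply]
              rw [← rp_aeval h1 h2, AddEquiv.symm_apply_apply, rp_aeval h1' h2']
            left_inv := by intro x; simp
            right_inv := by intro x; simp }⟩

/-- transport along a similarity. -/
theorem Rp.of_conj {T T' : V →ₗ[F] V} {M : Type u} [AddCommGroup M] [Module F[X] M]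
    (P : V ≃ₗ[F] V) (hP : ∀ x, P (T x) = T' (P x)) (h : Rp T' M) : Rp T M := by
  obtain ⟨φ, h1, h2⟩ := h
  refine ⟨P.toAddEquiv.trans φ, ?_, ?_⟩
  · intro v
    change φ (P (T v)) = X • φ (P v)
    rw [hP, h1]
  · intro c v
    change φ (P (c • v)) = C c • φ (P v)
    rw [map_smul, h2]

end Rp

section tau

/-- the normalized substitution `X ↦ ζ⁻¹ X`. -/
noncomputable def tau (ζ : Fˣ) (h : F[X]) : F[X] :=
  C ((ζ : F) ^ h.natDegree) * h.comp (C ((ζ⁻¹ : Fˣ) : F) * X)

theorem tau_coeff (ζ : Fˣ) (h : F[X]) (j : ℕ) :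
    (tau ζ h).coeff j = (ζ : F) ^ h.natDegree * (h.coeff j * ((ζ⁻¹ : Fˣ) : F) ^ j) := by
  rw [tau, coeff_C_mul, comp_C_mul_X_coeff]

theorem natDegree_sb (c : Fˣ) (h : F[X]) : (h.comp (C (c : F) * X)).natDegree = h.natDegree := by
  rw [natDegree_comp, natDegree_C_mul_X _ c.ne_zero, mul_one]

theorem tau_natDegree (ζ : Fˣ) (h : F[X]) : (tau ζ h).natDegree = h.natDegree := by
  rw [tau, natDegree_C_mul (pow_ne_zero _ ζ.ne_zero), natDegree_sb]

theorem tau_monic (ζ : Fˣ) (h : F[X]) (hm : h.Monic) : (tau ζ h).Monic := by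
  rw [Monic, leadingCoeff, tau_natDegree, tau_coeff, hm.coeff_natDegree, one_mul, ← mul_pow]
  simp

theorem tau_mul (ζ : Fˣ) (g h : F[X]) (hg : g.Monic) (hh : h.Monic) : tau ζ (g * h) = tau ζ g * tau ζ h := by
  rw [tau, tau, tau, hg.natDegree_mul hh, mul_comp, pow_add, C_mul]
  ring

theorem tau_one (ζ : Fˣ) : tau ζ (1 : F[X]) = 1 := by
  simp [tau]

theorem tau_pow (ζ : Fˣ) (h : F[X]) (hm : h.Monic) (d : ℕ) : tau ζ (h ^ d) = tau ζ h ^ d := by
  induction d with
  | zero => simp [tau_one]
  | succ d ih => rw [pow_succ, tau_mul _ _ _ (hm.pow d) hm, ih, pow_succ]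

theorem tau_dvd (ζ : Fˣ) (x y : F[X]) (hx : x.Monic) (hy : y.Monic) (h : y ∣ x) : tau ζ y ∣ tau ζ x := by
  obtain ⟨z, rfl⟩ := h
  have hz : z.Monic := hy.of_mul_monic_left hx
  rw [tau_mul _ _ _ hy hz]
  exact dvd_mul_right _ _

/-- the substitution as a ring automorphism. -/
noncomputable def sbE (c : Fˣ) : F[X] ≃+* F[X] where
  toFun p := p.comp (C (c : F) * X)
  invFun p := p.comp (C ((c⁻¹ : Fˣ) : F) * X)
  left_inv p := by
    ext j
    simp only [comp_C_mul_X_coeff]
    rw [mul_assoc, ← mul_pow]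
    simp
  right_inv p := by
    ext j
    simp only [comp_C_mul_X_coeff]
    rw [mul_assoc, ← mul_pow]
    simp
  map_mul' p r := mul_comp _ _ _
  map_add' p r := add_comp

theorem sbE_apply (c : Fˣ) (p : F[X]) : sbE c p = p.comp (C (c : F) * X) := rfl

theorem span_tau (ζ : Fˣ) (h : F[X]) :
    Ideal.span {tau ζ h} = (Ideal.span {h}).map (sbE ζ⁻¹ : F[X] →+* F[X]) := by
  rw [Ideal.map_span, Set.image_singleton, tau]
  refine Ideal.span_singleton_mul_left_unit ?_ _
  exact (isUnit_C.2 (pow_ne_zero _ ζ.ne_zero).isUnit)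

/-- the twist on `BM`. -/
theorem BM_twist (ζ : Fˣ) (A : List F[X]) :
    ∃ ψ : BM A ≃+ BM (A.map (tau ζ)), ∀ (r : F[X]) (m : BM A), ψ (r • m) = sbE ζ⁻¹ r • ψ m := by
  induction A with
  | nil =>
    refine ⟨AddEquiv.refl _, fun r m => ?_⟩
    exact @Subsingleton.elim (BM ([] : List F[X])) BM.instSubsingleton _ _
  | cons h A ih =>
    obtain ⟨ψ, hψ⟩ := ih
    let E : (F[X] ⧸ Ideal.span {h}) ≃+* (F[X] ⧸ Ideal.span {tau ζ h}) :=
      Ideal.quotientEquiv _ _ (sbE ζ⁻¹) (span_tau ζ h)
    have hE : ∀ (r : F[X]) (m : F[X] ⧸ Ideal.span {h}), E (r • m) = sbE ζ⁻¹ r • E m := by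
      intro r m
      obtain ⟨t, rfl⟩ := Ideal.Quotient.mk_surjective m
      change E (Ideal.Quotient.mk _ (r * t)) = Ideal.Quotient.mk _ (sbE ζ⁻¹ r * sbE ζ⁻¹ t)
      rw [← map_mul]
      exact Ideal.quotientEquiv_mk _ _ _ _ _
    refine ⟨AddEquiv.prodCongr E.toAddEquiv ψ, ?_⟩
    intro r m
    exact Prod.ext (hE r m.1) (hψ r m.2)

variable {V : Type u} [AddCommGroup V] [Module F V]

theorem Rp.twist {T : V →ₗ[F] V} {A : List F[X]} (h : Rp T (BM A)) (ζ : Fˣ) :
    Rp ((ζ : F) • T) (BM (A.map (tau ζ))) := by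
  obtain ⟨φ, h1, h2⟩ := h
  obtain ⟨ψ, hψ⟩ := BM_twist ζ A
  refine ⟨φ.trans ψ, ?_, ?_⟩
  · intro v
    change ψ (φ ((ζ : F) • T v)) = X • ψ (φ v)
    rw [h2, h1, hψ, hψ, smul_smul, sbE_apply, sbE_apply, C_comp, X_comp, ← mul_assoc, ← C_mul]
    simp
  · intro c v
    change ψ (φ (c • v)) = C c • ψ (φ v)
    rw [h2, hψ, sbE_apply, C_comp]

end tau

section stable

variable [Fintype F] {n : ℕ}

theorem map_eq_self {α : Type*} (f : α → α) (A : List α) (h : A.map f = A) : ∀ x ∈ A, f x = x := by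
  induction A with
  | nil => simp
  | cons a A ih =>
    simp only [List.map_cons, List.cons.injEq] at h
    intro x hx
    rw [List.mem_cons] at hx
    rcases hx with rfl | hx
    · exact h.1
    · exact ih h.2 x hx

omit [Fintype F] in
theorem monic_pow_inj (a b : F[X]) (ha : a.Monic) (hb : b.Monic) (d : ℕ) (hd : 1 ≤ d) (h : a ^ d = b ^ d) :
    a = b := by
  have h1 : a ∣ b := (IsIntegrallyClosed.pow_dvd_pow_iff (by omega)).1 (dvd_of_eq h)
  have h2 : b ∣ a := (IsIntegrallyClosed.pow_dvd_pow_iff (by omega)).1 (dvd_of_eq h.symm)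
  exact eq_of_monic_of_associated ha hb (associated_of_dvd_dvd h1 h2)

/-- stability of the chain under the twist. -/
theorem stable_chain (g : GL (Fin n) F) (ζ : Fˣ) (hg : IsConj g (sc n ζ * g)) {d : ℕ} (hd : 1 ≤ d)
    (L : List F[X]) (hL : ∀ t ∈ L, t.Monic) (hR : Rp (Tg g) (BM ((sfx L).map (· ^ d)))) :
    ∀ t ∈ L, tau ζ t = t := by
  obtain ⟨P, hP⟩ := (isConj_iff_T _ _).1 hg
  have hP' : ∀ x, P (Tg g x) = ((ζ : F) • Tg g) (P x) := by
    intro x
    rw [hP, Tg_sc_mul]
  have h1 : Rp (Tg g) (BM (((sfx L).map (· ^ d)).map (tau ζ))) := Rp.of_conj P hP' (hR.twist ζ)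
  obtain ⟨E⟩ := hR.toEquiv h1
  have hSm := sfx_monic L hL
  have hA := map_pow_monic (sfx L) hSm d
  have hB : ∀ h ∈ ((sfx L).map (· ^ d)).map (tau ζ), h.Monic := by
    intro h hh
    obtain ⟨t, ht, rfl⟩ := List.mem_map.1 hh
    exact tau_monic ζ t (hA t ht)
  have pA : ((sfx L).map (· ^ d)).Pairwise (fun x y => y ∣ x) := by
    rw [List.pairwise_map]
    exact (sfx_pairwise L).imp fun h => pow_dvd_pow_of_dvd h d
  have pB : (((sfx L).map (· ^ d)).map (tau ζ)).Pairwise (fun x y => y ∣ x) := by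
    refine (List.pairwise_map).2 ?_
    refine (pA.imp_of_mem ?_)
    intro a b ha hb hab
    exact tau_dvd ζ a b (hA a ha) (hA b hb) hab
  have h2 := uniq_chain _ _ hA hB pA pB (by simp) E
  have h3 := map_eq_self (tau ζ) _ h2.symm
  have h4 : ∀ h ∈ sfx L, tau ζ h = h := by
    intro h hh
    have h5 := h3 (h ^ d) (List.mem_map.2 ⟨h, hh, rfl⟩)
    rw [tau_pow _ _ (hSm h hh)] at h5
    exact monic_pow_inj _ _ (tau_monic ζ h (hSm h hh)) (hSm h hh) d hd h5
  clear h1 E h2 h3 hR hA hB pA pB
  induction L with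
  | nil => simp
  | cons t L ih =>
    have hL' : ∀ t ∈ L, t.Monic := fun s hs => hL s (by simp [hs])
    have ht : t.Monic := hL t (by simp)
    have hS' := sfx_monic L hL'
    have h6 := ih hL' hS' (fun h hh => h4 h (by simp [hh]))
    have h7 : tau ζ L.prod = L.prod := by
      cases L with
      | nil => simp [tau_one]
      | cons a L =>
        exact h4 _ (by simp)
    have h8 := h4 (t * L.prod) (by simp)
    have hP := prod_monic L hL'
    rw [tau_mul _ _ _ ht hP, h7] at h8
    intro s hs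
    rw [List.mem_cons] at hs
    rcases hs with rfl | hs
    · exact mul_right_cancel₀ hP.ne_zero h8
    · exact h6 s hs

end stable

end Cfsg.Agent.Lib.ClassNum
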