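/-
Counting data stable under a scalar twist.
-/
import Cfsg.Agent.Lib.ClassNum.Twist

set_option autoImplicit false

namespace Cfsg.Agent.Lib.ClassNum

open Polynomial Module Cfsg.Agent.Lib.MatConj.Tg Finset

universe u

variable {F : Type u} [Field F]

theorem stable_coeff (ζ : Fˣ) (g : F[X]) (h0 : g.coeff 0 ≠ 0) (h : tau ζ g = g) :
    ζ ^ g.natDegree = 1 ∧ ∀ j, g.coeff j ≠ 0 → ζ ^ j = 1 := by
  have h1 : (ζ : F) ^ g.natDegree = 1 := by
    have := congrArg (fun p => coeff p 0) h
    simp only [tau_coeff, pow_zero, mul_one] at this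
    exact mul_right_cancel₀ h0 (by rw [this, one_mul])
  refine ⟨Units.ext (by simpa using h1), ?_⟩
  intro j hj
  have h2 := congrArg (fun p => coeff p j) h
  simp only [tau_coeff, h1, one_mul] at h2
  have h3 : ((ζ⁻¹ : Fˣ) : F) ^ j = 1 := mul_left_cancel₀ hj (by rw [h2, mul_one])
  apply Units.ext
  have h4 : ((ζ⁻¹ ^ j : Fˣ) : F) = 1 := by simpa using h3
  have h5 : (ζ⁻¹ ^ j : Fˣ) = 1 := Units.ext (by simpa using h4)
  rw [inv_pow, inv_eq_one] at h5
  rw [h5]

section finite

variable [Fintype F]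

theorem expand_contract_stable (ζ : Fˣ) (g : F[X]) (h0 : g.coeff 0 ≠ 0) (h : tau ζ g = g) :
    expand F (orderOf ζ) (contract (orderOf ζ) g) = g := by
  have he : 0 < orderOf ζ := orderOf_pos ζ
  obtain ⟨-, h2⟩ := stable_coeff ζ g h0 h
  ext j
  rw [coeff_expand he]
  split_ifs with hj
  · rw [coeff_contract he.ne', Nat.div_mul_cancel hj]
  · by_contra hc
    exact hj (orderOf_dvd_of_pow_eq_one (h2 j (Ne.symm hc)))

theorem wt_contract (ζ : Fˣ) (L : List F[X]) (hL : ∀ g ∈ L, expand F (orderOf ζ) (contract (orderOf ζ) g) = g) (k : ℕ) :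
    wt k L = orderOf ζ * wt k (L.map (contract (orderOf ζ))) := by
  induction L generalizing k with
  | nil => simp [wt]
  | cons g L ih =>
    have h1 : g.natDegree = (contract (orderOf ζ) g).natDegree * orderOf ζ := by
      conv_lhs => rw [← hL g (by simp)]
      rw [natDegree_expand]
    simp only [List.map_cons, wt]
    rw [ih (fun t ht => hL t (by simp [ht])) (k + 1), h1]
    ring

open _root_.Classical in
/-- the count of stable data. -/
theorem card_stable (ζ : Fˣ) (s n : ℕ) :
    ((Dat (F := F) 1 s n).filter fun L => ∀ g ∈ L, tau ζ g = g).card ≤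
      if orderOf ζ ∣ n then CC (Fintype.card F) 1 s (n / orderOf ζ) else 0 := by
  have he : 0 < orderOf ζ := orderOf_pos ζ
  have hexp : ∀ L ∈ (Dat (F := F) 1 s n).filter (fun L => ∀ g ∈ L, tau ζ g = g),
      ∀ g ∈ L, expand F (orderOf ζ) (contract (orderOf ζ) g) = g := by
    intro L hL g hg
    rw [mem_filter, mem_Dat _ _ _ le_rfl] at hL
    exact expand_contract_stable ζ g (hL.1.2.2 g hg).2 (hL.2 g hg)
  split_ifs with hdvd
  · refine le_trans ?_ (card_Dat_le 1 s (n / orderOf ζ))
    refine Finset.card_le_card_of_injOn (fun L => L.map (contract (orderOf ζ))) ?_ ?_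
    · intro L hL
      have hL2 := hexp L (mem_coe.1 hL)
      have hL' := mem_coe.1 hL
      rw [mem_filter, mem_Dat _ _ _ le_rfl] at hL'
      obtain ⟨⟨h1, h2, h3⟩, h4⟩ := hL'
      rw [mem_coe, mem_Dat _ _ _ le_rfl]
      refine ⟨by simpa using h1, ?_, ?_⟩
      · rw [← h2, wt_contract ζ L hL2 1, Nat.mul_div_cancel_left _ he]
      · intro t ht
        obtain ⟨g, hg, rfl⟩ := List.mem_map.1 ht
        refine ⟨?_, ?_⟩
        · rw [← monic_expand_iff he, hL2 g hg]
          exact (h3 g hg).1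
        · rw [coeff_contract he.ne', zero_mul]
          exact (h3 g hg).2
    · intro L hL L' hL' hLL
      have h1 := hexp L (mem_coe.1 hL)
      have h2 := hexp L' (mem_coe.1 hL')
      have h3 : (L.map (contract (orderOf ζ))).map (expand F (orderOf ζ)) = L := by
        rw [List.map_map]
        conv_rhs => rw [← List.map_id L]
        apply List.map_congr_left
        intro g hg
        exact h1 g hg
      have h4 : (L'.map (contract (orderOf ζ))).map (expand F (orderOf ζ)) = L' := by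
        rw [List.map_map]
        conv_rhs => rw [← List.map_id L']
        apply List.map_congr_left
        intro g hg
        exact h2 g hg
      have h5 : L.map (contract (orderOf ζ)) = L'.map (contract (orderOf ζ)) := hLL
      rw [← h3, ← h4, h5]
  · simp only [Nat.le_zero, card_eq_zero, filter_eq_empty_iff]
    intro L hL hst
    apply hdvd
    have h1 := hexp L (mem_filter.2 ⟨hL, hst⟩)
    rw [mem_Dat _ _ _ le_rfl] at hL
    rw [← hL.2.1, wt_contract ζ L h1 1]
    exact dvd_mul_right _ _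

variable {n : ℕ}

open _root_.Classical in
/-- the classes stable under a scalar. -/
noncomputable def Pst (n : ℕ) (F : Type u) [Field F] [Fintype F] (ζ : Fˣ) : Finset (ConjClasses (GL (Fin n) F)) :=
  (allC n F).filter fun C : ConjClasses (GL (Fin n) F) => IsConj (Quotient.out C) (sc n ζ * Quotient.out C)

theorem mem_Pst (ζ : Fˣ) (C : ConjClasses (GL (Fin n) F)) :
    C ∈ Pst n F ζ ↔ IsConj (Quotient.out C) (sc n ζ * Quotient.out C) := by
  classical
  rw [Pst, mem_filter]
  simp [mem_allC]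

open _root_.Classical in
/-- the data of stable classes -/
theorem Nd_stable_X (ζ : Fˣ) {d : ℕ} (hd : 1 ≤ d) :
    Nd (Pst n F ζ) d ≤ ((Dat (F := F) 1 (n / d) (n / d)).filter fun L =>
      (∀ g ∈ L, tau ζ g = g) ∧ dt 1 L ^ d = 1).card := by
  refine Nd_le_X _ hd _ ?_
  intro C hC _ L hL hR hdet
  refine mem_filter.2 ⟨hL, ?_, hdet⟩
  rw [mem_Dat _ _ _ le_rfl] at hL
  exact stable_chain _ ζ ((mem_Pst ζ C).1 hC) hd L (fun t ht => (hL.2.2 t ht).1) hR

/-- the bound for `Nd` on stable classes. -/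
theorem Nd_stable (ζ : Fˣ) {d : ℕ} (hd : 1 ≤ d) :
    Nd (Pst n F ζ) d ≤ if orderOf ζ ∣ n / d then CC (Fintype.card F) 1 (n / d) (n / d / orderOf ζ) else 0 := by
  classical
  refine le_trans (Nd_stable_X ζ hd) (le_trans (card_le_card ?_) (card_stable ζ (n / d) (n / d)))
  intro L hL
  rw [mem_filter] at hL ⊢
  exact ⟨hL.1, hL.2.1⟩

/-- non vanishing and size -/
theorem Nd_stable_le (ζ : Fˣ) {d : ℕ} (hd : 1 ≤ d) (hne : Nd (Pst n F ζ) d ≠ 0) :
    d ∣ n ∧ orderOf ζ ∣ n / d ∧ Nd (Pst n F ζ) d ≤ Fintype.card F ^ (n / d / orderOf ζ) := by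
  have hq : 2 ≤ Fintype.card F := Fintype.one_lt_card
  have h1 : d ∣ n := by
    by_contra h
    exact hne (Nd_zero _ hd h)
  have h2 := Nd_stable (n := n) ζ hd
  by_cases h3 : orderOf ζ ∣ n / d
  · rw [if_pos h3] at h2
    exact ⟨h1, h3, le_trans h2 (CC_one_le _ _ _ hq (Nat.div_le_self _ _))⟩
  · rw [if_neg h3] at h2
    exact absurd (Nat.le_zero.1 h2) hne

end finite

end Cfsg.Agent.Lib.ClassNum
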