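/-
The class number of `PSL_n(F)`.
-/
import Cfsg.Agent.Lib.ClassNum.Stable
import Cfsg.Agent.Lib.ClassNum.CenterAct

set_option autoImplicit false

namespace Cfsg.Agent.Lib.ClassNum

open Polynomial Module Cfsg.Agent.Lib.MatConj.Tg Finset

universe u

variable {F : Type u} [Field F] [Fintype F] {n : ℕ}

/-- central elements are scalars -/
theorem exists_zu (hn : 1 ≤ n) (z : Subgroup.center (Matrix.SpecialLinearGroup (Fin n) F)) :
    ∃ ζ : Fˣ, ζ ^ n = 1 ∧ toG (z : Matrix.SpecialLinearGroup (Fin n) F) = sc n ζ := by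
  obtain ⟨r, hr, hz⟩ := Matrix.SpecialLinearGroup.mem_center_iff.1 z.2
  rw [Fintype.card_fin] at hr
  have hr0 : r ≠ 0 := by
    rintro rfl
    rw [zero_pow (by omega)] at hr
    exact zero_ne_one hr
  refine ⟨Units.mk0 r hr0, Units.ext (by simpa using hr), ?_⟩
  apply Units.ext
  rw [toG_coe, ← hz]
  simp [sc]

/-- every scalar with `ζ^n = 1` is central -/
theorem exists_center (ζ : Fˣ) (h : ζ ^ n = 1) :
    ∃ z : Subgroup.center (Matrix.SpecialLinearGroup (Fin n) F),
      toG (z : Matrix.SpecialLinearGroup (Fin n) F) = sc n ζ := by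
  have hdet : Matrix.GeneralLinearGroup.det (sc n ζ) = 1 := by
    apply Units.ext
    have h1 : ((ζ ^ n : Fˣ) : F) = 1 := by rw [h]; rfl
    rw [Matrix.GeneralLinearGroup.val_det_apply, sc, Matrix.GeneralLinearGroup.coe_scalar, Matrix.scalar_apply,
      Matrix.det_diagonal]
    simpa using h1
  obtain ⟨s, hs⟩ := exists_toG _ hdet
  have hmem : s ∈ Subgroup.center (Matrix.SpecialLinearGroup (Fin n) F) := by
    refine Matrix.SpecialLinearGroup.mem_center_iff.2 ⟨(ζ : F), ?_, ?_⟩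
    · rw [Fintype.card_fin]
      have h1 : ((ζ ^ n : Fˣ) : F) = 1 := by rw [h]; rfl
      simpa using h1
    · rw [← toG_coe, hs]
      simp [sc]
  exact ⟨⟨s, hmem⟩, hs⟩

/-- the order of the centre -/
theorem card_center (hn : 1 ≤ n) :
    Nat.card (Subgroup.center (Matrix.SpecialLinearGroup (Fin n) F)) = Nat.gcd n (Fintype.card F - 1) := by
  have h1 : Nat.card (powMonoidHom n : Fˣ →* Fˣ).ker = Nat.gcd (Nat.card Fˣ) n :=
    IsCyclic.card_powMonoidHom_ker Fˣ n
  have h2 : Nat.card Fˣ = Fintype.card F - 1 := by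
    classical
    rw [Nat.card_eq_fintype_card, Fintype.card_units]
  rw [h2, Nat.gcd_comm] at h1
  rw [← h1]
  choose u hu1 hu2 using exists_zu (F := F) hn
  refine Nat.card_congr (Equiv.ofBijective (fun z => (⟨u z, by
    rw [MonoidHom.mem_ker, powMonoidHom_apply]
    exact hu1 z⟩ : (powMonoidHom n : Fˣ →* Fˣ).ker)) ⟨?_, ?_⟩)
  · intro z z' h
    have h3 : u z = u z' := congrArg Subtype.val h
    apply Subtype.ext
    apply toG_injective
    rw [hu2, hu2, h3]
  · rintro ⟨ζ, hζ⟩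
    rw [MonoidHom.mem_ker, powMonoidHom_apply] at hζ
    obtain ⟨z, hz⟩ := exists_center (n := n) ζ hζ
    refine ⟨z, Subtype.ext ?_⟩
    change u z = ζ
    have h3 := hu2 z
    rw [hz] at h3
    exact sc_injective (by omega) h3.symm

/-- elements fixed by a central element. -/
theorem fixed_mem_Pst (z : Subgroup.center (Matrix.SpecialLinearGroup (Fin n) F)) (ζ : Fˣ)
    (hz : toG (z : Matrix.SpecialLinearGroup (Fin n) F) = sc n ζ)
    (x : ConjClasses (Matrix.SpecialLinearGroup (Fin n) F)) (hx : mulc z x = x) : up x ∈ Pst n F ζ := by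
  obtain ⟨s, rfl⟩ := ConjClasses.mk_surjective x
  rw [mulc_mk, ConjClasses.mk_eq_mk_iff_isConj] at hx
  rw [mem_Pst, up_mk]
  have h1 : ConjClasses.mk (Quotient.out (ConjClasses.mk (toG s))) = ConjClasses.mk (toG s) := Quotient.out_eq _
  rw [ConjClasses.mk_eq_mk_iff_isConj] at h1
  set a := Quotient.out (ConjClasses.mk (toG s)) with ha
  have h2 : IsConj (sc n ζ * toG s) (toG s) := by
    have := MonoidHom.map_isConj toG hx
    rwa [map_mul, hz] at this
  have h3 : IsConj (sc n ζ * a) (sc n ζ * toG s) := by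
    obtain ⟨c, hc⟩ := isConj_iff.1 h1
    refine isConj_iff.2 ⟨c, ?_⟩
    rw [← hc]
    have h4 : c * (sc n ζ * a) * c⁻¹ = (c * sc n ζ) * a * c⁻¹ := by group
    rw [h4, ← sc_comm]
    group
  exact h1.trans (h2.symm.trans h3.symm)

open _root_.Classical in
/-- the non-trivial scalars in the centre. -/
noncomputable def Sn (n : ℕ) (F : Type u) [Field F] [Fintype F] : Finset Fˣ :=
  Finset.univ.filter fun ζ : Fˣ => ζ ≠ 1 ∧ ζ ^ n = 1

theorem mem_Sn {ζ : Fˣ} : ζ ∈ Sn n F ↔ ζ ≠ 1 ∧ ζ ^ n = 1 := by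
  classical
  simp [Sn]

/-- the bound for the fixed points of a scalar -/
noncomputable def Bz (n : ℕ) (F : Type u) [Field F] [Fintype F] (ζ : Fˣ) : ℕ :=
  ∑ d ∈ Nat.divisors (Fintype.card F - 1), Nat.totient d * Nd (Pst n F ζ) d

/-- fundamental inequalities for the central quotient. -/
theorem PSL_bounds (hn : 1 ≤ n) :
    Nat.card (ConjClasses (Matrix.SpecialLinearGroup (Fin n) F)) ≤
      Nat.gcd n (Fintype.card F - 1) * Nat.card (ConjClasses (Matrix.ProjectiveSpecialLinearGroup (Fin n) F)) ∧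
    Nat.gcd n (Fintype.card F - 1) * Nat.card (ConjClasses (Matrix.ProjectiveSpecialLinearGroup (Fin n) F)) ≤
      Nat.card (ConjClasses (Matrix.SpecialLinearGroup (Fin n) F)) + ∑ ζ ∈ Sn n F, Bz n F ζ := by
  classical
  haveI : Fintype (Subgroup.center (Matrix.SpecialLinearGroup (Fin n) F)) := Fintype.ofFinite _
  have hB := burnside_center (G := Matrix.SpecialLinearGroup (Fin n) F)
  rw [← Nat.card_eq_fintype_card, card_center hn, mul_comm] at hB
  change _ = Nat.gcd n (Fintype.card F - 1) * Nat.card (ConjClasses (Matrix.ProjectiveSpecialLinearGroup (Fin n) F)) at hB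
  rw [← hB, ← Finset.add_sum_erase _ _ (Finset.mem_univ (1 : Subgroup.center (Matrix.SpecialLinearGroup (Fin n) F)))]
  have h1 : Nat.card {x : ConjClasses (Matrix.SpecialLinearGroup (Fin n) F) // mulc 1 x = x} =
      Nat.card (ConjClasses (Matrix.SpecialLinearGroup (Fin n) F)) := by
    refine Nat.card_congr (Equiv.subtypeUnivEquiv fun x => ?_)
    obtain ⟨s, rfl⟩ := ConjClasses.mk_surjective x
    rw [mulc_mk]
    simp
  rw [h1]
  refine ⟨Nat.le_add_right _ _, Nat.add_le_add_left ?_ _⟩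
  choose u hu1 hu2 using exists_zu (F := F) hn
  have hinj : Function.Injective u := by
    intro z z' h
    apply Subtype.ext
    apply toG_injective
    rw [hu2, hu2, h]
  have h2 : ∀ z : Subgroup.center (Matrix.SpecialLinearGroup (Fin n) F),
      Nat.card {x : ConjClasses (Matrix.SpecialLinearGroup (Fin n) F) // mulc z x = x} ≤ Bz n F (u z) := by
    intro z
    have h3 : Nat.card {x : ConjClasses (Matrix.SpecialLinearGroup (Fin n) F) // mulc z x = x} ≤
        Nat.card {x : ConjClasses (Matrix.SpecialLinearGroup (Fin n) F) // up x ∈ Pst n F (u z)} :=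
      Nat.card_le_card_of_injective (fun x => ⟨x.1, fixed_mem_Pst z (u z) (hu2 z) x.1 x.2⟩) (by
        intro x y hxy
        have h5 := congrArg Subtype.val hxy
        exact Subtype.ext h5)
    refine le_trans h3 (le_trans (card_up_le _) (le_of_eq ?_))
    rw [Bz]
    refine Finset.sum_congr rfl fun d _ => ?_
    congr 1
  refine le_trans (Finset.sum_le_sum fun z _ => h2 z) ?_
  have h4 : ∑ z ∈ Finset.univ.erase (1 : Subgroup.center (Matrix.SpecialLinearGroup (Fin n) F)), Bz n F (u z)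
      = ∑ ζ ∈ (Finset.univ.erase (1 : Subgroup.center (Matrix.SpecialLinearGroup (Fin n) F))).image u, Bz n F ζ := by
    rw [Finset.sum_image]
    intro a _ b _ hab
    exact hinj hab
  rw [h4]
  refine Finset.sum_le_sum_of_subset ?_
  intro ζ hζ
  obtain ⟨z, hz, rfl⟩ := Finset.mem_image.1 hζ
  rw [mem_Sn]
  refine ⟨?_, hu1 z⟩
  intro h1z
  apply (Finset.mem_erase.1 hz).1
  apply Subtype.ext
  apply toG_injective
  rw [hu2, h1z]
  simp [sc]

/-- the sum of totient weighted powers. -/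
def WW (q t : ℕ) : ℕ := ∑ d ∈ Nat.divisors t, Nat.totient d * q ^ (t / d)

theorem WW_one (q : ℕ) : WW q 1 = q := by
  simp [WW]

theorem WW_two (q : ℕ) : WW q 2 = q ^ 2 + q := by
  have : Nat.divisors 2 = {1, 2} := by decide
  simp [WW, this]

theorem WW_three (q : ℕ) : WW q 3 = q ^ 3 + 2 * q := by
  have : Nat.divisors 3 = {1, 3} := by decide
  have h6 : Nat.totient 3 = 2 := by decide
  simp [WW, this, h6]

theorem order_facts {ζ : Fˣ} (h : ζ ∈ Sn n F) : orderOf ζ ∣ n ∧ 2 ≤ orderOf ζ := by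
  rw [mem_Sn] at h
  refine ⟨orderOf_dvd_of_pow_eq_one h.2, ?_⟩
  have h1 : 0 < orderOf ζ := orderOf_pos ζ
  have h2 : orderOf ζ ≠ 1 := fun h3 => h.1 (orderOf_eq_one_iff.1 h3)
  omega

theorem Bz_le_WW {ζ : Fˣ} (h : ζ ∈ Sn n F) (hn : 1 ≤ n) : Bz n F ζ ≤ WW (Fintype.card F) (n / orderOf ζ) := by
  obtain ⟨h1, h2⟩ := order_facts h
  have hne : n / orderOf ζ ≠ 0 := by
    have := Nat.div_pos (Nat.le_of_dvd (by omega) h1) (by omega : 0 < orderOf ζ)
    omega
  have hQ := Q_ne F
  rw [Bz, WW]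
  have hnz : ∀ d ∈ Nat.divisors (Fintype.card F - 1), Nat.totient d * Nd (Pst n F ζ) d ≠ 0 →
      d ∈ Nat.divisors (n / orderOf ζ) := by
    intro d hd hne2
    have hd0 : 1 ≤ d := Nat.pos_of_mem_divisors hd
    obtain ⟨h3, h4, -⟩ := Nd_stable_le ζ hd0 (right_ne_zero_of_mul hne2)
    rw [Nat.mem_divisors]
    refine ⟨?_, hne⟩
    obtain ⟨k, hk⟩ := h3
    obtain ⟨l, hl⟩ := h4
    rw [hk, Nat.mul_div_cancel_left _ (by omega)] at hl
    refine ⟨l, ?_⟩
    rw [hk, hl]
    have : d * (orderOf ζ * l) = orderOf ζ * (d * l) := by ring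
    rw [this, Nat.mul_div_cancel_left _ (by omega)]
  refine le_trans (Finset.sum_le_sum_of_ne_zero hnz) ?_
  refine Finset.sum_le_sum ?_
  intro d hd
  refine Nat.mul_le_mul_left _ ?_
  by_cases hN : Nd (Pst n F ζ) d = 0
  · rw [hN]
    exact Nat.zero_le _
  · have hd0 : 1 ≤ d := Nat.pos_of_mem_divisors hd
    obtain ⟨-, -, h5⟩ := Nd_stable_le ζ hd0 hN
    rwa [Nat.div_div_eq_div_mul, mul_comm, ← Nat.div_div_eq_div_mul] at h5

theorem Bz_le_half {ζ : Fˣ} (h : ζ ∈ Sn n F) : Bz n F ζ ≤ (Fintype.card F - 1) * Fintype.card F ^ (n / 2) := by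
  obtain ⟨h1, h2⟩ := order_facts h
  have hq : 2 ≤ Fintype.card F := Fintype.one_lt_card
  rw [Bz]
  have h3 : ∀ d ∈ Nat.divisors (Fintype.card F - 1), Nat.totient d * Nd (Pst n F ζ) d ≤
      Nat.totient d * Fintype.card F ^ (n / 2) := by
    intro d hd
    refine Nat.mul_le_mul_left _ ?_
    by_cases hN : Nd (Pst n F ζ) d = 0
    · rw [hN]
      exact Nat.zero_le _
    · have hd0 : 1 ≤ d := Nat.pos_of_mem_divisors hd
      obtain ⟨-, -, h5⟩ := Nd_stable_le ζ hd0 hN
      refine le_trans h5 (Nat.pow_le_pow_right (by omega) ?_)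
      calc n / d / orderOf ζ ≤ n / orderOf ζ := Nat.div_le_div_right (Nat.div_le_self _ _)
        _ ≤ n / 2 := Nat.div_le_div_left h2 (by omega)
  refine le_trans (Finset.sum_le_sum h3) ?_
  rw [← Finset.sum_mul, Nat.sum_totient]

theorem card_Sn_le_Q : (Sn n F).card ≤ Fintype.card F - 2 := by
  classical
  have h1 : Sn n F ⊆ Finset.univ.erase (1 : Fˣ) := by
    intro ζ hζ
    rw [mem_Sn] at hζ
    exact Finset.mem_erase.2 ⟨hζ.1, Finset.mem_univ _⟩
  refine le_trans (Finset.card_le_card h1) ?_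
  rw [Finset.card_erase_of_mem (Finset.mem_univ _), Finset.card_univ, Fintype.card_units]
  omega

theorem card_Sn_le_n (hn : 1 ≤ n) : (Sn n F).card ≤ n - 1 := by
  classical
  have h1 : Sn n F ⊆ (Finset.univ.filter fun a : Fˣ => a ^ n = 1).erase 1 := by
    intro ζ hζ
    rw [mem_Sn] at hζ
    exact Finset.mem_erase.2 ⟨hζ.1, Finset.mem_filter.2 ⟨Finset.mem_univ _, hζ.2⟩⟩
  refine le_trans (Finset.card_le_card h1) ?_
  have hmem : (1 : Fˣ) ∈ Finset.univ.filter fun a : Fˣ => a ^ n = 1 :=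
    Finset.mem_filter.2 ⟨Finset.mem_univ _, one_pow _⟩
  rw [Finset.card_erase_of_mem hmem]
  have := IsCyclic.card_pow_eq_one_le (α := Fˣ) (n := n) (by omega)
  omega

/-- the total bound, `n ≥ 7`. -/
theorem R_large (hn : 7 ≤ n) : ∑ ζ ∈ Sn n F, Bz n F ζ ≤ Fintype.card F ^ (n - 2) := by
  have hq : 2 ≤ Fintype.card F := Fintype.one_lt_card
  refine le_trans (Finset.sum_le_card_nsmul _ _ ((Fintype.card F - 1) * Fintype.card F ^ (n / 2))
    fun ζ hζ => Bz_le_half hζ) ?_
  rw [smul_eq_mul]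
  have h1 := card_Sn_le_Q (n := n) (F := F)
  have h2 : (Sn n F).card * ((Fintype.card F - 1) * Fintype.card F ^ (n / 2)) ≤
      Fintype.card F * (Fintype.card F * Fintype.card F ^ (n / 2)) :=
    Nat.mul_le_mul (by omega) (Nat.mul_le_mul_right _ (by omega))
  refine le_trans h2 ?_
  rw [← pow_succ', ← pow_succ']
  exact Nat.pow_le_pow_right (by omega) (by omega)

theorem R_three : ∑ ζ ∈ Sn 3 F, Bz 3 F ζ ≤ 2 * Fintype.card F := by
  refine le_trans (Finset.sum_le_card_nsmul _ _ (Fintype.card F) ?_) ?_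
  · intro ζ hζ
    obtain ⟨h1, h2⟩ := order_facts hζ
    have h3 : orderOf ζ = 3 := by
      rcases (Nat.dvd_prime Nat.prime_three).1 h1 with h | h <;> omega
    have h4 := Bz_le_WW hζ (by omega)
    rwa [h3, Nat.div_self (by omega), WW_one] at h4
  · rw [smul_eq_mul]
    exact Nat.mul_le_mul_right _ (card_Sn_le_n (by omega))

theorem R_five : ∑ ζ ∈ Sn 5 F, Bz 5 F ζ ≤ 4 * Fintype.card F := by
  refine le_trans (Finset.sum_le_card_nsmul _ _ (Fintype.card F) ?_) ?_
  · intro ζ hζ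
    obtain ⟨h1, h2⟩ := order_facts hζ
    have h3 : orderOf ζ = 5 := by
      rcases (Nat.dvd_prime (by norm_num : Nat.Prime 5)).1 h1 with h | h <;> omega
    have h4 := Bz_le_WW hζ (by omega)
    rwa [h3, Nat.div_self (by omega), WW_one] at h4
  · rw [smul_eq_mul]
    exact Nat.mul_le_mul_right _ (card_Sn_le_n (by omega))

theorem R_six : ∑ ζ ∈ Sn 6 F, Bz 6 F ζ ≤ 2 * Fintype.card F ^ 4 := by
  have hq : 2 ≤ Fintype.card F := Fintype.one_lt_card
  have h0 : ∀ ζ ∈ Sn 6 F, Bz 6 F ζ ≤ Fintype.card F ^ 3 + 2 * Fintype.card F := by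
    intro ζ hζ
    obtain ⟨h1, h2⟩ := order_facts hζ
    have h4 := Bz_le_WW hζ (by omega)
    have h5 : orderOf ζ ≤ 6 := Nat.le_of_dvd (by omega) h1
    generalize orderOf ζ = e at *
    interval_cases e
    · simpa [WW_three] using h4
    · have := WW_two (Fintype.card F)
      simp only [Nat.reduceDiv] at h4
      rw [this] at h4
      nlinarith
    · omega
    · omega
    · have := WW_one (Fintype.card F)
      simp only [Nat.reduceDiv] at h4
      rw [this] at h4
      nlinarith [Nat.zero_le (Fintype.card F ^ 3)]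
  refine le_trans (Finset.sum_le_card_nsmul _ _ _ h0) ?_
  rw [smul_eq_mul]
  have h1 := card_Sn_le_Q (n := 6) (F := F)
  have h2 := card_Sn_le_n (n := 6) (F := F) (by omega)
  set q := Fintype.card F
  rcases (by omega : q = 2 ∨ q = 3 ∨ 4 ≤ q) with h | h | h
  · have : (Sn 6 F).card = 0 := by omega
    rw [this]
    simp
  · have : (Sn 6 F).card ≤ 1 := by omega
    rw [h]
    nlinarith
  · have h3 : (Sn 6 F).card * (q ^ 3 + 2 * q) ≤ 5 * (q ^ 3 + 2 * q) := Nat.mul_le_mul_right _ (by omega)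
    refine le_trans h3 ?_
    have h4 : 4 * q ^ 3 ≤ q ^ 4 := by
      rw [pow_succ q 3, mul_comm]
      exact Nat.mul_le_mul_left _ h
    have h5 : 4 * q ≤ q ^ 2 := by
      rw [pow_two]
      exact Nat.mul_le_mul_right _ h
    have h6 : 4 * q ^ 2 ≤ q ^ 3 := by
      rw [pow_succ q 2, mul_comm]
      exact Nat.mul_le_mul_left _ h
    nlinarith

theorem R_four : ∑ ζ ∈ Sn 4 F, Bz 4 F ζ ≤ Fintype.card F ^ 2 + 3 * Fintype.card F := by
  classical
  have hq : 2 ≤ Fintype.card F := Fintype.one_lt_card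
  set S1 := (Sn 4 F).filter fun ζ => ζ ^ 2 = 1 with hS1
  set S2 := (Sn 4 F).filter fun ζ => ¬ ζ ^ 2 = 1 with hS2
  rw [← Finset.sum_filter_add_sum_filter_not (Sn 4 F) (fun ζ => ζ ^ 2 = 1)]
  have h1 : ∑ ζ ∈ S1, Bz 4 F ζ ≤ S1.card • (Fintype.card F ^ 2 + Fintype.card F) := by
    refine Finset.sum_le_card_nsmul _ _ _ ?_
    intro ζ hζ
    rw [hS1, Finset.mem_filter] at hζ
    obtain ⟨h2, h3⟩ := order_facts hζ.1
    have h4 : orderOf ζ ∣ 2 := orderOf_dvd_of_pow_eq_one hζ.2
    have h5 : orderOf ζ = 2 := by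
      rcases (Nat.dvd_prime Nat.prime_two).1 h4 with h | h <;> omega
    have h6 := Bz_le_WW hζ.1 (by omega)
    rwa [h5, show 4 / 2 = 2 from rfl, WW_two] at h6
  have h2 : ∑ ζ ∈ S2, Bz 4 F ζ ≤ S2.card • (Fintype.card F) := by
    refine Finset.sum_le_card_nsmul _ _ _ ?_
    intro ζ hζ
    rw [hS2, Finset.mem_filter] at hζ
    obtain ⟨h2, h3⟩ := order_facts hζ.1
    have h5 : orderOf ζ = 4 := by
      have h6 : orderOf ζ ≤ 4 := Nat.le_of_dvd (by omega) h2
      have h7 : orderOf ζ ≠ 2 := by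
        intro h8
        apply hζ.2
        rw [← h8]
        exact pow_orderOf_eq_one ζ
      have h9 : orderOf ζ ≠ 3 := by
        intro h8
        rw [h8] at h2
        omega
      omega
    have h6 := Bz_le_WW hζ.1 (by omega)
    rwa [h5, show 4 / 4 = 1 from rfl, WW_one] at h6
  have h3 : S1.card ≤ 1 := by
    have h4 : S1 ⊆ (Finset.univ.filter fun a : Fˣ => a ^ 2 = 1).erase 1 := by
      intro ζ hζ
      rw [hS1, Finset.mem_filter, mem_Sn] at hζ
      exact Finset.mem_erase.2 ⟨hζ.1.1, Finset.mem_filter.2 ⟨Finset.mem_univ _, hζ.2⟩⟩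
    refine le_trans (Finset.card_le_card h4) ?_
    have hmem : (1 : Fˣ) ∈ Finset.univ.filter fun a : Fˣ => a ^ 2 = 1 :=
      Finset.mem_filter.2 ⟨Finset.mem_univ _, one_pow _⟩
    rw [Finset.card_erase_of_mem hmem]
    have := IsCyclic.card_pow_eq_one_le (α := Fˣ) (n := 2) (by omega)
    omega
  have h4 : S2.card ≤ 2 := by
    have h5 : S2.image (fun a : Fˣ => (a : F)) ⊆ (nthRoots 2 (-1 : F)).toFinset := by
      intro y hy
      obtain ⟨ζ, hζ, rfl⟩ := Finset.mem_image.1 hy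
      rw [hS2, Finset.mem_filter, mem_Sn] at hζ
      rw [Multiset.mem_toFinset, mem_nthRoots (by omega)]
      have h6 : ((ζ ^ 2 : Fˣ) : F) ^ 2 = 1 := by
        rw [← Units.val_pow_eq_pow_val, ← pow_mul]
        have := hζ.1.2
        rw [show 2 * 2 = 4 from rfl, this]
        rfl
      have h7 : ((ζ ^ 2 : Fˣ) : F) = 1 ∨ ((ζ ^ 2 : Fˣ) : F) = -1 :=
        eq_or_eq_neg_of_sq_eq_sq _ 1 (by rw [h6, one_pow])
      rcases h7 with h7 | h7
      · exact absurd (Units.ext (by simpa using h7)) hζ.2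
      · simpa using h7
    have h6 := Finset.card_le_card h5
    rw [Finset.card_image_of_injective _ (fun a b h => Units.ext h)] at h6
    exact le_trans h6 (le_trans (Multiset.toFinset_card_le _) (card_nthRoots 2 (-1)))
  rw [← hS1, ← hS2]
  rw [smul_eq_mul] at h1 h2
  have h5 : S1.card * (Fintype.card F ^ 2 + Fintype.card F) ≤ 1 * (Fintype.card F ^ 2 + Fintype.card F) :=
    Nat.mul_le_mul_right _ h3
  have h6 : S2.card * Fintype.card F ≤ 2 * Fintype.card F := Nat.mul_le_mul_right _ h4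
  nlinarith

/-- the normal form for `n = 2` -/
theorem nf_two (ζ : Fˣ) (he : orderOf ζ = 2) (L : List F[X]) (hL : L ∈ Dat (F := F) 1 2 2)
    (hst : ∀ g ∈ L, tau ζ g = g) (hdt : dt 1 L ^ 1 = 1) : L = [X ^ 2 + 1, 1] := by
  rw [mem_Dat _ _ _ le_rfl] at hL
  obtain ⟨h1, h2, h3⟩ := hL
  obtain ⟨g1, g2, rfl⟩ : ∃ g1 g2, L = [g1, g2] := List.length_eq_two.1 h1
  have h11 := h3 g1 (by simp)
  have h12 := h3 g2 (by simp)
  obtain ⟨h4, h5⟩ := stable_coeff ζ g1 h11.2 (hst g1 (by simp))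
  obtain ⟨h6, -⟩ := stable_coeff ζ g2 h12.2 (hst g2 (by simp))
  have h7 : 2 ∣ g1.natDegree := he ▸ orderOf_dvd_of_pow_eq_one h4
  have h8 : 2 ∣ g2.natDegree := he ▸ orderOf_dvd_of_pow_eq_one h6
  simp only [wt] at h2
  have h9 : g2.natDegree = 0 := by omega
  have h10 : g1.natDegree = 2 := by omega
  have hg2 : g2 = 1 := eq_one_of_monic_natDegree_zero h12.1 h9
  subst hg2
  have hc0 : g1.coeff 0 = 1 := by
    have h13 := hdt
    simp only [dt, pow_one, nu_one, one_pow, mul_one] at h13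
    rw [nu, h10] at h13
    simpa using h13
  have hc1 : g1.coeff 1 = 0 := by
    by_contra hc
    have h13 := h5 1 hc
    rw [pow_one] at h13
    rw [h13, orderOf_one] at he
    omega
  have hc2 : g1.coeff 2 = 1 := by
    have := h11.1.coeff_natDegree
    rwa [h10] at this
  have hg1 : g1 = X ^ 2 + 1 := by
    ext j
    rcases j with _ | _ | _ | j
    · simp [hc0]
    · simp [hc1, coeff_one, coeff_X_pow]
    · simp [hc2, coeff_one, coeff_X_pow]
    · rw [coeff_eq_zero_of_natDegree_lt (by omega)]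
      simp [coeff_one, coeff_X_pow]
  rw [hg1]

theorem Bz_two {ζ : Fˣ} (h : ζ ∈ Sn 2 F) : Bz 2 F ζ ≤ 1 := by
  classical
  obtain ⟨h1, h2⟩ := order_facts h
  have he : orderOf ζ = 2 := by
    have := Nat.le_of_dvd (by omega) h1
    omega
  have hQ := Q_ne F
  rw [Bz, Finset.sum_eq_single 1]
  · rw [Nat.totient_one, one_mul]
    refine le_trans (Nd_stable_X ζ le_rfl) ?_
    rw [Finset.card_le_one]
    intro a ha b hb
    simp only [Nat.div_one, Finset.mem_filter] at ha hb
    rw [nf_two ζ he a ha.1 ha.2.1 ha.2.2, nf_two ζ he b hb.1 hb.2.1 hb.2.2]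
  · intro d hd hd1
    have hd0 : 1 ≤ d := Nat.pos_of_mem_divisors hd
    by_cases hN : Nd (Pst 2 F ζ) d = 0
    · rw [hN, mul_zero]
    · obtain ⟨h3, h4, -⟩ := Nd_stable_le ζ hd0 hN
      exfalso
      rcases (Nat.dvd_prime Nat.prime_two).1 h3 with h5 | h5
      · exact hd1 h5
      · rw [h5, he] at h4
        omega
  · intro h3
    exact absurd (Nat.mem_divisors.2 ⟨one_dvd _, hQ⟩) h3

theorem R_two : ∑ ζ ∈ Sn 2 F, Bz 2 F ζ ≤ 1 := by
  refine le_trans (Finset.sum_le_card_nsmul _ _ 1 fun ζ hζ => Bz_two hζ) ?_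
  rw [smul_eq_mul, mul_one]
  exact card_Sn_le_n (by omega)

/-- the class number of `PSL_n` from above. -/
theorem PSL_upper (hn : 2 ≤ n) :
    Nat.gcd n (Fintype.card F - 1) * Nat.card (ConjClasses (Matrix.ProjectiveSpecialLinearGroup (Fin n) F)) ≤
      Fintype.card F ^ (n - 1) + 5 * Fintype.card F ^ (n - 2) := by
  have hq : 2 ≤ Fintype.card F := Fintype.one_lt_card
  refine le_trans (PSL_bounds (by omega)).2 ?_
  rcases (by omega : n = 2 ∨ n = 3 ∨ n = 4 ∨ n = 5 ∨ n = 6 ∨ 7 ≤ n) with rfl | rfl | rfl | rfl | rfl | h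
  · have h1 := SL_two (F := F)
    have h2 := R_two (F := F)
    have h3 : (if 2 ∣ Fintype.card F - 1 then 2 else 0) ≤ 2 := by
      split_ifs <;> omega
    simp only [Nat.add_one_sub_one, pow_one, Nat.sub_self, pow_zero, mul_one]
    omega
  · have h1 := SL_three (F := F)
    have h2 := R_three (F := F)
    simp only [Nat.add_one_sub_one, Nat.reduceSub, pow_one]
    omega
  · have h1 := SL_four (F := F)
    have h2 := R_four (F := F)
    simp only [Nat.reduceSub]
    rcases (by omega : Fintype.card F = 2 ∨ 3 ≤ Fintype.card F) with h | h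
    · have h3 := card_Sn_le_Q (n := 4) (F := F)
      have h4 : Sn 4 F = ∅ := by
        rw [← Finset.card_eq_zero]
        omega
      rw [h4, Finset.sum_empty]
      nlinarith
    · nlinarith
  · have h1 := SL_large (n := 5) (F := F) (by omega)
    have h2 := R_five (F := F)
    simp only [Nat.reduceSub] at h1 ⊢
    nlinarith [pow_pos (show 0 < Fintype.card F by omega) 3, pow_succ (Fintype.card F) 3,
      pow_two (Fintype.card F), pow_succ (Fintype.card F) 2]
  · have h1 := SL_large (n := 6) (F := F) (by omega)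
    have h2 := R_six (F := F)
    simp only [Nat.reduceSub] at h1 ⊢
    nlinarith [pow_succ (Fintype.card F) 4]
  · have h1 := SL_large (F := F) (n := n) (by omega)
    have h2 := R_large (F := F) (n := n) h
    have h3 : n - 1 = n - 2 + 1 := by omega
    rw [h3, pow_succ]
    nlinarith

end Cfsg.Agent.Lib.ClassNum
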